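import Cfsg.Agent.PMinLie.Core
import Cfsg.Agent.Opp34.Small

/-!
The overgroup data for A₆ at the prime 2: the two classes of S₄.
-/

set_option autoImplicit false

namespace Cfsg.Agent.PMinLie.A6

open Equiv Equiv.Perm

abbrev A := alternatingGroup (Fin 6)

def a : A := ⟨swap 0 3 * swap 0 2 * swap 0 1 * swap 4 5, Equiv.Perm.mem_alternatingGroup.2 (by decide)⟩
def z : A := a * a
def x : A := ⟨swap 0 2 * swap 4 5, Equiv.Perm.mem_alternatingGroup.2 (by decide)⟩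
def y : A := ⟨swap 0 1 * swap 2 3, Equiv.Perm.mem_alternatingGroup.2 (by decide)⟩
def g1 : A := ⟨swap 0 4 * swap 0 1 * (swap 2 5 * swap 2 3), Equiv.Perm.mem_alternatingGroup.2 (by decide)⟩
def g2 : A := ⟨swap 0 2 * swap 0 1, Equiv.Perm.mem_alternatingGroup.2 (by decide)⟩

def T : List A := [1, a, z, z * a, x, z * x, y, z * y]
def V1 : List A := [1, z, x, z * x]
def V2 : List A := [1, z, y, z * y]

theorem centralizer_z : ∀ g : A, g * z = z * g ↔ g ∈ T := by decide +kernel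
theorem T_nodup : T.Nodup := by decide +kernel
theorem sq_T : ∀ u ∈ T, u * u = 1 ∨ u * u = z := by decide +kernel
theorem invol_T : ∀ u ∈ T, u * u = 1 → u ∈ V1 ∨ u ∈ V2 := by decide +kernel
theorem mixed_T : ∀ u ∈ V1, ∀ v ∈ V2, u ∉ V2 → v ∉ V1 → (u * v) * (u * v) ≠ 1 := by decide +kernel
theorem z_from : ∀ u ∈ T, u ≠ 1 → u ≠ z → ∃ v ∈ T, u * (v * u * v⁻¹) = z := by decide +kernel
theorem V1_inter : ∀ u ∈ V1, u ∈ V2 → u = 1 ∨ u = z := by decide +kernel
theorem V1_gen : ∀ u ∈ V1, u ≠ 1 → u ≠ z → ∀ v ∈ V1, v = 1 ∨ v = z ∨ v = u ∨ v = z * u := by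
  decide +kernel
theorem V2_gen : ∀ u ∈ V2, u ≠ 1 → u ≠ z → ∀ v ∈ V2, v = 1 ∨ v = z ∨ v = u ∨ v = z * u := by
  decide +kernel
theorem facts : z ≠ 1 ∧ (∀ v ∈ T, ∀ u ∈ V1, v * u * v⁻¹ ∈ V1) ∧ (∀ v ∈ T, ∀ u ∈ V2, v * u * v⁻¹ ∈ V2) ∧
    (∀ u ∈ V1, g1 * u * g1⁻¹ ∈ V1) ∧ (∀ u ∈ V2, g2 * u * g2⁻¹ ∈ V2) ∧
    g1 * z ≠ z * g1 ∧ g2 * z ≠ z * g2 ∧ g2 * x * g2⁻¹ ∉ V1 ∧ g1 * y * g1⁻¹ ∉ V2 := by
  refine ⟨?_, ?_, ?_, ?_, ?_, ?_, ?_, ?_, ?_⟩ <;> decide +kernel

/-- The elements normalising a finite set. -/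
theorem mem_normalizer_list {g : A} {l : List A} (h : ∀ u ∈ l, g * u * g⁻¹ ∈ l) :
    g ∈ Subgroup.normalizer ({u | u ∈ l} : Set A) :=
  Subgroup.mem_normalizer_fintype h

def U : Subgroup A := Subgroup.centralizer {z}

theorem mem_U {g : A} : g ∈ U ↔ g ∈ T := by
  rw [← centralizer_z, U, Subgroup.mem_centralizer_singleton_iff]

theorem card_U : Nat.card U = 8 := by
  rw [Nat.card_congr (Equiv.subtypeEquivRight (q := fun g => g ∈ T.toFinset)
    fun g => by rw [List.mem_toFinset]; exact mem_U), Nat.card_eq_fintype_card, Fintype.card_coe,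
    List.toFinset_card_of_nodup T_nodup]
  rfl

def P1 : Subgroup A := Subgroup.normalizer ({u | u ∈ V1} : Set A)
def P2 : Subgroup A := Subgroup.normalizer ({u | u ∈ V2} : Set A)

theorem U_le_P1 : U ≤ P1 := fun _ hg => mem_normalizer_list (facts.2.1 _ (mem_U.1 hg))
theorem U_le_P2 : U ≤ P2 := fun _ hg => mem_normalizer_list (facts.2.2.1 _ (mem_U.1 hg))

theorem inf_le : P1 ⊓ P2 ≤ U := by
  intro g hg
  have h1 := (Subgroup.mem_set_normalizer_iff.1 hg.1 z).1 (show z ∈ V1 by simp [V1])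
  have h2 := (Subgroup.mem_set_normalizer_iff.1 hg.2 z).1 (show z ∈ V2 by simp [V2])
  rw [U, Subgroup.mem_centralizer_singleton_iff]
  rcases V1_inter _ h1 h2 with e | e
  · exact absurd (conj_eq_one_iff.1 e) facts.1
  · exact mul_inv_eq_iff_eq_mul.1 e

theorem normalizer_U : Subgroup.normalizer (U : Set A) = U := by
  refine le_antisymm (fun g hg => ?_) Subgroup.le_normalizer
  rw [U, Subgroup.mem_centralizer_singleton_iff]
  have haU : a ∈ U := mem_U.2 (by simp [T])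
  have h1 := mem_U.1 ((Subgroup.mem_normalizer_iff.1 hg a).1 haU)
  have e : g * z * g⁻¹ = (g * a * g⁻¹) * (g * a * g⁻¹) := by rw [z]; group
  rcases sq_T _ h1 with h | h
  · exact absurd (conj_eq_one_iff.1 (e.trans h)) facts.1
  · exact mul_inv_eq_iff_eq_mul.1 (e.trans h)

/-- Proper overgroups of `U` lie in one of the two maximal ones. -/
theorem cases_le (L : Subgroup A) (hUL : U ≤ L) (hL : L ≠ ⊤) : L ≤ P1 ∨ L ≤ P2 := by
  classical
  haveI : Fact (Nat.Prime 2) := ⟨Nat.prime_two⟩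
  have hidx : ¬ 2 ∣ L.index := fun h => by
    have hA : Nat.card A = 360 := by
      rw [nat_card_alternatingGroup, Nat.card_fin]; rfl
    have h1 := U.card_mul_index
    rw [card_U, hA] at h1
    have h2 := h.trans (Subgroup.index_dvd_of_le hUL)
    omega
  set R := (Cfsg.pCore 2 ↥L).map L.subtype with hR
  have hR1 : R ≠ ⊥ := fun h => hL (Opp34.eq_top_alt_six (MulEquiv.refl A) L
    ((Subgroup.map_eq_bot_iff_of_injective _ L.subtype_injective).1 h) hidx)
  have hRn : ∀ g ∈ L, ∀ r ∈ R, g * r * g⁻¹ ∈ R := by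
    rintro g hg _ ⟨r, hr, rfl⟩
    exact ⟨⟨g, hg⟩ * r * ⟨g, hg⟩⁻¹, (inferInstance : (Cfsg.pCore 2 ↥L).Normal).conj_mem r hr ⟨g, hg⟩, by simp⟩
  have hRU : R ≤ U := by
    have hUp : IsPGroup 2 U := IsPGroup.of_card (n := 3) (by rw [card_U]; rfl)
    have hUi : ¬ 2 ∣ U.index := by
      have h1 := U.card_mul_index
      rw [card_U, nat_card_alternatingGroup, Nat.card_fin] at h1
      norm_num [Nat.factorial] at h1
      omega
    have hRp : IsPGroup 2 R := (PSolv.isPGroup_pCore _ _).map _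
    have hn : U ≤ Subgroup.normalizer (R : Set A) := fun g hg => Subgroup.mem_normalizer_fintype (hRn g (hUL hg))
    have h2 : IsPGroup 2 ↥(U ⊔ R) := hUp.to_sup_of_normal_right' hRp hn
    exact le_sup_right.trans ((hUp.toSylow hUi).is_maximal' h2 le_sup_left).le
  have hT : ∀ r ∈ R, r ∈ T := fun r hr => mem_U.1 (hRU hr)
  -- the involution `z` lies in `R`
  have hz : z ∈ R := by
    obtain ⟨r, hr, hr1⟩ := (Subgroup.nontrivial_iff_exists_ne_one R).1 ((Subgroup.nontrivial_iff_ne_bot R).2 hR1)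
    by_cases e : r = z
    · exact e ▸ hr
    obtain ⟨v, hv, ev⟩ := z_from r (hT r hr) hr1 e
    rw [← ev]
    exact mul_mem hr (hRn v (hUL (mem_U.2 hv)) r hr)
  -- a square in `R` pins `z`
  by_cases h4 : ∃ r ∈ R, r * r ≠ 1
  · obtain ⟨r, hr, hr4⟩ := h4
    have hrz := (sq_T r (hT r hr)).resolve_left hr4
    refine Or.inl (le_trans (show L ≤ U from fun g hg => ?_) U_le_P1)
    rw [U, Subgroup.mem_centralizer_singleton_iff]
    have e : g * z * g⁻¹ = (g * r * g⁻¹) * (g * r * g⁻¹) := by rw [← hrz]; group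
    rcases sq_T _ (hT _ (hRn g hg r hr)) with h | h
    · exact absurd (conj_eq_one_iff.1 (e.trans h)) facts.1
    · exact mul_inv_eq_iff_eq_mul.1 (e.trans h)
  push Not at h4
  by_cases h0 : ∀ r ∈ R, r = 1 ∨ r = z
  · refine Or.inl (le_trans (show L ≤ U from fun g hg => ?_) U_le_P1)
    rw [U, Subgroup.mem_centralizer_singleton_iff]
    rcases h0 _ (hRn g hg z hz) with h | h
    · exact absurd (conj_eq_one_iff.1 h) facts.1
    · exact mul_inv_eq_iff_eq_mul.1 h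
  push Not at h0
  obtain ⟨r, hr, hr1, hrz⟩ := h0
  have hin : ∀ (V W : List A), r ∈ V → (∀ v ∈ V, v = 1 ∨ v = z ∨ v = r ∨ v = z * r) →
      (∀ u ∈ R, u ∈ V ∨ u ∈ W) → (∀ u ∈ R, u ∈ W → u ∈ V) →
      L ≤ Subgroup.normalizer ({u | u ∈ V} : Set A) := by
    intro V W hrV hgen hor hW g hg
    have hVR : ∀ v ∈ V, v ∈ R := fun v hv => by
      rcases hgen v hv with rfl | rfl | rfl | rfl
      exacts [one_mem _, hz, hr, mul_mem hz hr]
    refine mem_normalizer_list fun v hv => ?_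
    have h1 := hRn g hg v (hVR v hv)
    exact (hor _ h1).elim id (hW _ h1)
  have hor : ∀ u ∈ R, u ∈ V1 ∨ u ∈ V2 := fun u hu => invol_T u (hT u hu) (h4 u hu)
  rcases hor r hr with h | h
  · refine Or.inl (hin V1 V2 h (V1_gen r h hr1 hrz) hor fun u hu hu2 => ?_)
    by_contra hu1
    exact mixed_T r h u hu2 (fun hr2 => (V1_inter r h hr2).elim hr1 hrz) hu1 (h4 _ (mul_mem hr hu))
  · refine Or.inr (hin V2 V1 h (V2_gen r h hr1 hrz) (fun u hu => (hor u hu).symm) fun u hu hu1 => ?_)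
    by_contra hu2
    exact mixed_T u hu1 r h hu2 (fun hr1' => (V1_inter r hr1' h).elim hr1 hrz) (h4 _ (mul_mem hu hr))

theorem alt_six_twoNode {G : Type*} [Group G] [Finite G] (e : G ≃* alternatingGroup (Fin 6)) :
    Has .twoNode 2 G := by
  haveI : Fact (Nat.Prime 2) := ⟨Nat.prime_two⟩
  refine Has.congr e ?_
  have hUi : ¬ 2 ∣ U.index := by
    have h1 := U.card_mul_index
    rw [card_U, nat_card_alternatingGroup, Nat.card_fin] at h1
    norm_num [Nat.factorial] at h1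
    omega
  refine ⟨(IsPGroup.of_card (n := 3) (by rw [card_U]; rfl) : IsPGroup 2 U).toSylow hUi, ?_⟩
  show TwoNodeAt U
  have hg1 : g1 ∈ P1 := mem_normalizer_list facts.2.2.2.1
  have hg2 : g2 ∈ P2 := mem_normalizer_list facts.2.2.2.2.1
  have hn1 : g2 ∉ P1 := fun h => facts.2.2.2.2.2.2.2.1 ((Subgroup.mem_set_normalizer_iff.1 h x).1 (show x ∈ V1 by simp [V1]))
  have hn2 : g1 ∉ P2 := fun h => facts.2.2.2.2.2.2.2.2 ((Subgroup.mem_set_normalizer_iff.1 h y).1 (show y ∈ V2 by simp [V2]))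
  refine ⟨P1, P2, fun h => hn1 (h ▸ Subgroup.mem_top _), fun h => hn2 (h ▸ Subgroup.mem_top _), ?_, ?_, ?_⟩
  · by_contra h
    rcases cases_le _ (U_le_P1.trans le_sup_left) h with h' | h'
    · exact hn1 (h' (Subgroup.mem_sup_right hg2))
    · exact hn2 (h' (Subgroup.mem_sup_left hg1))
  · rw [normalizer_U]
    exact le_antisymm inf_le (le_inf U_le_P1 U_le_P2)
  · intro L hL hne
    exact cases_le L (by rwa [normalizer_U] at hL) hne

end Cfsg.Agent.PMinLie.A6
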