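import Cfsg.Agent.PMinLie.Core
import Cfsg.Agent.KSG.AutSym
import Cfsg.Agent.S1082
import Cfsg.Prelude.Def_LieTypeChar

/-!
# Two stable overgroups in the Chevalley groups

A set of nodes invariant under the diagram symmetries gives two parabolic subgroups fixed by every
automorphism fixing `U`; for G₂ the two nodes cannot be exchanged by an element of 2-power order.
-/

set_option autoImplicit false

namespace Cfsg.Agent.PMinLie

open Cfsg.Lie Cfsg.Agent.ChevGrp Cfsg.Agent.KSG Cfsg.Agent.KSG.Aut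
open scoped MatrixGroups

variable {D : ChevalleyDatum} {F : Type} [Field F] [Finite F]

/-- The node permutation of a normalised automorphism, with the parameters of its laced part. -/
theorem exists_paramAut (hS : Rules D F)
    (hD : D ∈ [chevG2, chevB2, chevD4, chevF4, chevE6, chevE7, chevE8])
    {β : MulAut ↥(D.group F)} (hβ : Normalised (gSys hS) β) :
    ∃ (π : Equiv.Perm (Fin D.rank)) (β' : MulAut ↥(D.group F)) (σ τ : Fin D.rank → F → F),
      ParamAut (gSys hS) β' π σ τ ∧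
      ∀ (i : Fin D.rank) (t : F), ∃ u, β ((gSys hS).x (D.neg (D.simple i)) t) =
        (gSys hS).x (D.neg (D.simple (π i))) u := by
  obtain ⟨len, hR⟩ := hS.root
  obtain ⟨π, σ, τ, hpos, hneg, hbij, hadd⟩ := exists_param (gSys hS) hS hR (gSys_full hS) hβ
  have h0 : ∀ i, σ i 0 = 0 := fun i => by
    have := hadd i 0 0
    rw [add_zero] at this
    exact left_eq_add.1 this
  have h1 : ∀ i, σ i 1 ≠ 0 := fun i h => one_ne_zero ((hbij i).1 (h.trans (h0 i).symm))
  let u : Fin D.rank → Fˣ := fun j => Units.mk0 (σ (π.symm j) 1) (h1 _)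
  have hc := chainStepOK_of_mem hD
  have hχ := charOf_isRootCharacter hR (chainEdgeOK_of_mem hD) u
  set χ := charOf D len u with hχdef
  have hval : ∀ i, (χ (D.simple (π i)) : F) = σ i 1 := fun i => by
    rw [hχdef, charOf_simple hR]
    simp [u]
  set d := diagAut hS hc hχ with hd
  have hsl := fun i : Fin D.rank => hR.simple_lt _ i.2
  refine ⟨π, d⁻¹ * β, fun i t => (σ i 1)⁻¹ * σ i t, fun i t => σ i 1 * τ i t, ?_,
    fun i t => ⟨_, hneg i t⟩⟩
  constructor
  · intro i t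
    show d.symm (β _) = _
    rw [hpos, hd, diagAut_symm_x hS hc hχ (hsl _), hval]
  · intro i t
    show d.symm (β _) = _
    rw [hneg, hd, diagAut_symm_x hS hc hχ (hR.neg_lt _ (hsl _)), hχ.1 _ (hsl _),
      Units.val_inv_eq_inv_val, inv_inv, hval]
  · exact fun i => (Equiv.mulLeft₀ _ (inv_ne_zero (h1 i))).bijective.comp (hbij i)
  · intro i t v
    rw [hadd, mul_add]
  · exact fun i => inv_mul_cancel₀ (h1 i)

section Nodes

variable {G : Type*} [Group G] (S : Sys D F G) {len : ℕ → ℕ} (hS : Rules D F) (hR : RootTable D len)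
include hS hR

omit [Finite F] in
theorem mem_of_nI_mem_PJ {J : Set ℕ} {j : Fin D.rank} (h : S.nI j ∈ S.PJ J) : (j : ℕ) ∈ J := by
  by_contra hj
  have hp := hR.simple_lt j j.2
  have hx : S.x (D.simple j) 1 ∈ S.UJ J := by
    refine S.x_mem_US (T := {r | D.IsPosRoot r ∧ ¬ D.InRootSub J r}) ⟨hR.simple_pos j, fun h' => ?_⟩ 1
    exact hj (by_contra fun hj' =>
      absurd ((hR.inRootSub_iff J hp).1 h') (ne_of_gt ((hR.outJ_simple J j).2 hj')))
  have h1 := (Subgroup.mem_normalizer_iff.1 (S.PJ_le_normalizer hS hR J h) _).1 hx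
  rw [(CentralExt.Symbol.nI_data S hS hR j).1] at h1
  have h2 : S.x (D.neg (D.simple j)) (-1) ∈ S.Ubar ⊓ S.Vbar :=
    ⟨S.US_mono (fun r hr => hr.1) h1, S.x_mem_US (hR.neg_simple_isNeg j) _⟩
  rw [Ubar_inf_Vbar S hS hR, Subgroup.mem_bot] at h2
  exact x_ne_one' S hR (hR.neg_lt _ hp) (neg_ne_zero.2 one_ne_zero) h2

end Nodes

/-- A node set cut out by every realised permutation gives two stable parabolic subgroups; in
general an automorphism maps `P_A` to `P_{π A}`. -/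
theorem chev_image (hS : Rules D F)
    (hD : D ∈ [chevG2, chevB2, chevD4, chevF4, chevE6, chevE7, chevE8])
    {α : MulAut ↥(D.group F)} (hU : (gSys hS).Ubar.map α.toMonoidHom = (gSys hS).Ubar) :
    ∃ (π : Equiv.Perm (Fin D.rank)) (β' : MulAut ↥(D.group F)) (σ τ : Fin D.rank → F → F),
      ParamAut (gSys hS) β' π σ τ ∧
      ∀ A B : Set ℕ, (∀ i : Fin D.rank, (i : ℕ) ∈ A → (π i : ℕ) ∈ B) →
        ((gSys hS).PJ A).map α.toMonoidHom ≤ (gSys hS).PJ B := by
  obtain ⟨len, hR⟩ := hS.root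
  set S := gSys hS
  have hF := gSys_full hS
  have hmem : ∀ g, α g ∈ S.Ubar ↔ g ∈ S.Ubar := fun g => by
    conv_lhs => rw [← hU]
    exact Subgroup.mem_map_iff_mem α.injective
  obtain ⟨x, hx⟩ := exists_conj_normalised S hS hR hF α hmem
  have hxB : x ∈ S.Bbar := by
    rw [← normalizer_Ubar_eq S hS hR hF, Subgroup.mem_normalizer_iff]
    intro g
    obtain ⟨g, rfl⟩ := α.surjective g
    rw [hmem]
    exact (hx.1 g).symm
  obtain ⟨π, β', σ, τ, hP, hneg⟩ := exists_paramAut hS hD hx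
  refine ⟨π, β', σ, τ, hP, fun A B hAB => ?_⟩
  have hxP : x ∈ S.PJ B := Subgroup.mem_sup_left hxB
  suffices h : (S.PJ A).map (MulAut.conj x * α).toMonoidHom ≤ S.PJ B by
    rintro _ ⟨g, hg, rfl⟩
    have h1 : x * α g * x⁻¹ ∈ S.PJ B := h ⟨g, hg, rfl⟩
    have h2 := mul_mem (mul_mem (inv_mem hxP) h1) hxP
    simpa [mul_assoc] using h2
  rw [Sys.PJ, Subgroup.map_sup, sup_le_iff, MonoidHom.map_closure, Subgroup.closure_le]
  refine ⟨?_, ?_⟩
  · rintro _ ⟨g, hg, rfl⟩
    exact Subgroup.mem_sup_left ((hx.mem_Bbar S hS hR hF g).2 hg)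
  · rintro _ ⟨_, ⟨i, hi, rfl⟩, rfl⟩
    obtain ⟨j, hj⟩ := exists_parabolic_image S hS hR hF hx i
    have hji : j = π i := by
      have hp := hR.neg_lt _ (hR.simple_lt i i.2)
      have hq := hR.neg_lt _ (hR.simple_lt (π i) (π i).2)
      obtain ⟨u, hu⟩ := hneg i 1
      have hu0 : u ≠ 0 := fun h0 => x_ne_one' S hR hp one_ne_zero (by
        rw [h0, S.x_zero hq] at hu
        exact (map_eq_one_iff _ (MulEquiv.injective _)).1 hu)
      have hm : S.x (D.neg (D.simple i)) 1 ∈ S.Vbar ⊓ S.PJ {(i : ℕ)} := by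
        rw [Vbar_inf_PJ S hS hR i]
        exact ⟨1, rfl⟩
      have h2 : S.x (D.neg (D.simple (π i))) u ∈ S.Vbar ⊓ S.PJ {(j : ℕ)} := by
        rw [← hu]
        exact ⟨(hx.2 _).2 hm.1, (hj _).2 hm.2⟩
      rw [Vbar_inf_PJ S hS hR j] at h2
      obtain ⟨t, ht⟩ := h2
      have h3 := S.x_root_inj hR hq (hR.neg_lt _ (hR.simple_lt j j.2)) hu0 ht.symm
      refine (hR.simple_inj ?_).symm
      rw [← hR.neg_neg_root (hR.simple_lt _ (π i).2), h3,
        hR.neg_neg_root (hR.simple_lt j j.2)]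
    have h4 := (hj _).2 ((nI_mem_PJ_iff S hS hR i i).2 rfl)
    refine (sup_le le_sup_left ?_ : S.PJ {(j : ℕ)} ≤ S.PJ B) h4
    rw [Subgroup.closure_le]
    rintro _ ⟨k, hk, rfl⟩
    refine Subgroup.mem_sup_right (Subgroup.subset_closure ⟨k, ?_, rfl⟩)
    rw [Set.mem_singleton_iff.1 hk, hji]
    exact hAB i hi

/-- The general construction. -/
theorem chev_twoStable (hS : Rules D F)
    (hD : D ∈ [chevG2, chevB2, chevD4, chevF4, chevE6, chevE7, chevE8]) {p : ℕ} [Fact p.Prime]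
    [CharP F p] (A : Finset ℕ) (a b : Fin D.rank) (ha : (a : ℕ) ∈ A) (hb : (b : ℕ) ∉ A)
    (hA : ∀ (π : Equiv.Perm (Fin D.rank)) (β' : MulAut ↥(D.group F)) (σ τ : Fin D.rank → F → F),
      ParamAut (gSys hS) β' π σ τ →
        (∀ i : Fin D.rank, ((π i : ℕ) ∈ A ↔ (i : ℕ) ∈ A)) ∨
          (Odd p ∧ ∀ i : Fin D.rank, ((π i : ℕ) ∈ A ↔ (i : ℕ) ∉ A))) :
    Has .twoStable p ↥(D.group F) := by
  obtain ⟨len, hR⟩ := hS.root
  set S := gSys hS
  have hF := gSys_full hS
  obtain ⟨hp, hidx⟩ := not_dvd_index (p := p) hS hR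
  refine ⟨hp.toSylow hidx, S.PJ {i | i ∈ A}, S.PJ {i | i ∉ A}, ?_, ?_, ?_, ?_, ?_, ?_, ?_⟩
  · exact (S.Ubar_le_Bbar).trans le_sup_left
  · exact (S.Ubar_le_Bbar).trans le_sup_left
  · exact fun h => hb (mem_of_nI_mem_PJ S hS hR (j := b) (h ▸ Subgroup.mem_top _))
  · exact fun h => mem_of_nI_mem_PJ S hS hR (J := {i | i ∉ A}) (j := a) (h ▸ Subgroup.mem_top _) ha
  · set P := S.PJ {i | i ∈ A} ⊔ S.PJ {i | i ∉ A}
    have hBP : S.Bbar ≤ P := le_sup_left.trans le_sup_left
    have hall : ∀ i : Fin D.rank, S.nI i ∈ P := fun i => by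
      by_cases hi : (i : ℕ) ∈ A
      · exact Subgroup.mem_sup_left (Subgroup.mem_sup_right (Subgroup.subset_closure ⟨i, hi, rfl⟩))
      · exact Subgroup.mem_sup_right (Subgroup.mem_sup_right (Subgroup.subset_closure ⟨i, hi, rfl⟩))
    refine eq_top_iff.2 fun g _ => ?_
    obtain ⟨u, hu, w, -, v, hv, rfl⟩ := S.mem_NF hS hR (g := g) (by rw [hF.top]; trivial)
    refine mul_mem (mul_mem (hBP hu) (list_prod_mem fun x hx => ?_))
      (hBP (S.Ubar_le_Bbar (S.US_mono (fun r h => h.1) hv)))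
    obtain ⟨i, -, rfl⟩ := List.mem_map.1 hx
    exact hall i
  all_goals
    intro α hα hU
    obtain ⟨π, β', σ, τ, hP, himg⟩ := chev_image hS hD (α := α) hU
    rcases hA π β' σ τ hP with h | ⟨hodd, h⟩
    · refine Subgroup.eq_of_le_of_card_ge (himg _ _ fun i hi => ?_)
        (Subgroup.card_map_of_injective α.injective).ge
      simpa [h i] using hi
    · exfalso
      have h1 : (S.PJ {i | i ∈ A}).map α.toMonoidHom ≤ S.PJ {i | i ∉ A} :=
        himg _ _ fun i hi => by simpa [h i] using hi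
      have h2 : (S.PJ {i | i ∉ A}).map α.toMonoidHom ≤ S.PJ {i | i ∈ A} :=
        himg _ _ fun i hi => by simpa [h i] using hi
      have hc : ∀ P : Subgroup ↥(D.group F), Nat.card ↥(P.map α.toMonoidHom) = Nat.card ↥P :=
        fun P => Subgroup.card_map_of_injective α.injective
      have c1 := Subgroup.card_le_of_le h1
      have c2 := Subgroup.card_le_of_le h2
      rw [hc] at c1 c2
      have e := eq_of_swap hodd α hα (Subgroup.eq_of_le_of_card_ge h1 (by rw [hc]; omega))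
        (Subgroup.eq_of_le_of_card_ge h2 (by rw [hc]; omega))
      exact mem_of_nI_mem_PJ S hS hR (J := {i | i ∉ A}) (j := a)
        (e ▸ Subgroup.mem_sup_right (Subgroup.subset_closure ⟨a, ha, rfl⟩)) ha

/-- The sets of nodes kept by every diagram symmetry. -/
theorem sym_invariant (A : Finset ℕ)
    (h : ∀ l ∈ symLists D D.rank, ∀ i < D.rank, decide (l.getD i 0 ∈ A) = decide (i ∈ A))
    (hS : Rules D F) (hD : D ∈ [chevG2, chevB2, chevD4, chevF4, chevE6, chevE7, chevE8])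
    {β : MulAut ↥(D.group F)} {π : Equiv.Perm (Fin D.rank)} {σ τ : Fin D.rank → F → F}
    (hP : ParamAut (gSys hS) β π σ τ) (i : Fin D.rank) : (π i : ℕ) ∈ A ↔ (i : ℕ) ∈ A := by
  obtain ⟨hπ, -⟩ := concl_of_mem hS hD hP
  have h1 := h _ (permList_mem hπ _ le_rfl) i i.2
  have e : (permList π D.rank).getD i 0 = (π i : ℕ) := by simp [permList, List.getD]
  rwa [e, decide_eq_decide] at h1

set_option maxRecDepth 100000 in
theorem sym_tables :
    (∀ l ∈ symLists chevF4 chevF4.rank, ∀ i < chevF4.rank,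
      decide (l.getD i 0 ∈ ({0, 3} : Finset ℕ)) = decide (i ∈ ({0, 3} : Finset ℕ))) ∧
    (∀ l ∈ symLists chevE6 chevE6.rank, ∀ i < chevE6.rank,
      decide (l.getD i 0 ∈ ({1, 3} : Finset ℕ)) = decide (i ∈ ({1, 3} : Finset ℕ))) ∧
    (∀ l ∈ symLists chevE7 chevE7.rank, ∀ i < chevE7.rank,
      decide (l.getD i 0 ∈ ({0} : Finset ℕ)) = decide (i ∈ ({0} : Finset ℕ))) ∧
    (∀ l ∈ symLists chevE8 chevE8.rank, ∀ i < chevE8.rank,
      decide (l.getD i 0 ∈ ({0} : Finset ℕ)) = decide (i ∈ ({0} : Finset ℕ))) := by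
  decide +kernel

set_option maxRecDepth 100000 in
theorem D4_invariant : ∃ c < chevD4.rank, ∀ l ∈ symLists chevD4 chevD4.rank, ∀ i < chevD4.rank,
    decide (l.getD i 0 ∈ ({c} : Finset ℕ)) = decide (i ∈ ({c} : Finset ℕ)) := by
  decide +kernel

variable {p : ℕ} [Fact p.Prime] [CharP F p]

theorem d4_twoStable : Has .twoStable p ↥(chevD4.group F) := by
  have hD : chevD4 ∈ [chevG2, chevB2, chevD4, chevF4, chevE6, chevE7, chevE8] := by simp
  have hS := Chev.rules_of_mem F hD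
  obtain ⟨c, hc, h⟩ := D4_invariant
  obtain ⟨b, hb⟩ : ∃ b : Fin chevD4.rank, (b : ℕ) ≠ c := by
    by_cases h0 : c = 0
    · exact ⟨⟨1, by decide⟩, by simp [h0]⟩
    · exact ⟨⟨0, by decide⟩, Ne.symm h0⟩
  exact chev_twoStable hS hD {c} ⟨c, hc⟩ b (by simp) (by simpa using hb)
    fun π β' σ τ hP => Or.inl fun i => sym_invariant _ h hS hD hP i

omit [CharP F p] in
theorem g2_twoStable [CharP F p] : Has .twoStable p ↥(chevG2.group F) := by
  have hD : chevG2 ∈ [chevG2, chevB2, chevD4, chevF4, chevE6, chevE7, chevE8] := by simp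
  have hS := Chev.rules_of_mem F hD
  refine chev_twoStable hS hD {0} ⟨0, by decide⟩ ⟨1, by decide⟩ (by simp) (by simp)
    fun π β' σ τ hP => ?_
  by_cases hfix : ∀ i, π i = i
  · exact Or.inl fun i => by rw [hfix]
  push Not at hfix
  have h3 := (concl_G2_char hS hP).2 hfix
  refine Or.inr ⟨?_, fun i => ?_⟩
  · rw [← ringChar.eq F p, h3]
    decide
  · have h2 : ∀ π : Equiv.Perm (Fin chevG2.rank), (∃ i, π i ≠ i) →
        ∀ i : Fin chevG2.rank, ((π i : ℕ) ∈ ({0} : Finset ℕ) ↔ (i : ℕ) ∉ ({0} : Finset ℕ)) := by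
      decide +kernel
    exact h2 π hfix i

/-- The exceptional Chevalley groups. -/
theorem exceptional_twoStable {G : Type*} [Group G] [Finite G] {p : ℕ} [Fact p.Prime]
    (h : Cfsg.IsExceptionalChevChar p G) : Has .twoStable p G := by
  obtain ⟨F, _, _, _, h⟩ := h
  obtain ⟨t1, t2, t3, t4⟩ := sym_tables
  have key : ∀ D : ChevalleyDatum, D ∈ [chevG2, chevB2, chevD4, chevF4, chevE6, chevE7, chevE8] →
      ∀ (A : Finset ℕ) (a b : Fin D.rank), (a : ℕ) ∈ A → (b : ℕ) ∉ A →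
      (∀ l ∈ symLists D D.rank, ∀ i < D.rank, decide (l.getD i 0 ∈ A) = decide (i ∈ A)) →
      Nonempty (G ≃* ↥(D.group F)) → Has .twoStable p G := by
    rintro D hD A a b ha hb ht ⟨e⟩
    exact (chev_twoStable (Chev.rules_of_mem F hD) hD A a b ha hb
      fun π β' σ τ hP => Or.inl fun i => sym_invariant A ht _ hD hP i).congr e
  rcases h with ⟨-, ⟨e⟩⟩ | h | h | h | h
  · exact g2_twoStable.congr e
  · exact key chevF4 (by simp) {0, 3} ⟨0, by decide⟩ ⟨1, by decide⟩ (by simp) (by simp) t1 h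
  · exact key chevE6 (by simp) {1, 3} ⟨1, by decide⟩ ⟨0, by decide⟩ (by simp) (by simp) t2 h
  · exact key chevE7 (by simp) {0} ⟨0, by decide⟩ ⟨1, by decide⟩ (by simp) (by simp) t3 h
  · exact key chevE8 (by simp) {0} ⟨0, by decide⟩ ⟨1, by decide⟩ (by simp) (by simp) t4 h

/-- The eight-dimensional orthogonal groups of plus type. -/
theorem plus_four_twoStable {G : Type*} [Group G] [Finite G] {p : ℕ} [Fact p.Prime] {F : Type}
    [Field F] [Fintype F] [CharP F p] (e : G ≃* Cfsg.POmega F (Cfsg.quadFormPlus 4 F)) :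
    Has .twoStable p G := by
  obtain ⟨e'⟩ := S1082.result (F := F)
  exact d4_twoStable.congr (e.trans e'.symm)

end Cfsg.Agent.PMinLie
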