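import Mathlib
import Cfsg.Prelude.Def_LocalEven

/-!
# p-minimal groups with a simple normal subgroup: the abstract part

Three kinds of overgroup data for a Sylow subgroup `U` of a simple group `K`, and what each one
implies for a p-minimal group containing `K` as a normal subgroup.
-/

set_option autoImplicit false

namespace Cfsg.Agent.PMinLie

variable {K : Type*} [Group K] {H : Type*} [Group H]

/-- Every automorphism of `p`-power order stabilising `U` stabilises `L`. -/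
def Stable (p : ℕ) (U L : Subgroup K) : Prop :=
  ∀ α : MulAut K, (∃ k, α ^ p ^ k = 1) → U.map α.toMonoidHom = U → L.map α.toMonoidHom = L

/-- Two stable proper overgroups of `U` generate. -/
def TwoStableAt (p : ℕ) (U : Subgroup K) : Prop :=
  ∃ L1 L2 : Subgroup K, U ≤ L1 ∧ U ≤ L2 ∧ L1 ≠ ⊤ ∧ L2 ≠ ⊤ ∧ L1 ⊔ L2 = ⊤ ∧
    Stable p U L1 ∧ Stable p U L2

/-- The normaliser of `U` is maximal (or everything). -/
def RankOneAt (U : Subgroup K) : Prop :=
  ∀ L : Subgroup K, Subgroup.normalizer (U : Set K) ≤ L →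
    L = Subgroup.normalizer (U : Set K) ∨ L = ⊤

/-- Exactly two maximal subgroups lie over the normaliser of `U`, and they meet in it. -/
def TwoNodeAt (U : Subgroup K) : Prop :=
  ∃ P1 P2 : Subgroup K, P1 ≠ ⊤ ∧ P2 ≠ ⊤ ∧ P1 ⊔ P2 = ⊤ ∧
    P1 ⊓ P2 = Subgroup.normalizer (U : Set K) ∧
    ∀ L : Subgroup K, Subgroup.normalizer (U : Set K) ≤ L → L ≠ ⊤ → L ≤ P1 ∨ L ≤ P2

theorem map_ne_top (e : K ≃* H) {L : Subgroup K} (h : L ≠ ⊤) : L.map e.toMonoidHom ≠ ⊤ := fun h' =>
  h (Subgroup.map_injective e.injective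
    (h'.trans (Subgroup.map_top_of_surjective e.toMonoidHom e.surjective).symm))

theorem map_normalizer (e : K ≃* H) (U : Subgroup K) :
    (Subgroup.normalizer (U : Set K)).map e.toMonoidHom =
      Subgroup.normalizer (U.map e.toMonoidHom : Set H) :=
  Subgroup.map_equiv_normalizer_eq U e

theorem map_map_symm (e : K ≃* H) (L : Subgroup H) :
    (L.map e.symm.toMonoidHom).map e.toMonoidHom = L := by
  ext x
  simp [Subgroup.mem_map]

theorem Stable.map {p : ℕ} {U L : Subgroup K} (e : K ≃* H) (h : Stable p U L) :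
    Stable p (U.map e.toMonoidHom) (L.map e.toMonoidHom) := by
  rintro α ⟨k, hk⟩ hU
  set β : MulAut K := (MulAut.congr e).symm α with hβ
  have hβe : ∀ x, e (β x) = α (e x) := fun x => by simp [hβ]
  have hmap : ∀ A : Subgroup K, (A.map β.toMonoidHom).map e.toMonoidHom =
      (A.map e.toMonoidHom).map α.toMonoidHom := fun A => by
    rw [Subgroup.map_map, Subgroup.map_map]
    congr 1
    ext x
    exact hβe x
  have hU' : U.map β.toMonoidHom = U :=
    Subgroup.map_injective e.injective ((hmap U).trans hU)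
  have hk' : β ^ p ^ k = 1 := by rw [hβ, ← map_pow, hk, map_one]
  rw [← hmap, h β ⟨k, hk'⟩ hU']

theorem TwoStableAt.map {p : ℕ} {U : Subgroup K} (e : K ≃* H) (h : TwoStableAt p U) :
    TwoStableAt p (U.map e.toMonoidHom) := by
  obtain ⟨L1, L2, h1, h2, n1, n2, hj, s1, s2⟩ := h
  exact ⟨L1.map e.toMonoidHom, L2.map e.toMonoidHom, Subgroup.map_mono h1, Subgroup.map_mono h2,
    map_ne_top e n1, map_ne_top e n2,
    by rw [← Subgroup.map_sup, hj, Subgroup.map_top_of_surjective _ e.surjective],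
    s1.map e, s2.map e⟩

theorem RankOneAt.map {U : Subgroup K} (e : K ≃* H) (h : RankOneAt U) :
    RankOneAt (U.map e.toMonoidHom) := by
  intro L hL
  rw [← map_map_symm e L, ← map_normalizer] at hL ⊢
  rcases h _ ((Subgroup.map_le_map_iff_of_injective e.injective).1 hL) with h' | h'
  · exact Or.inl (by rw [h'])
  · exact Or.inr (by rw [h', Subgroup.map_top_of_surjective _ e.surjective])

theorem TwoNodeAt.map {U : Subgroup K} (e : K ≃* H) (h : TwoNodeAt U) :
    TwoNodeAt (U.map e.toMonoidHom) := by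
  obtain ⟨P1, P2, n1, n2, hj, hi, hl⟩ := h
  refine ⟨P1.map e.toMonoidHom, P2.map e.toMonoidHom, map_ne_top e n1, map_ne_top e n2,
    by rw [← Subgroup.map_sup, hj, Subgroup.map_top_of_surjective _ e.surjective],
    by rw [← Subgroup.map_inf _ _ _ e.injective, hi, map_normalizer], fun L hL hne => ?_⟩
  rw [← map_map_symm e L, ← map_normalizer] at hL
  rw [← map_map_symm e L]
  rcases hl _ ((Subgroup.map_le_map_iff_of_injective e.injective).1 hL)
    (map_ne_top e.symm hne) with h' | h'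
  · exact Or.inl (Subgroup.map_mono h')
  · exact Or.inr (Subgroup.map_mono h')

/-- The data for some (hence every) Sylow subgroup. -/
inductive Kind
  | twoStable
  | rankOne
  | twoNode

/-- `K` has the data of the given kind at some Sylow subgroup. -/
def Has (c : Kind) (p : ℕ) (K : Type*) [Group K] : Prop :=
  ∃ U : Sylow p K,
    match c with
    | .twoStable => TwoStableAt p (U : Subgroup K)
    | .rankOne => RankOneAt (U : Subgroup K)
    | .twoNode => TwoNodeAt (U : Subgroup K)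

theorem Has.forall_sylow [Finite K] {p : ℕ} [Fact p.Prime] {c : Kind} (h : Has c p K)
    (U : Sylow p K) :
    match c with
    | .twoStable => TwoStableAt p (U : Subgroup K)
    | .rankOne => RankOneAt (U : Subgroup K)
    | .twoNode => TwoNodeAt (U : Subgroup K) := by
  obtain ⟨U0, h⟩ := h
  obtain ⟨g, rfl⟩ := MulAction.exists_smul_eq K U0 U
  have e : ((g • U0 : Sylow p K) : Subgroup K) =
      (U0 : Subgroup K).map (MulAut.conj g).toMonoidHom := rfl
  cases c <;> simp only [e] <;> exact h.map (MulAut.conj g)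

theorem Has.congr [Finite K] {p : ℕ} [Fact p.Prime] {c : Kind} (e : K ≃* H) (h : Has c p H) :
    Has c p K := by
  haveI : Finite H := Finite.of_equiv K e.toEquiv
  obtain ⟨U, h⟩ := h
  refine ⟨U.mapSurjective (f := e.symm.toMonoidHom) e.symm.surjective, ?_⟩
  cases c <;> simp only [Sylow.coe_mapSurjective] <;> exact h.map e.symm

/-- An automorphism stabilising `U` fixes or exchanges the two maximal overgroups. -/
theorem two_node_cases [Finite K] {U P1 P2 : Subgroup K} (n1 : P1 ≠ ⊤) (n2 : P2 ≠ ⊤)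
    (hj : P1 ⊔ P2 = ⊤) (hi : P1 ⊓ P2 = Subgroup.normalizer (U : Set K))
    (hl : ∀ L : Subgroup K, Subgroup.normalizer (U : Set K) ≤ L → L ≠ ⊤ → L ≤ P1 ∨ L ≤ P2)
    (α : MulAut K) (hU : U.map α.toMonoidHom = U) :
    (P1.map α.toMonoidHom = P1 ∧ P2.map α.toMonoidHom = P2) ∨
      (P1.map α.toMonoidHom = P2 ∧ P2.map α.toMonoidHom = P1) := by
  have hN : (Subgroup.normalizer (U : Set K)).map α.toMonoidHom =
      Subgroup.normalizer (U : Set K) := by rw [map_normalizer, hU]
  have h1 : Subgroup.normalizer (U : Set K) ≤ P1.map α.toMonoidHom :=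
    hN ▸ Subgroup.map_mono (hi ▸ inf_le_left)
  have h2 : Subgroup.normalizer (U : Set K) ≤ P2.map α.toMonoidHom :=
    hN ▸ Subgroup.map_mono (hi ▸ inf_le_right)
  have hjoin : P1.map α.toMonoidHom ⊔ P2.map α.toMonoidHom = ⊤ := by
    rw [← Subgroup.map_sup, hj, Subgroup.map_top_of_surjective _ α.surjective]
  have hc : ∀ P : Subgroup K, Nat.card ↥(P.map α.toMonoidHom) = Nat.card ↥P := fun P =>
    Subgroup.card_map_of_injective α.injective
  have heq : ∀ {A B : Subgroup K}, A ≤ B → Nat.card ↥B ≤ Nat.card ↥A → A = B := fun h h' =>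
    Subgroup.eq_of_le_of_card_ge h h'
  rcases hl _ h1 (map_ne_top α n1) with a | a <;> rcases hl _ h2 (map_ne_top α n2) with b | b
  · exact absurd (top_le_iff.1 (hjoin ▸ sup_le a b)) n1
  · exact Or.inl ⟨heq a (hc P1).ge, heq b (hc P2).ge⟩
  · have := Subgroup.card_le_of_le a
    have := Subgroup.card_le_of_le b
    rw [hc] at *
    exact Or.inr ⟨heq a (by rw [hc]; omega), heq b (by rw [hc]; omega)⟩
  · exact absurd (top_le_iff.1 (hjoin ▸ sup_le a b)) n2

/-- An element of odd `p`-power order cannot exchange two subgroups. -/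
theorem eq_of_swap {p : ℕ} (hp : Odd p) {P Q : Subgroup K} (α : MulAut K)
    (hα : ∃ k, α ^ p ^ k = 1) (h1 : P.map α.toMonoidHom = Q) (h2 : Q.map α.toMonoidHom = P) :
    P = Q := by
  obtain ⟨k, hk⟩ := hα
  have key : ∀ m : ℕ, (Even m → P.map (α ^ m).toMonoidHom = P) ∧
      (Odd m → P.map (α ^ m).toMonoidHom = Q) := by
    intro m
    induction m with
    | zero => exact ⟨fun _ => by ext x; simp, fun h => by simp at h⟩
    | succ m ih =>
      have e : P.map (α ^ (m + 1)).toMonoidHom =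
          (P.map (α ^ m).toMonoidHom).map α.toMonoidHom := by
        rw [Subgroup.map_map, pow_succ']; rfl
      refine ⟨fun h => ?_, fun h => ?_⟩
      · rw [e, ih.2 (by simpa [Nat.even_add_one] using h), h2]
      · rw [e, ih.1 (by simpa [Nat.odd_add_one] using h), h1]
  have := (key (p ^ k)).2 hp.pow
  rw [hk] at this
  rw [← this]
  ext x
  simp

theorem TwoNodeAt.twoStable [Finite K] {p : ℕ} (hp : Odd p) {U : Subgroup K} (h : TwoNodeAt U) :
    TwoStableAt p U := by
  obtain ⟨P1, P2, n1, n2, hj, hi, hl⟩ := h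
  have hU : U ≤ P1 ⊓ P2 := hi ▸ Subgroup.le_normalizer
  have hne : P1 ≠ P2 := fun e => n2 (by rw [← hj, e, sup_idem])
  refine ⟨P1, P2, hU.trans inf_le_left, hU.trans inf_le_right, n1, n2, hj, ?_, ?_⟩ <;>
    intro α hα hαU <;>
    rcases two_node_cases n1 n2 hj hi hl α hαU with h | h <;>
    first
    | exact h.1
    | exact h.2
    | exact absurd (eq_of_swap hp α hα h.1 h.2) hne

section PMinimal

variable {X : Type*} [Group X] [Finite X] {p : ℕ} [hpf : Fact p.Prime]

/-- The p-minimal group: `M = N_X(U)` unless there are two stable overgroups. -/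
theorem pminimal_main (hX : Cfsg.IsPMinimal p X) (K : Subgroup X) [K.Normal] [IsSimpleGroup ↥K]
    (U : Sylow p ↥K) (hU1 : (U : Subgroup ↥K) ≠ ⊥) (hU2 : (U : Subgroup ↥K) ≠ ⊤) :
    ¬ TwoStableAt p (U : Subgroup ↥K) ∧
    ((RankOneAt (U : Subgroup ↥K) ∨ TwoNodeAt (U : Subgroup ↥K)) →
      IsCoatom (Subgroup.normalizer (((U : Subgroup ↥K).map K.subtype : Subgroup X) : Set X))) ∧
    (TwoNodeAt (U : Subgroup ↥K) → p = 2 ∧ K ≠ ⊤) := by
  classical
  set UX : Subgroup X := (U : Subgroup ↥K).map K.subtype with hUX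
  obtain ⟨S, hS⟩ := (U.2.map K.subtype).exists_le_sylow
  obtain ⟨-, M, ⟨hM, hSM⟩, huniq⟩ := hX S
  have hSK : (S : Subgroup X).subgroupOf K = (U : Subgroup ↥K) := by
    refine U.3 (fun g => ?_) fun u hu => Subgroup.mem_subgroupOf.2 (hS ⟨u, hu, rfl⟩)
    obtain ⟨k, hk⟩ := S.2 ⟨_, Subgroup.mem_subgroupOf.1 g.2⟩
    exact ⟨k, Subtype.ext (Subtype.ext (by simpa using congrArg Subtype.val hk))⟩
  let c : X →* MulAut ↥K := MulAut.conjNormal
  have hcp : ∀ s ∈ (S : Subgroup X), ∃ k, c s ^ p ^ k = 1 := fun s hs => by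
    obtain ⟨k, hk⟩ := S.2 ⟨s, hs⟩
    refine ⟨k, ?_⟩
    rw [← map_pow, show s ^ p ^ k = 1 from congrArg Subtype.val hk, map_one]
  have hcU : ∀ s ∈ (S : Subgroup X),
      (U : Subgroup ↥K).map (c s).toMonoidHom = (U : Subgroup ↥K) := fun s hs => by
    ext x
    rw [Subgroup.mem_map_equiv, ← hSK, Subgroup.mem_subgroupOf, Subgroup.mem_subgroupOf,
      MulAut.conjNormal_symm_apply]
    exact ⟨fun h => by simpa [mul_assoc] using mul_mem (mul_mem hs h) (inv_mem hs),
      fun h => mul_mem (mul_mem (inv_mem hs) h) hs⟩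
  -- stable proper overgroups of `U` lie in `M`
  have hle : ∀ L : Subgroup ↥K, (U : Subgroup ↥K) ≤ L → L ≠ ⊤ →
      (∀ s ∈ (S : Subgroup X), L.map (c s).toMonoidHom = L) → L ≤ M.subgroupOf K := by
    intro L hUL hLne hLs
    set LX := L.map K.subtype
    have hnorm : (S : Subgroup X) ≤ Subgroup.normalizer (LX : Set X) := by
      intro s hs
      have key : ∀ t ∈ (S : Subgroup X), ∀ y ∈ LX, t * y * t⁻¹ ∈ LX := by
        rintro t ht _ ⟨y, hy, rfl⟩
        refine ⟨c t y, ?_, MulAut.conjNormal_apply _ _⟩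
        exact (hLs t ht).le ⟨y, hy, rfl⟩
      refine Subgroup.mem_normalizer_iff.2 fun y => ⟨key s hs y, fun h => ?_⟩
      simpa [mul_assoc] using key s⁻¹ (inv_mem hs) _ h
    have hne : LX ⊔ (S : Subgroup X) ≠ ⊤ := by
      intro htop
      refine hLne (eq_top_iff.2 fun x _ => ?_)
      have hx : (x : X) ∈ ((LX ⊔ (S : Subgroup X) : Subgroup X) : Set X) := by rw [htop]; trivial
      rw [Subgroup.coe_mul_of_right_le_normalizer_left _ _ hnorm] at hx
      obtain ⟨_, ⟨l, hl, rfl⟩, s, hs, e⟩ := Set.mem_mul.1 hx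
      have hsK : s ∈ K := by
        have : s = (K.subtype l)⁻¹ * (x : X) := by rw [← e]; group
        rw [this]
        exact mul_mem (inv_mem l.2) x.2
      have hsU : (⟨s, hsK⟩ : ↥K) ∈ (U : Subgroup ↥K) := hSK ▸ Subgroup.mem_subgroupOf.2 hs
      have : x = l * ⟨s, hsK⟩ := Subtype.ext e.symm
      rw [this]
      exact mul_mem hl (hUL hsU)
    obtain ⟨M', hM', hM'le⟩ := (eq_top_or_exists_le_coatom _).resolve_left hne
    obtain rfl := huniq M' ⟨hM', le_sup_right.trans hM'le⟩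
    exact fun l hl => Subgroup.mem_subgroupOf.2 (hM'le (Subgroup.mem_sup_left ⟨l, hl, rfl⟩))
  set NX := Subgroup.normalizer (UX : Set X) with hNX
  have hNK : NX.subgroupOf K = Subgroup.normalizer ((U : Subgroup ↥K) : Set ↥K) := by
    ext x
    rw [Subgroup.mem_subgroupOf, hNX, Subgroup.mem_normalizer_iff, Subgroup.mem_normalizer_iff]
    have hval : ∀ y : ↥K, (y : X) ∈ UX ↔ y ∈ (U : Subgroup ↥K) := fun y =>
      Subgroup.mem_map_iff_mem K.subtype_injective
    refine ⟨fun h y => ?_, fun h y => ?_⟩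
    · refine (hval y).symm.trans ((h (y : X)).trans ?_)
      exact hval (x * y * x⁻¹)
    · constructor
      · rintro ⟨y, hy, rfl⟩
        exact ⟨x * y * x⁻¹, (h y).1 hy, by simp⟩
      · rintro ⟨z, hz, e⟩
        refine ⟨x⁻¹ * z * x, (h _).2 (by simpa only [SetLike.mem_coe, mul_assoc, mul_inv_cancel_left,
          mul_inv_cancel, mul_one] using hz), ?_⟩
        simp only [Subgroup.coe_subtype] at e
        simp [e, mul_assoc]
  have hSN : (S : Subgroup X) ≤ NX := by
    intro s hs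
    have key : ∀ t ∈ (S : Subgroup X), ∀ y ∈ UX, t * y * t⁻¹ ∈ UX := by
      rintro t ht _ ⟨y, hy, rfl⟩
      exact ⟨c t y, (hcU t ht).le ⟨y, hy, rfl⟩, MulAut.conjNormal_apply _ _⟩
    refine Subgroup.mem_normalizer_iff.2 fun y => ⟨key s hs y, fun h => ?_⟩
    simpa [mul_assoc] using key s⁻¹ (inv_mem hs) _ h
  have hNne : NX ≠ ⊤ := by
    intro htop
    have : ((U : Subgroup ↥K)).Normal := by
      rw [← Subgroup.normalizer_eq_top_iff, ← hNK, htop, Subgroup.top_subgroupOf]
    exact (this.eq_bot_or_eq_top).elim hU1 hU2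
  have hNM : NX ≤ M := by
    obtain ⟨M', hM', hM'le⟩ := (eq_top_or_exists_le_coatom _).resolve_left hNne
    obtain rfl := huniq M' ⟨hM', hSN.trans hM'le⟩
    exact hM'le
  set MK := M.subgroupOf K with hMK
  have hMKne : MK ≠ ⊤ := fun h => hM.1 (top_le_iff.1 (by
    rw [← Sylow.normalizer_sup_eq_top (N := K) U]
    exact sup_le hNM (Subgroup.subgroupOf_eq_top.1 h)))
  have hNMK : Subgroup.normalizer ((U : Subgroup ↥K) : Set ↥K) ≤ MK :=
    hNK ▸ (Subgroup.comap_mono hNM)
  have hMKs : ∀ m ∈ M, MK.map (c m).toMonoidHom = MK := fun m hm => by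
    ext x
    rw [Subgroup.mem_map_equiv, hMK, Subgroup.mem_subgroupOf, Subgroup.mem_subgroupOf,
      MulAut.conjNormal_symm_apply]
    exact ⟨fun h => by simpa [mul_assoc] using mul_mem (mul_mem hm h) (inv_mem hm),
      fun h => mul_mem (mul_mem (inv_mem hm) h) hm⟩
  have hfin : MK = Subgroup.normalizer ((U : Subgroup ↥K) : Set ↥K) → IsCoatom NX := by
    intro e
    suffices h : M ≤ NX by rwa [le_antisymm hNM h]
    intro m hm
    have key : ∀ t ∈ M, ∀ y ∈ UX, t * y * t⁻¹ ∈ UX := by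
      rintro t ht _ ⟨y, hy, rfl⟩
      set U' := (U : Subgroup ↥K).map (c t).toMonoidHom
      have h1 : U' ≤ Subgroup.normalizer ((U : Subgroup ↥K) : Set ↥K) := by
        rw [← e, ← hMKs t ht, e]
        exact Subgroup.map_mono Subgroup.le_normalizer
      have h2 : IsPGroup p ↥(U' ⊔ (U : Subgroup ↥K)) :=
        (U.2.map _).to_sup_of_normal_right' U.2 h1
      have h3 : U' ≤ (U : Subgroup ↥K) := (U.3 h2 le_sup_right) ▸ le_sup_left
      exact ⟨c t y, h3 ⟨y, hy, rfl⟩, MulAut.conjNormal_apply _ _⟩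
    refine Subgroup.mem_normalizer_iff.2 fun y => ⟨key m hm y, fun h => ?_⟩
    simpa [mul_assoc] using key m⁻¹ (inv_mem hm) _ h
  have htwo : ∀ L1 L2 : Subgroup ↥K, (U : Subgroup ↥K) ≤ L1 → (U : Subgroup ↥K) ≤ L2 → L1 ≠ ⊤ →
      L2 ≠ ⊤ → L1 ⊔ L2 = ⊤ → (∀ s ∈ (S : Subgroup X), L1.map (c s).toMonoidHom = L1) →
      (∀ s ∈ (S : Subgroup X), L2.map (c s).toMonoidHom = L2) → False := by
    intro L1 L2 u1 u2 n1 n2 hj s1 s2
    exact hMKne (top_le_iff.1 (hj ▸ sup_le (hle L1 u1 n1 s1) (hle L2 u2 n2 s2)))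
  have hswap : ∀ P1 P2 : Subgroup ↥K, P1 ≠ ⊤ → P2 ≠ ⊤ → P1 ⊔ P2 = ⊤ →
      P1 ⊓ P2 = Subgroup.normalizer ((U : Subgroup ↥K) : Set ↥K) →
      (∀ L : Subgroup ↥K, Subgroup.normalizer ((U : Subgroup ↥K) : Set ↥K) ≤ L → L ≠ ⊤ →
        L ≤ P1 ∨ L ≤ P2) →
      ∃ s ∈ (S : Subgroup X), P1.map (c s).toMonoidHom = P2 ∧ P2.map (c s).toMonoidHom = P1 := by
    intro P1 P2 n1 n2 hj hi hl
    by_contra hcon
    have hU : (U : Subgroup ↥K) ≤ P1 ⊓ P2 := hi ▸ Subgroup.le_normalizer
    have hfix := fun s hs => (two_node_cases n1 n2 hj hi hl (c s) (hcU s hs)).resolve_right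
      fun h => hcon ⟨s, hs, h⟩
    exact htwo P1 P2 (hU.trans inf_le_left) (hU.trans inf_le_right) n1 n2 hj
      (fun s hs => (hfix s hs).1) fun s hs => (hfix s hs).2
  refine ⟨fun h => ?_, fun h => ?_, fun h => ?_⟩
  · obtain ⟨L1, L2, u1, u2, n1, n2, hj, s1, s2⟩ := h
    exact htwo L1 L2 u1 u2 n1 n2 hj (fun s hs => s1 _ (hcp s hs) (hcU s hs))
      fun s hs => s2 _ (hcp s hs) (hcU s hs)
  · rcases h with h | h
    · exact hfin ((h MK hNMK).resolve_right hMKne)
    · obtain ⟨P1, P2, n1, n2, hj, hi, hl⟩ := h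
      obtain ⟨s, hs, e1, e2⟩ := hswap P1 P2 n1 n2 hj hi hl
      refine hfin (le_antisymm ?_ hNMK)
      rw [← hi]
      rcases hl MK hNMK hMKne with h' | h'
      · exact le_inf h' (by rw [← hMKs s (hSM hs), ← e1]; exact Subgroup.map_mono h')
      · exact le_inf (by rw [← hMKs s (hSM hs), ← e2]; exact Subgroup.map_mono h') h'
  · obtain ⟨P1, P2, n1, n2, hj, hi, hl⟩ := h
    obtain ⟨s, hs, e1, e2⟩ := hswap P1 P2 n1 n2 hj hi hl
    have hne : P1 ≠ P2 := fun e => n2 (by rw [← hj, e, sup_idem])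
    refine ⟨(hpf.out.eq_two_or_odd').resolve_right fun hp =>
      hne (eq_of_swap hp _ (hcp s hs) e1 e2), fun hK => ?_⟩
    have hsK : s ∈ K := hK ▸ Subgroup.mem_top s
    have hsP : (⟨s, hsK⟩ : ↥K) ∈ P1 := by
      have h1 : (⟨s, hsK⟩ : ↥K) ∈ (U : Subgroup ↥K) := hSK ▸ Subgroup.mem_subgroupOf.2 hs
      have h2 := Subgroup.le_normalizer h1
      rw [← hi] at h2
      exact h2.1
    have hc : c s = MulAut.conj (⟨s, hsK⟩ : ↥K) :=
      MulEquiv.ext fun x => Subtype.ext (by simp [c, MulAut.conjNormal_apply])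
    refine hne (Eq.trans ?_ e1)
    ext x
    rw [Subgroup.mem_map_equiv, hc, MulAut.conj_symm_apply]
    exact ⟨fun hx => mul_mem (mul_mem (inv_mem hsP) hx) hsP,
      fun hx => by simpa [mul_assoc] using mul_mem (mul_mem hsP hx) (inv_mem hsP)⟩

end PMinimal

end Cfsg.Agent.PMinLie
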