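import Cfsg.Agent.PMinLie.Core
import Cfsg.Agent.AutPSL.Main
import Cfsg.Agent.AutPSL.TvSylow
import Cfsg.Agent.Opp34.Linear

/-!
# The overgroup data in PSL_n

The subspaces invariant under the upper unitriangular group are the members of the standard flag;
an automorphism fixing its image keeps the flag or turns it around.
-/

set_option autoImplicit false
set_option linter.unusedSectionVars false

namespace Cfsg.Agent.PMinLie.PSL

open Matrix Cfsg.Agent.AutPSL

variable {F : Type} [Field F] [Finite F] {n : ℕ}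

local notation "SLn" => Matrix.SpecialLinearGroup (Fin n) F
local notation "PSLn" => Matrix.ProjectiveSpecialLinearGroup (Fin n) F
local notation "V" => Fin n → F
local notation "Mat" => Matrix (Fin n) (Fin n) F

private theorem smulCommSL :
    SMulCommClass F (SpecialLinearGroup (Fin n) F) (Fin n → F) := SMulCommClass.symm _ _ _

attribute [local instance] smulCommSL

/-- The member `span(e_0, …, e_{k-1})` of the standard flag. -/
def E (n : ℕ) (F : Type) [Field F] (k : ℕ) : Submodule F (Fin n → F) where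
  carrier := {v | ∀ i : Fin n, k ≤ i.val → v i = 0}
  add_mem' ha hb i hi := by simp [ha i hi, hb i hi]
  zero_mem' _ _ := rfl
  smul_mem' c v hv i hi := by simp [hv i hi]

/-- The span of the last basis vectors. -/
def E' (n : ℕ) (F : Type) [Field F] (k : ℕ) : Submodule F (Fin n → F) where
  carrier := {v | ∀ i : Fin n, i.val < k → v i = 0}
  add_mem' ha hb i hi := by simp [ha i hi, hb i hi]
  zero_mem' _ _ := rfl
  smul_mem' c v hv i hi := by simp [hv i hi]

/-- The elements fixing the members of the flag with index in `A`. -/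
def LA (n : ℕ) (F : Type) [Field F] [Finite F] (A : Set ℕ) :
    Subgroup (Matrix.SpecialLinearGroup (Fin n) F) :=
  subgroupOfIdempotent
    {s | ∀ k ∈ A, ∀ i j : Fin n, k ≤ i.val → j.val < k → (s : Matrix (Fin n) (Fin n) F) i j = 0}
    ⟨1, fun k _ i j hi hj => by
      have : i ≠ j := fun e => by rw [e] at hi; omega
      simp [this]⟩ (by
      ext s
      constructor
      · rintro ⟨a, ha, b, hb, rfl⟩ k hk i j hi hj
        show ((a : Matrix (Fin n) (Fin n) F) * (b : Matrix (Fin n) (Fin n) F)) i j = 0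
        rw [Matrix.mul_apply]
        refine Finset.sum_eq_zero fun l _ => ?_
        rcases lt_or_ge l.val k with h | h
        · rw [ha k hk i l hi h, zero_mul]
        · rw [hb k hk l j h hj, mul_zero]
      · intro hs
        exact ⟨s, hs, 1, fun k _ i j hi hj => by
          have : i ≠ j := fun e => by rw [e] at hi; omega
          simp [this], mul_one s⟩)

theorem mem_LA {A : Set ℕ} {s : SLn} :
    s ∈ LA n F A ↔ ∀ k ∈ A, ∀ i j : Fin n, k ≤ i.val → j.val < k → (s : Mat) i j = 0 := Iff.rfl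

theorem smul_eq (s : SLn) (v : V) : s • v = (s : Mat) *ᵥ v := rfl

theorem cmul (a b : SLn) : ((a * b : SLn) : Mat) = (a : Mat) * (b : Mat) := rfl

theorem mem_LA_iff {A : Set ℕ} {s : SLn} :
    s ∈ LA n F A ↔ ∀ k ∈ A, ∀ v ∈ E n F k, (s : Mat) *ᵥ v ∈ E n F k := by
  rw [mem_LA]
  refine forall₂_congr fun k _ => ⟨fun h v hv i hi => ?_, fun h i j hi hj => ?_⟩
  · show ∑ j, (s : Mat) i j * v j = 0
    refine Finset.sum_eq_zero fun j _ => ?_
    rcases lt_or_ge j.val k with hj | hj
    · show (s : Mat) i j * v j = 0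
      rw [h i j hi hj, zero_mul]
    · show (s : Mat) i j * v j = 0
      rw [hv j hj, mul_zero]
  · have hv : (Pi.single j 1 : V) ∈ E n F k := fun l hl => by
      have : l ≠ j := fun e => by rw [e] at hl; omega
      simp [this]
    simpa [Matrix.mulVec_single_one] using h _ hv i hi

theorem uni_le_LA (A : Set ℕ) : uni n F ≤ LA n F A := fun s hs => mem_LA.2 fun k _ i j hi hj => by
  exact (mem_uni.1 hs).2 (show id j < id i from Fin.lt_def.2 (by simp only [id]; omega))

theorem LA_inf (A B : Set ℕ) : LA n F A ⊓ LA n F B = LA n F (A ∪ B) := by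
  ext s
  simp only [Subgroup.mem_inf, mem_LA, Set.mem_union, or_imp, forall_and]

theorem tr_mulVec {i j : Fin n} (hij : i ≠ j) (c : F) (v : V) :
    ((SpecialLinearGroup.transvection hij c : SLn) : Mat) *ᵥ v = v + Pi.single i (c * v j) := by
  rw [SpecialLinearGroup.transvection_coe, Matrix.add_mulVec, Matrix.one_mulVec,
    Matrix.single_mulVec_eq]
  ext l
  simp [Pi.single_apply]

/-- The flag members are the only subspaces invariant under `uni`. -/
theorem eq_E (W : Submodule F V) (hW : ∀ t ∈ uni n F, ∀ w ∈ W, (t : Mat) *ᵥ w ∈ W) :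
    ∃ k ≤ n, W = E n F k := by
  classical
  have hlow : ∀ v ∈ W, ∀ m : Fin n, v m ≠ 0 → ∀ i < m, (Pi.single i 1 : V) ∈ W := by
    intro v hv m hm i hi
    have h1 := W.sub_mem (hW _ (transvection_mem_uni hi (v m)⁻¹) v hv) hv
    rwa [tr_mulVec, add_sub_cancel_left, inv_mul_cancel₀ hm] at h1
  set S : Finset (Fin n) := Finset.univ.filter fun m => ∃ v ∈ W, v m ≠ 0 with hS
  by_cases hne : S.Nonempty
  · set m := S.max' hne with hm
    obtain ⟨v, hv, hvm⟩ := (Finset.mem_filter.1 (S.max'_mem hne)).2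
    have htop : ∀ w ∈ W, w ∈ E n F (m.val + 1) := fun w hw l hl => by
      by_contra hne'
      have := S.le_max' l (Finset.mem_filter.2 ⟨Finset.mem_univ _, w, hw, hne'⟩)
      rw [← hm, Fin.le_def] at this
      omega
    refine ⟨m.val + 1, m.2, le_antisymm htop fun w hw => ?_⟩
    have hbelow : ∀ u : V, (∀ i, m ≤ i → u i = 0) → u ∈ W := fun u hu => by
      rw [← Finset.univ_sum_single u]
      refine W.sum_mem fun i _ => ?_
      rcases lt_or_ge i m with hi | hi
      · have := W.smul_mem (u i) (hlow v hv m hvm i hi)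
        rwa [← Pi.single_smul', smul_eq_mul, mul_one] at this
      · rw [hu i hi, Pi.single_zero]; exact W.zero_mem
    have h1 : w - (w m / v m) • v ∈ W := hbelow _ fun i hi => by
      rcases eq_or_lt_of_le hi with rfl | hlt
      · rw [← hm] at hvm
        rw [Pi.sub_apply, Pi.smul_apply, smul_eq_mul, div_mul_cancel₀ _ hvm, sub_self]
      · have hlt' : m.val < i.val := hlt
        simp [hw i (by omega), htop v hv i (by omega)]
    simpa using W.add_mem h1 (W.smul_mem (w m / v m) hv)
  · refine ⟨0, Nat.zero_le _, le_antisymm (fun w hw l _ => ?_) fun w hw => ?_⟩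
    · by_contra h
      exact hne ⟨l, Finset.mem_filter.2 ⟨Finset.mem_univ _, w, hw, h⟩⟩
    · rw [show w = 0 from funext fun l => hw l (Nat.zero_le _)]
      exact W.zero_mem

theorem E_mono {j k : ℕ} (h : j ≤ k) : E n F j ≤ E n F k := fun _ hv i hi => hv i (h.trans hi)

theorem E_injective {j k : ℕ} (hj : j ≤ n) (hk : k ≤ n) (h : E n F j = E n F k) : j = k := by
  wlog hjk : j < k generalizing j k
  · rcases (not_lt.1 hjk).eq_or_lt with h' | h'
    · exact h'.symm
    · exact (this hk hj h.symm h').symm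
  have hv : (Pi.single ⟨j, by omega⟩ 1 : V) ∈ E n F k := fun l hl => by
    have : l ≠ ⟨j, by omega⟩ := fun e => by rw [e] at hl; simp at hl; omega
    simp [this]
  rw [← h] at hv
  exact absurd (hv ⟨j, by omega⟩ le_rfl) (by simp)

theorem eq_of_card {j k : ℕ} {W : Submodule F V} (hW : W = E n F j)
    (hc : Nat.card W = Nat.card (E n F k)) : W = E n F k := by
  have key : ∀ A B : Submodule F V, A ≤ B → Nat.card B ≤ Nat.card A → A = B := fun A B h hcard =>
    Submodule.toAddSubgroup_injective (AddSubgroup.eq_of_le_of_card_ge h hcard)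
  subst hW
  rcases le_total j k with h | h
  · exact key _ _ (E_mono h) hc.ge
  · exact (key _ _ (E_mono h) hc.le).symm

theorem card_E' {k : ℕ} (hk : k ≤ n) : Nat.card (E' n F k) = Nat.card (E n F (n - k)) :=
  Nat.card_congr
    { toFun := fun v => ⟨fun i => v.1 i.rev, fun i hi => v.2 _ (by rw [Fin.val_rev]; omega)⟩
      invFun := fun v => ⟨fun i => v.1 i.rev, fun i hi => v.2 _ (by rw [Fin.val_rev]; omega)⟩
      left_inv := fun v => Subtype.ext (funext fun i => by simp)
      right_inv := fun v => Subtype.ext (funext fun i => by simp) }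

/-- The image in PSL_n. -/
abbrev LP (n : ℕ) (F : Type) [Field F] [Finite F] (A : Set ℕ) :
    Subgroup (Matrix.ProjectiveSpecialLinearGroup (Fin n) F) := (LA n F A).map proj

theorem proj_mem_LP {A : Set ℕ} {s : SLn} : proj s ∈ LP n F A ↔ s ∈ LA n F A := by
  refine ⟨?_, fun h => ⟨s, h, rfl⟩⟩
  rintro ⟨t, ht, e⟩
  obtain ⟨c, hc⟩ := proj_eq_proj_iff.1 e
  exact mem_LA.2 fun k hk i j hi hj => by rw [hc]; simp [mem_LA.1 ht k hk i j hi hj]

theorem proj_uni_le (A : Set ℕ) : (uni n F).map proj ≤ LP n F A := Subgroup.map_mono (uni_le_LA A)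

/-- A subspace invariant under the lifts of an automorphism fixing `U` is a flag member. -/
theorem invariant_image {α : MulAut PSLn}
    (hU : ((uni n F).map proj).map α.toMonoidHom = (uni n F).map proj) (e : SLn → SLn)
    (hα : ∀ s, α (proj s) = proj (e s)) (W : Submodule F V)
    (hW : ∀ s ∈ uni n F, ∀ w ∈ W, (e s : Mat) *ᵥ w ∈ W) : ∃ k ≤ n, W = E n F k := by
  refine eq_E W fun t ht w hw => ?_
  have h1 : proj t ∈ ((uni n F).map proj).map α.toMonoidHom := hU.symm ▸ ⟨t, ht, rfl⟩
  obtain ⟨_, ⟨s, hs, rfl⟩, h⟩ := h1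
  obtain ⟨c, hc⟩ := proj_eq_proj_iff.1 ((hα s).symm.trans h)
  rw [hc, Matrix.smul_mulVec]
  exact W.smul_mem c (hW s hs w hw)

theorem map_gl_card (g : GL (Fin n) F) (W : Submodule F V) :
    Nat.card (W.map (g : Mat).mulVecLin) = Nat.card W :=
  (Nat.card_congr (Submodule.equivMapOfInjective _ (fun v w h => by
    have := congrArg (((g⁻¹ : GL (Fin n) F) : Mat) *ᵥ ·) h
    simpa [Matrix.mulVecLin_apply, Matrix.mulVec_mulVec] using this) W).toEquiv).symm

/-- An automorphism fixing `U` keeps the flag or turns it around. -/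
theorem image_LP (hn : 2 ≤ n) (α : MulAut PSLn)
    (hU : ((uni n F).map proj).map α.toMonoidHom = (uni n F).map proj) :
    (∀ A : Set ℕ, (∀ k ∈ A, k ≤ n) → (LP n F A).map α.toMonoidHom ≤ LP n F A) ∨
      ∀ A : Set ℕ, (∀ k ∈ A, k ≤ n) → (∀ k ∈ A, n - k ∈ A) →
        (LP n F A).map α.toMonoidHom ≤ LP n F A := by
  have hfld : ∀ (σ : F ≃+* F) (A : Set ℕ), ∀ s ∈ LA n F A, slField σ s ∈ LA n F A := by
    intro σ A s hs k hk i j hi hj
    show ((slField σ s : SLn) : Mat) i j = 0
    rw [slField_coe, Matrix.map_apply, mem_LA.1 hs k hk i j hi hj, map_zero]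
  have hconj : ∀ (g : GL (Fin n) F) (s : SLn) (v : V),
      (slConj g s : Mat) *ᵥ ((g : Mat) *ᵥ v) = (g : Mat) *ᵥ ((s : Mat) *ᵥ v) := fun g s v => by
    rw [slConj_coe, Matrix.mulVec_mulVec, Matrix.mulVec_mulVec, mul_assoc, ← Units.val_mul,
      inv_mul_cancel, Units.val_one, mul_one]
  obtain ⟨g, σ, h | h⟩ := AutPSL.exists_decomp hn α
  · left
    have hα : ∀ s, α (proj s) = proj (slConj g (slField σ s)) := fun s => by
      rw [h, MulAut.mul_apply, fieldAut_proj, conjAut_proj]
    have hWk : ∀ k ≤ n, (E n F k).map (g : Mat).mulVecLin = E n F k := by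
      intro k hk
      obtain ⟨j, -, hj⟩ := invariant_image hU _ hα ((E n F k).map (g : Mat).mulVecLin) (by
        rintro s hs _ ⟨v, hv, rfl⟩
        refine ⟨((slField σ s : SLn) : Mat) *ᵥ v,
          mem_LA_iff.1 (hfld σ {k} s (uni_le_LA _ hs)) k rfl v hv, ?_⟩
        exact (hconj g (slField σ s) v).symm)
      exact eq_of_card hj (map_gl_card g _)
    rintro A hA _ ⟨_, ⟨s, hs, rfl⟩, rfl⟩
    refine ⟨slConj g (slField σ s), mem_LA_iff.2 fun k hk w hw => ?_, (hα s).symm⟩
    rw [← hWk k (hA k hk)] at hw ⊢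
    obtain ⟨v, hv, rfl⟩ := hw
    exact ⟨_, mem_LA_iff.1 (hfld σ A s hs) k hk v hv, (hconj g (slField σ s) v).symm⟩
  · right
    have hα : ∀ s, α (proj s) = proj (slConj g (slField σ (slInvT s))) := fun s => by
      rw [h, MulAut.mul_apply, MulAut.mul_apply, invTAut_proj, fieldAut_proj, conjAut_proj]
    have hT : ∀ (A : Set ℕ), ∀ s ∈ LA n F A, ∀ k ∈ A, ∀ v ∈ E' n F k,
        ((slField σ (slInvT s) : SLn) : Mat) *ᵥ v ∈ E' n F k := by
      intro A s hs k hk v hv i hi
      show ∑ j, ((slField σ (slInvT s) : SLn) : Mat) i j * v j = 0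
      refine Finset.sum_eq_zero fun j _ => ?_
      show ((slField σ (slInvT s) : SLn) : Mat) i j * v j = 0
      rcases lt_or_ge j.val k with hj | hj
      · rw [hv j hj, mul_zero]
      · rw [slField_coe, Matrix.map_apply, slInvT_coe, Matrix.transpose_apply,
          mem_LA.1 (inv_mem hs) k hk j i hj hi, map_zero, zero_mul]
    have hWk : ∀ k ≤ n, (E' n F k).map (g : Mat).mulVecLin = E n F (n - k) := by
      intro k hk
      obtain ⟨j, -, hj⟩ := invariant_image hU _ hα ((E' n F k).map (g : Mat).mulVecLin) (by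
        rintro s hs _ ⟨v, hv, rfl⟩
        exact ⟨_, hT {k} s (uni_le_LA _ hs) k rfl v hv, (hconj g (slField σ (slInvT s)) v).symm⟩)
      exact eq_of_card hj ((map_gl_card g _).trans (card_E' hk))
    rintro A hA hsymm _ ⟨_, ⟨s, hs, rfl⟩, rfl⟩
    refine ⟨slConj g (slField σ (slInvT s)), mem_LA_iff.2 fun k hk w hw => ?_, (hα s).symm⟩
    have hkn : n - (n - k) = k := Nat.sub_sub_self (hA k hk)
    rw [← hkn, ← hWk (n - k) (Nat.sub_le _ _)] at hw ⊢
    obtain ⟨v, hv, rfl⟩ := hw
    exact ⟨_, hT A s hs _ (hsymm k hk) v hv, (hconj g (slField σ (slInvT s)) v).symm⟩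

/-- The normaliser of `U`: the elements fixing the flag. -/
theorem normalizer_eq (A : Set ℕ) (hA : ∀ k, k ∈ A ↔ 1 ≤ k ∧ k < n) :
    Subgroup.normalizer ((uni n F).map proj : Set PSLn) = LP n F A := by
  classical
  refine le_antisymm (fun x hx => ?_) ?_
  · obtain ⟨h, rfl⟩ := proj_surjective x
    have hU : ((uni n F).map proj).map (MulAut.conj (proj h)).toMonoidHom = (uni n F).map proj := by
      refine Subgroup.eq_of_le_of_card_ge ?_ (Subgroup.card_map_of_injective (MulEquiv.injective _)).ge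
      rintro _ ⟨y, hy, rfl⟩
      exact (Subgroup.mem_normalizer_iff.1 hx y).1 hy
    rw [proj_mem_LP, mem_LA_iff]
    intro k hk w hw
    set g : GL (Fin n) F := SpecialLinearGroup.toGL h
    have hg : (g : Mat) = (h : Mat) := rfl
    obtain ⟨j, -, hj⟩ := invariant_image hU (fun s => h * s * h⁻¹)
      (fun s => by simp) ((E n F k).map (g : Mat).mulVecLin) (by
        rintro s hs _ ⟨v, hv, rfl⟩
        refine ⟨(s : Mat) *ᵥ v, mem_LA_iff.1 (uni_le_LA {k} hs) k rfl v hv, ?_⟩
        rw [Matrix.mulVecLin_apply, Matrix.mulVecLin_apply, Matrix.mulVec_mulVec, Matrix.mulVec_mulVec,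
          hg, ← cmul, ← cmul]
        simp)
    have e := eq_of_card hj (map_gl_card g _)
    exact e ▸ ⟨w, hw, rfl⟩
  · rintro _ ⟨h, hh, rfl⟩
    have htri : ∀ h ∈ LA n F A, (h : Mat).BlockTriangular id := fun h hh i j hij => by
      have hji : j.val < i.val := hij
      exact mem_LA.1 hh i.val ((hA _).2 ⟨by omega, i.2⟩) i j le_rfl hji
    have hdiag : ∀ {a b : Mat}, a.BlockTriangular id → b.BlockTriangular id → ∀ i,
        (a * b) i i = a i i * b i i := fun {a b} ha hb i => by
      rw [Matrix.mul_apply, Finset.sum_eq_single i (fun l _ hl => ?_) (by simp)]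
      rcases lt_or_gt_of_ne hl with h | h
      · rw [ha h, zero_mul]
      · rw [hb h, mul_zero]
    have key : ∀ h ∈ LA n F A, ∀ y ∈ (uni n F).map proj,
        proj h * y * (proj h)⁻¹ ∈ (uni n F).map proj := by
      rintro h hh _ ⟨u, hu, rfl⟩
      refine ⟨h * u * h⁻¹, mem_uni.2 ⟨fun i => ?_, ?_⟩, by simp⟩
      · rw [cmul, cmul,
          hdiag ((htri h hh).mul (mem_uni.1 hu).2) (htri _ (inv_mem hh)),
          hdiag (htri h hh) (mem_uni.1 hu).2, (mem_uni.1 hu).1 i, mul_one,
          ← hdiag (htri h hh) (htri _ (inv_mem hh)), ← cmul, mul_inv_cancel]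
        simp
      · rw [cmul, cmul]
        exact ((htri h hh).mul (mem_uni.1 hu).2).mul (htri _ (inv_mem hh))
    refine Subgroup.mem_normalizer_iff.2 fun y => ⟨key h hh y, fun hy => ?_⟩
    have := key h⁻¹ (inv_mem hh) _ hy
    simpa [mul_assoc] using this

/-- A proper overgroup of `uni` fixes a flag member. -/
theorem span_cases (hn : 2 ≤ n) (M : Subgroup SLn) (hM : uni n F ≤ M) (hne : M ≠ ⊤) :
    ∃ k, 1 ≤ k ∧ k < n ∧ M ≤ LA n F {k} := by
  classical
  have : NeZero n := ⟨by omega⟩
  set e : V := Pi.single 0 1 with he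
  set W : Submodule F V := Submodule.span F {z | ∃ m ∈ M, m • e = z} with hWdef
  have hstab : ∀ m ∈ M, ∀ z ∈ W, (m : Mat) *ᵥ z ∈ W := by
    intro m hm z hz
    rw [← smul_eq]
    induction hz using Submodule.span_induction with
    | mem z hz =>
      obtain ⟨m', hm', rfl⟩ := hz
      exact Submodule.subset_span ⟨m * m', mul_mem hm hm', mul_smul _ _ _⟩
    | zero => simp
    | add a b _ _ h1 h2 => rw [smul_add]; exact W.add_mem h1 h2
    | smul c a _ h1 => rw [smul_comm]; exact W.smul_mem _ h1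
  obtain ⟨k, hk, hWk⟩ := eq_E W fun t ht => hstab t (hM ht)
  have heW : e ∈ W := Submodule.subset_span ⟨1, one_mem _, one_smul _ _⟩
  have hk1 : 1 ≤ k := by
    by_contra h
    rw [hWk] at heW
    exact absurd (heW 0 (by omega)) (by simp [he])
  rcases hk.lt_or_eq with hlt | hkn
  · refine ⟨k, hk1, hlt, fun m hm => mem_LA_iff.2 fun k' hk' v hv => ?_⟩
    rw [Set.mem_singleton_iff.1 hk', ← hWk] at hv ⊢
    exact hstab m hm v hv
  exfalso
  have hconj : ∀ (g : SLn) (v : V), g ∈ M → Opp34.slRad (F ∙ v) ≤ M → Opp34.slRad (F ∙ (g • v)) ≤ M := by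
    intro g v hg hv A hA
    have h1 : g⁻¹ * A * g⁻¹⁻¹ ∈ Opp34.slRad (F ∙ v) := Opp34.slRad_conj (fun z => by
      conv_lhs => rw [← Opp34.sl_mem_span_iff g, smul_inv_smul]) hA
    have := mul_mem (mul_mem hg (hv h1)) (inv_mem hg)
    simpa [mul_assoc] using this
  have hQ : Opp34.slRad (F ∙ e) ≤ M := by
    intro A hA
    refine hM (mem_uni.2 ?_)
    have hent : ∀ i j : Fin n, i ≠ 0 → (A : Mat) i j = if i = j then 1 else 0 := by
      intro i j hi
      obtain ⟨c, hc⟩ := Submodule.mem_span_singleton.1 (hA.2 (Pi.single j 1))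
      have := congrFun hc i
      rw [Pi.smul_apply, Pi.sub_apply, he, Pi.single_eq_of_ne hi, smul_zero, smul_eq,
        Matrix.mulVec_single_one, Matrix.col_apply, eq_comm, sub_eq_zero] at this
      rw [this]
      by_cases h : i = j
      · subst h; simp
      · simp [h]
    have h00 : (A : Mat) 0 0 = 1 := by
      have := congrFun (hA.1 e (Submodule.mem_span_singleton_self e)) 0
      simpa [he, smul_eq, Matrix.mulVec_single_one] using this
    refine ⟨fun i => ?_, fun i j hij => ?_⟩
    · by_cases hi : i = 0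
      · rw [hi, h00]
      · rw [hent i i hi, if_pos rfl]
    · have hi : i ≠ 0 := fun h => by rw [h] at hij; exact absurd hij (Fin.not_lt_zero j)
      rw [hent i j hi, if_neg (show i ≠ j from fun e => by subst e; exact lt_irrefl _ hij)]
  have hall : ∀ v : V, v ≠ 0 → Opp34.slRad (F ∙ v) ≤ M := by
    intro v
    have hv : v ∈ W := by rw [hWk]; exact fun i hi => absurd hi (not_le.2 (hkn ▸ i.2))
    induction hv using Submodule.span_induction with
    | mem z hz =>
      obtain ⟨m, hm, rfl⟩ := hz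
      exact fun _ => hconj m e hm hQ
    | zero => exact fun h => absurd rfl h
    | add x y _ _ hx hy =>
      intro hxy
      by_cases hy0 : y = 0
      · rw [hy0, add_zero] at hxy ⊢; exact hx hxy
      by_cases hxs : x ∈ F ∙ y
      · obtain ⟨c, hc⟩ := Submodule.mem_span_singleton.1 hxs
        have hc1 : c + 1 ≠ 0 := fun h => hxy (by
          rw [← hc]
          calc c • y + y = (c + 1) • y := by rw [add_smul, one_smul]
            _ = 0 := by rw [h, zero_smul])
        have e3 : F ∙ (x + y) = F ∙ y := by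
          rw [← hc, show c • y + y = (c + 1) • y by rw [add_smul, one_smul],
            Submodule.span_singleton_smul_eq (IsUnit.mk0 _ hc1)]
        rw [e3]; exact hy hy0
      obtain ⟨f, hf, hfs⟩ := Opp34.exists_dual hxs 1
      obtain ⟨A, hA, hAz⟩ := Opp34.exists_transv (Submodule.mem_span_singleton_self y) f hf
      have e3 : A • x = x + y := by rw [hAz, hfs, one_smul]
      rw [← e3]
      exact hconj A x (hy hy0 hA) (hx fun h => hxs (by rw [h]; exact Submodule.zero_mem _))
    | smul c x _ hx =>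
      intro hcx
      have hc : c ≠ 0 := fun h => hcx (by rw [h, zero_smul])
      rw [Submodule.span_singleton_smul_eq (IsUnit.mk0 c hc)]
      exact hx fun h => hcx (by rw [h, smul_zero])
  have : Nontrivial (Fin n) := Fin.nontrivial_iff_two_le.2 hn
  refine hne (Linear.eq_top_of_transvection_mem _ fun i j hij c => hall (Pi.single i 1)
    (Pi.single_ne_zero_iff.2 one_ne_zero) ⟨fun w hw => ?_, fun z => ?_⟩)
  · obtain ⟨a, rfl⟩ := Submodule.mem_span_singleton.1 hw
    rw [smul_eq, tr_mulVec]
    simp [Pi.single_eq_of_ne hij.symm]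
  · rw [smul_eq, tr_mulVec, add_sub_cancel_left]
    refine Submodule.mem_span_singleton.2 ⟨c * z j, ?_⟩
    rw [← Pi.single_smul', smul_eq_mul, mul_one]

theorem LP_ne_top {A : Set ℕ} {k : ℕ} (hk : k ∈ A) (h1 : 1 ≤ k) (hn : k < n) : LP n F A ≠ ⊤ := by
  intro h
  set i : Fin n := ⟨k, hn⟩
  set j : Fin n := ⟨k - 1, by omega⟩
  have hij : i ≠ j := fun e => by simp [i, j] at e; omega
  have := proj_mem_LP.1 (h ▸ Subgroup.mem_top (proj (SpecialLinearGroup.transvection hij (1 : F))))
  have h0 := mem_LA.1 this k hk i j le_rfl (by simp [j]; omega)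
  rw [SpecialLinearGroup.transvection_coe] at h0
  simp [hij] at h0

/-- An adjacent lower transvection lies in `LP A` when its index is outside `A`. -/
theorem sup_eq_top (hn : 2 ≤ n) {A B : Set ℕ} (hAB : ∀ k, 1 ≤ k → k < n → k ∉ A ∨ k ∉ B) :
    LP n F A ⊔ LP n F B = ⊤ := by
  set M := (LP n F A ⊔ LP n F B).comap proj with hM
  by_contra hne
  have hne' : M ≠ ⊤ := fun h => hne (Subgroup.comap_injective proj_surjective
    (h.trans (Subgroup.comap_top _).symm))
  obtain ⟨k, h1, h2, hle⟩ := span_cases hn M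
    (fun u hu => Subgroup.mem_sup_left (proj_uni_le A ⟨u, hu, rfl⟩)) hne'
  set i : Fin n := ⟨k, h2⟩
  set j : Fin n := ⟨k - 1, by omega⟩
  have hij : i ≠ j := fun e => by simp [i, j] at e; omega
  have hmem : ∀ S : Set ℕ, k ∉ S → SpecialLinearGroup.transvection hij (1 : F) ∈ LA n F S := by
    intro S hS l hl a b ha hb
    show ((SpecialLinearGroup.transvection hij (1 : F) : SLn) : Mat) a b = 0
    have hab : a ≠ b := fun e => by rw [e] at ha; omega
    have : ¬ (i = a ∧ j = b) := by
      rintro ⟨rfl, rfl⟩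
      have hlk : l ≠ k := fun e => hS (e ▸ hl)
      simp [i, j] at ha hb
      omega
    rw [SpecialLinearGroup.transvection_coe]
    simp [hab, this]
  have hMem : SpecialLinearGroup.transvection hij (1 : F) ∈ M := by
    rcases hAB k h1 h2 with h | h
    · exact Subgroup.mem_sup_left (proj_mem_LP.2 (hmem A h))
    · exact Subgroup.mem_sup_right (proj_mem_LP.2 (hmem B h))
  have h0 := mem_LA.1 (hle hMem) k rfl i j le_rfl (by simp [j]; omega)
  rw [SpecialLinearGroup.transvection_coe] at h0
  simp [hij] at h0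

variable (p : ℕ) [Fact p.Prime] [CharP F p]

theorem rankOne_two : Has .rankOne p (Matrix.ProjectiveSpecialLinearGroup (Fin 2) F) := by
  obtain ⟨P, hP⟩ := exists_sylow_uni (n := 2) (F := F) p
  have hN := normalizer_eq (n := 2) (F := F) {1} fun k => by simp; omega
  refine ⟨P, fun L hL => ?_⟩
  rw [hP, hN] at hL ⊢
  by_cases hne : L.comap proj = ⊤
  · exact Or.inr (Subgroup.comap_injective proj_surjective (hne.trans (Subgroup.comap_top _).symm))
  obtain ⟨k, h1, h2, hle⟩ := span_cases le_rfl (L.comap proj)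
    (fun u hu => hL (proj_uni_le _ ⟨u, hu, rfl⟩)) hne
  obtain rfl : k = 1 := by omega
  refine Or.inl (le_antisymm (fun x hx => ?_) hL)
  obtain ⟨s, rfl⟩ := proj_surjective x
  exact ⟨s, hle hx, rfl⟩

theorem twoNode_three : Has .twoNode p (Matrix.ProjectiveSpecialLinearGroup (Fin 3) F) := by
  obtain ⟨P, hP⟩ := exists_sylow_uni (n := 3) (F := F) p
  have hN := normalizer_eq (n := 3) (F := F) {1, 2} fun k => by simp; omega
  refine ⟨P, LP 3 F {1}, LP 3 F {2}, LP_ne_top (k := 1) rfl le_rfl (by norm_num),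
    LP_ne_top (k := 2) rfl (by norm_num) (by norm_num),
    sup_eq_top (by norm_num) (fun k _ _ => by simp; omega), ?_, ?_⟩
  · rw [hP, hN]
    refine le_antisymm (fun x hx => ?_) ?_
    · obtain ⟨s, rfl⟩ := proj_surjective x
      rw [Subgroup.mem_inf, proj_mem_LP, proj_mem_LP, ← Subgroup.mem_inf, LA_inf] at hx
      rw [proj_mem_LP]
      exact mem_LA.2 fun k hk => mem_LA.1 hx k (by simpa [or_comm] using hk)
    · rintro _ ⟨s, hs, rfl⟩
      exact ⟨proj_mem_LP.2 (mem_LA.2 fun k hk => mem_LA.1 hs k (by simp at hk ⊢; omega)),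
        proj_mem_LP.2 (mem_LA.2 fun k hk => mem_LA.1 hs k (by simp at hk ⊢; omega))⟩
  · intro L hL hne
    rw [hP, hN] at hL
    obtain ⟨k, h1, h2, hle⟩ := span_cases (n := 3) (by norm_num) (L.comap proj)
      (fun u hu => hL (proj_uni_le _ ⟨u, hu, rfl⟩))
      (fun h => hne (Subgroup.comap_injective proj_surjective (h.trans (Subgroup.comap_top _).symm)))
    have key : L ≤ LP 3 F {k} := fun x hx => by
      obtain ⟨s, rfl⟩ := proj_surjective x
      exact ⟨s, hle hx, rfl⟩
    rcases (show k = 1 ∨ k = 2 by omega) with rfl | rfl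
    · exact Or.inl key
    · exact Or.inr key

theorem twoStable_large (hn : 4 ≤ n) : Has .twoStable p PSLn := by
  obtain ⟨P, hP⟩ := exists_sylow_uni (n := n) (F := F) p
  refine ⟨P, LP n F {1, n - 1}, LP n F {2, n - 2}, hP ▸ proj_uni_le _, hP ▸ proj_uni_le _,
    LP_ne_top (k := 1) (by simp) le_rfl (by omega), LP_ne_top (k := 2) (by simp) (by norm_num) (by omega),
    sup_eq_top (by omega) (fun k _ _ => by simp; omega), ?_, ?_⟩
  all_goals
    intro α _ hU
    rw [hP] at hU
    refine Subgroup.eq_of_le_of_card_ge ?_ (Subgroup.card_map_of_injective α.injective).ge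
    rcases image_LP (by omega) α hU with h | h
    · exact h _ fun k hk => by simp at hk; omega
    · exact h _ (fun k hk => by simp at hk; omega) fun k hk => by simp at hk ⊢; omega

end Cfsg.Agent.PMinLie.PSL
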