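import Cfsg.Agent.PMinLie.Core
import Cfsg.Agent.Opp34.Small

/-!
`L₂(8)` at the prime 3: the normaliser of a Sylow subgroup is maximal.
-/

set_option autoImplicit false

namespace Cfsg.Agent.PMinLie

open scoped MatrixGroups

/-- Matrices commuting with a fixed non-scalar matrix commute. -/
theorem commute_of_commute_two {F : Type} [Field F] {A B C : Matrix (Fin 2) (Fin 2) F}
    (hA : A 0 1 ≠ 0 ∨ A 1 0 ≠ 0 ∨ A 0 0 ≠ A 1 1) (hB : A * B = B * A) (hC : A * C = C * A) :
    B * C = C * B := by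
  have e : ∀ {X : Matrix (Fin 2) (Fin 2) F}, A * X = X * A →
      A 0 1 * X 1 0 - A 1 0 * X 0 1 = 0 ∧ (A 0 0 - A 1 1) * X 0 1 - A 0 1 * (X 0 0 - X 1 1) = 0 ∧
      (A 0 0 - A 1 1) * X 1 0 - A 1 0 * (X 0 0 - X 1 1) = 0 := by
    intro X hX
    have h00 := congrFun (congrFun hX 0) 0
    have h01 := congrFun (congrFun hX 0) 1
    have h10 := congrFun (congrFun hX 1) 0
    simp only [Matrix.mul_apply, Fin.sum_univ_two] at h00 h01 h10
    exact ⟨by linear_combination h00, by linear_combination h01, by linear_combination -h10⟩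
  obtain ⟨b1, b2, b3⟩ := e hB
  obtain ⟨c1, c2, c3⟩ := e hC
  suffices h : B 0 1 * C 1 0 = C 0 1 * B 1 0 ∧ (B 0 0 - B 1 1) * C 0 1 = (C 0 0 - C 1 1) * B 0 1 ∧
      (B 0 0 - B 1 1) * C 1 0 = (C 0 0 - C 1 1) * B 1 0 by
    ext i j
    fin_cases i <;> fin_cases j <;> simp [Matrix.mul_apply, Fin.sum_univ_two]
    · linear_combination h.1
    · linear_combination h.2.1
    · linear_combination -h.2.2
    · linear_combination -h.1
  rcases hA with h | h | h
  · have h2 : (B 0 0 - B 1 1) * C 0 1 = (C 0 0 - C 1 1) * B 0 1 := mul_left_cancel₀ h (by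
      linear_combination (B 0 1) * c2 - (C 0 1) * b2)
    exact ⟨mul_left_cancel₀ h (by linear_combination (B 0 1) * c1 - (C 0 1) * b1), h2,
      mul_left_cancel₀ h (by
        linear_combination (B 0 0 - B 1 1) * c1 - (C 0 0 - C 1 1) * b1 + A 1 0 * h2)⟩
  · have h3 : (B 0 0 - B 1 1) * C 1 0 = (C 0 0 - C 1 1) * B 1 0 := mul_left_cancel₀ h (by
      linear_combination (B 1 0) * c3 - (C 1 0) * b3)
    exact ⟨mul_left_cancel₀ h (by linear_combination (B 1 0) * c1 - (C 1 0) * b1), mul_left_cancel₀ h (by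
        linear_combination -(B 0 0 - B 1 1) * c1 + (C 0 0 - C 1 1) * b1 + A 0 1 * h3), h3⟩
  · have h' := sub_ne_zero.2 h
    have h2 : (B 0 0 - B 1 1) * C 0 1 = (C 0 0 - C 1 1) * B 0 1 := mul_left_cancel₀ h' (by
      linear_combination (B 0 0 - B 1 1) * c2 - (C 0 0 - C 1 1) * b2)
    exact ⟨mul_left_cancel₀ h' (by linear_combination (B 0 1) * c3 - (C 0 1) * b3 - A 1 0 * h2), h2,
      mul_left_cancel₀ h' (by linear_combination (B 0 0 - B 1 1) * c3 - (C 0 0 - C 1 1) * b3)⟩

/-- The centre of `SL₂` is trivial in characteristic two. -/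
theorem center_sl_two {F : Type} [Field F] [CharP F 2] :
    Subgroup.center (Matrix.SpecialLinearGroup (Fin 2) F) = ⊥ := by
  refine eq_bot_iff.2 fun g hg => ?_
  obtain ⟨r, hr, e⟩ := Matrix.SpecialLinearGroup.mem_center_iff.1 hg
  rw [Fintype.card_fin] at hr
  have h1 : r = 1 := by
    have htwo : (2 : F) = 0 := CharTwo.two_eq_zero
    have h2 : (r - 1) ^ 2 = 0 := by
      linear_combination hr + (1 - r) * htwo
    exact sub_eq_zero.1 (pow_eq_zero_iff two_ne_zero |>.1 h2)
  rw [h1, map_one] at e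
  exact Subgroup.mem_bot.2 (Subtype.ext e.symm)

/-- L₂(8) in characteristic three. -/
theorem psl_two_eight_rankOne {G : Type*} [Group G] [Finite G] {F : Type} [Field F] [Fintype F]
    (hF : Fintype.card F = 8) (e : G ≃* Matrix.ProjectiveSpecialLinearGroup (Fin 2) F) :
    Has .rankOne 3 G := by
  classical
  haveI : Fact (Nat.Prime 3) := ⟨Nat.prime_three⟩
  haveI : Fact (Nat.Prime 2) := ⟨Nat.prime_two⟩
  haveI : CharP F 2 := charP_of_card_eq_prime_pow (f := 3) (by rw [hF]; norm_num)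
  refine Has.congr e ?_
  set S := Matrix.ProjectiveSpecialLinearGroup (Fin 2) F
  have hcomm : ∀ r x y : S, r ≠ 1 → Commute r x → Commute r y → Commute x y := by
    intro r x y hr hx hy
    obtain ⟨r, rfl⟩ := QuotientGroup.mk_surjective r
    obtain ⟨x, rfl⟩ := QuotientGroup.mk_surjective x
    obtain ⟨y, rfl⟩ := QuotientGroup.mk_surjective y
    have hinj : ∀ {a b : Matrix.SpecialLinearGroup (Fin 2) F},
        (QuotientGroup.mk a : S) = QuotientGroup.mk b → a = b := fun {a b} h => by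
      have := QuotientGroup.eq.1 h
      rw [center_sl_two, Subgroup.mem_bot] at this
      exact inv_mul_eq_one.1 this
    have l : ∀ {a b : Matrix.SpecialLinearGroup (Fin 2) F}, Commute (QuotientGroup.mk a : S) (QuotientGroup.mk b) →
        (a : Matrix (Fin 2) (Fin 2) F) * b = b * a := fun {a b} h => congrArg Subtype.val (hinj h.eq : a * b = b * a)
    have hA : (r : Matrix (Fin 2) (Fin 2) F) 0 1 ≠ 0 ∨ (r : Matrix (Fin 2) (Fin 2) F) 1 0 ≠ 0 ∨
        (r : Matrix (Fin 2) (Fin 2) F) 0 0 ≠ (r : Matrix (Fin 2) (Fin 2) F) 1 1 := by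
      by_contra hc
      push Not at hc
      have hd := r.2
      rw [Matrix.det_fin_two, hc.1, hc.2.1, mul_zero, sub_zero, ← hc.2.2] at hd
      have hc' : r ∈ Subgroup.center (Matrix.SpecialLinearGroup (Fin 2) F) := by
        refine Matrix.SpecialLinearGroup.mem_center_iff.2 ⟨(r : Matrix (Fin 2) (Fin 2) F) 0 0,
          by rw [Fintype.card_fin, pow_two, hd], ?_⟩
        ext i j
        fin_cases i <;> fin_cases j <;> simp [hc]
      rw [center_sl_two, Subgroup.mem_bot] at hc'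
      exact hr (by rw [hc']; rfl)
    have h := commute_of_commute_two hA (l hx) (l hy)
    have hxy : x * y = y * x := Subtype.ext h
    exact congrArg (QuotientGroup.mk : _ → S) hxy
  obtain ⟨U⟩ : Nonempty (Sylow 3 S) := inferInstance
  have hcard : Nat.card S = 504 := by
    have h := Linear.card_PSL_two_mul (F := F)
    rw [hF] at h
    simpa using h
  have hU : Nat.card U = 3 ^ 2 := (Opp34.sylow_card_index U (m := 56) (by rw [hcard]; norm_num) (by norm_num)).1
  refine ⟨U, fun L hL => ?_⟩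
  show L = _ ∨ L = ⊤
  by_cases htop : L = ⊤
  · exact Or.inr htop
  refine Or.inl (le_antisymm ?_ hL)
  have hUL : (U : Subgroup S) ≤ L := Subgroup.le_normalizer.trans hL
  have hidx : ¬ 3 ∣ L.index := fun h => U.not_dvd_index (h.trans (Subgroup.index_dvd_of_le hUL))
  set R := (Cfsg.pCore 3 ↥L).map L.subtype
  have hR1 : R ≠ ⊥ := fun h => htop (Opp34.eq_top_psl_two_eight hF (MulEquiv.refl S) L
    ((Subgroup.map_eq_bot_iff_of_injective _ L.subtype_injective).1 h) hidx)
  have hRn : ∀ g ∈ L, ∀ r ∈ R, g * r * g⁻¹ ∈ R := by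
    rintro g hg _ ⟨r, hr, rfl⟩
    exact ⟨⟨g, hg⟩ * r * ⟨g, hg⟩⁻¹, (inferInstance : (Cfsg.pCore 3 ↥L).Normal).conj_mem r hr ⟨g, hg⟩, by simp⟩
  have hRU : R ≤ (U : Subgroup S) := by
    have hn : (U : Subgroup S) ≤ Subgroup.normalizer (R : Set S) := fun g hg =>
      Subgroup.mem_normalizer_fintype (hRn g (hUL hg))
    have h2 : IsPGroup 3 ↥((U : Subgroup S) ⊔ R) :=
      U.2.to_sup_of_normal_right' ((PSolv.isPGroup_pCore _ _).map _) hn
    exact le_sup_right.trans (U.3 h2 le_sup_left).le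
  have hab : ∀ a ∈ (U : Subgroup S), ∀ b ∈ (U : Subgroup S), Commute a b := fun a ha b hb =>
    congrArg Subtype.val ((IsPGroup.isMulCommutative_of_card_eq_prime_sq hU).is_comm.comm
      (⟨a, ha⟩ : ↥(U : Subgroup S)) ⟨b, hb⟩)
  obtain ⟨r, hr, hr1⟩ := (Subgroup.nontrivial_iff_exists_ne_one R).1 ((Subgroup.nontrivial_iff_ne_bot R).2 hR1)
  intro g hg
  set r' := g * r * g⁻¹
  have hr' : r' ∈ (U : Subgroup S) := hRU (hRn g hg r hr)
  refine Subgroup.mem_normalizer_fintype fun u (hu : u ∈ (U : Subgroup S)) => ?_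
  show g * u * g⁻¹ ∈ (U : Subgroup S)
  -- the conjugate commutes with `U`
  have hc : ∀ w ∈ (U : Subgroup S), Commute w (g * u * g⁻¹) := fun w hw => by
    refine hcomm r' w _ (fun h => hr1 (conj_eq_one_iff.1 h)) (hab _ hr' _ hw) ?_
    exact (hab r (hRU hr) u hu).map (MulAut.conj g).toMonoidHom
  have hn : (U : Subgroup S) ≤ Subgroup.normalizer (Subgroup.zpowers (g * u * g⁻¹) : Set S) := by
    intro w hw
    refine Subgroup.mem_normalizer_fintype fun v hv => ?_
    obtain ⟨k, rfl⟩ := Subgroup.mem_zpowers_iff.1 hv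
    show w * (g * u * g⁻¹) ^ k * w⁻¹ ∈ _
    rw [((hc w hw).zpow_right k).eq, mul_inv_cancel_right]
    exact hv
  have hp : IsPGroup 3 ↥(Subgroup.zpowers (g * u * g⁻¹)) :=
    (U.2.map (MulAut.conj g).toMonoidHom).to_le ((Subgroup.zpowers_le).2 ⟨u, hu, rfl⟩)
  have h := U.3 (U.2.to_sup_of_normal_right' hp hn) le_sup_left
  exact h.le (Subgroup.mem_sup_right (Subgroup.mem_zpowers _))

end Cfsg.Agent.PMinLie
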