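import Cfsg.Agent.PMinLie.PolarFamilies

/-!
# The four-dimensional symplectic groups and the three-dimensional unitary groups

The overgroups of the normaliser of a Sylow subgroup in PSp₄ and PSU₃.
-/

set_option autoImplicit false

namespace Cfsg.Agent.PMinLie

open Cfsg.Agent Cfsg.Agent.ChamberSt Cfsg.Agent.Classical Cfsg.Agent.Opp34
open Module

variable {p : ℕ} [Fact p.Prime]

theorem psp_four_twoNode {F : Type} [Field F] [Fintype F] [CharP F p] (h3 : 3 ≤ Fintype.card F) :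
    Has .twoNode p (Cfsg.PSp 2 F) := by
  classical
  haveI : IsSimpleGroup (Cfsg.PSp 2 F) := S0270.result 2 le_rfl fun _ => h3
  set P := S2545.polar (F := F) 2 with hP
  set ρ := S2545.toIso (F := F) 2 with hρdef
  have hρ : Function.Injective ρ := (S2545.toIso_bijective 2).1
  have he : ∀ W, P.TS W → rad P W ≤ ρ.range := fun W _ i _ =>
    MonoidHom.mem_range.2 ((S2545.toIso_bijective 2).2 i)
  set e := P.e ⟨0, by omega⟩ with hedef
  set y := P.y ⟨0, by omega⟩
  set e2 := P.e ⟨1, by omega⟩ with he2def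
  set y2 := P.y ⟨1, by omega⟩
  have h : Hyp P e y := hyp_frame _
  have h2 : Hyp P e2 y2 := hyp_frame _
  have b1 : P.B e e2 = 0 := P.B_ee _ _
  have b2 : P.B e y2 = 0 := by simp [hedef, y2, P.B_ey]
  have b3 : P.B y e2 = 0 := by simp [he2def, y, P.B_ye]
  have b4 : P.B y y2 = 0 := P.B_yy _ _
  have hη : P.η = -1 := rfl
  have hex : ∃ v, P.q v = 0 ∧ P.B e v = 0 ∧ P.B y v = 0 ∧ P.B e2 v = 1 ∧ P.B y2 v ≠ 0 :=
    ⟨y2 + e2, rfl, by simp [b1, b2], by simp [b3, b4], by simp [h2.ey, h2.ee],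
      by simp [h2.yy, h2.ye, P.η_ne]⟩
  set W : Submodule F (Fin 2 ⊕ Fin 2 → F) := Submodule.span F {e, e2} with hWdef
  obtain ⟨T, hT, hTe, hTW, ⟨hc1, hc2⟩, ⟨hT1, hT2⟩, ⟨hne1, hne2, hj⟩, hΦdata⟩ :=
    polar_data (p := p) (P := P) le_rfl ρ hρ he hex (e := e) rfl rfl h.e_ne rfl
  set π := QuotientGroup.mk' (Subgroup.center (Matrix.symplecticGroup (Fin 2) F)) with hπdef
  have hπ : Function.Surjective π := QuotientGroup.mk'_surjective _
  set S1 := ptStab ρ h.e_ne with hS1def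
  set S2 := spanStab ρ W with hS2def
  have hE1 : P.E 1 = F ∙ e := by
    have := P.E_succ (k := 0) (by norm_num : 0 < 2)
    rwa [P.E_zero, bot_sup_eq] at this
  have hE2 : P.E 2 = W := by
    have := P.E_succ (k := 1) (by norm_num : 1 < 2)
    rw [hE1] at this
    rw [hWdef, Submodule.span_insert]
    exact this
  have hEle : ∀ j, 2 ≤ j → P.E j = W := fun j hj =>
    hE2 ▸ le_antisymm (P.E_le j) (P.E_mono hj)
  have hperp : P.perp (P.E 2) ≤ W := hE2 ▸ S2545.perp_le 2
  -- `T` is the unipotent group of the flag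
  have hTU : ∀ t ∈ (T : Subgroup _), ρ t ∈ P.U := by
    intro t ht
    have hW : ∀ v ∈ W, ap P (ρ t) v - v ∈ F ∙ e := hTW t ht
    have heW : F ∙ e ≤ W := Submodule.span_le.2 (by
      intro x hx
      rw [Set.mem_singleton_iff.1 hx]
      exact Submodule.subset_span (by simp))
    refine ⟨fun j v hv => ?_, fun v hv => ?_⟩
    · show ap P (ρ t) v - v ∈ P.E j
      match j with
      | 0 =>
        rw [hE1] at hv
        obtain ⟨c, rfl⟩ := Submodule.mem_span_singleton.1 hv
        rw [map_smul, hTe t ht, sub_self]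
        exact Submodule.zero_mem _
      | 1 => rw [hE2] at hv; rw [hE1]; exact hW v hv
      | j + 2 =>
        rw [hEle _ (by omega)] at hv ⊢
        exact heW (hW v hv)
    · show ap P (ρ t) v - v ∈ P.E 2
      rw [hE2]
      exact heW (hW v (hperp hv))
  -- the flag stabiliser is the normaliser
  have hB : ∀ g, g ∈ S1 → g ∈ S2 → ∀ u ∈ (T : Subgroup _), g * u * g⁻¹ ∈ (T : Subgroup _) := by
    intro g g1 g2 u hu
    refine hT ?_
    have hgE : ∀ (g : Matrix.symplecticGroup (Fin 2) F), g ∈ S1 → g ∈ S2 → ∀ j, ∀ v ∈ P.E j,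
        ap P (ρ g) v ∈ P.E j := by
      intro g g1 g2 j v hv
      match j with
      | 0 => rw [P.E_zero, Submodule.mem_bot] at hv ⊢; rw [hv, map_zero]
      | 1 =>
        rw [hE1] at hv ⊢
        obtain ⟨c, rfl⟩ := Submodule.mem_span_singleton.1 hv
        rw [map_smul]
        exact Submodule.smul_mem _ _ g1
      | j + 2 => rw [hEle _ (by omega)] at hv ⊢; exact g2 v hv
    have hginv : ∀ j, ∀ v ∈ P.E j, ap P (ρ g)⁻¹ v ∈ P.E j := fun j v hv => by
      rw [← map_inv]
      exact hgE g⁻¹ (inv_mem g1) (inv_mem g2) j v hv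
    obtain ⟨hu1, hu2⟩ := hTU u hu
    rw [Subgroup.mem_comap, map_mul, map_mul, map_inv]
    refine ⟨fun j v hv => ?_, fun v hv => ?_⟩
    · have h1 := hgE g g1 g2 j _ (hu1 j _ (hginv (j + 1) v hv))
      change ap P (ρ g) (ap P (ρ u) (ap P (ρ g)⁻¹ v) - ap P (ρ g)⁻¹ v) ∈ P.E j at h1
      rwa [map_sub, ap_ap_inv] at h1
    · have h1 := hgE g g1 g2 2 _ (hu2 _ (fun s hs => by
        rw [← ap_B (ρ g), ap_ap_inv]
        exact hv _ (hgE g g1 g2 2 s hs)))
      change ap P (ρ g) (ap P (ρ u) (ap P (ρ g)⁻¹ v) - ap P (ρ g)⁻¹ v) ∈ P.E 2 at h1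
      rwa [map_sub, ap_ap_inv] at h1
  have hmemπ : ∀ S : Subgroup _, Subgroup.center (Matrix.symplecticGroup (Fin 2) F) ≤ S → ∀ g,
      π g ∈ S.map π → g ∈ S := by
    rintro S hS g ⟨g', hg', e'⟩
    simpa using mul_mem hg' (hS (QuotientGroup.eq.1 e'))
  have hN : Subgroup.normalizer ((((T : Subgroup (Matrix.symplecticGroup (Fin 2) F)).map π) : Subgroup _) :
      Set (Matrix.symplecticGroup (Fin 2) F ⧸ Subgroup.center (Matrix.symplecticGroup (Fin 2) F))) =
      S1.map π ⊓ S2.map π := by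
    refine le_antisymm (fun x hx => ?_) ?_
    · obtain ⟨g, rfl⟩ := hπ x
      let Φ : (Fin 2 ⊕ Fin 2 → F) ≃+ (Fin 2 ⊕ Fin 2 → F) := (ap P (ρ g)).toAddEquiv
      obtain ⟨hΦe, hΦW⟩ := hΦdata Φ id (fun c v => map_smul (ap P (ρ g)) c v) fun t' ht' => by
        refine ⟨g⁻¹ * t' * g, ?_, fun v => ?_⟩
        · have h1 : π (g⁻¹ * t' * g) ∈ (T : Subgroup _).map π := by
            rw [map_mul, map_mul, map_inv]
            exact (Subgroup.mem_normalizer_iff''.1 hx (π t')).1 ⟨t', ht', rfl⟩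
          obtain ⟨t, ht, e'⟩ := h1
          obtain ⟨k, hk⟩ := T.2 ⟨t', ht'⟩
          obtain ⟨k', hk'⟩ := T.2 ⟨t, ht⟩
          set c := t⁻¹ * (g⁻¹ * t' * g) with hc
          have hcZ : c ∈ Subgroup.center _ := QuotientGroup.eq.1 e'
          have h1 : (g⁻¹ * t' * g) ^ p ^ k = 1 := by
            rw [show g⁻¹ * t' * g = g⁻¹ * t' * g⁻¹⁻¹ by group, conj_pow,
              show t' ^ p ^ k = 1 from congrArg Subtype.val hk]
            group
          have hcp : c ^ p ^ (k + k') = 1 := by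
            have hcm : Commute t⁻¹ (g⁻¹ * t' * g) := by
              have h1 : Commute t⁻¹ (t * c) :=
                ((Commute.refl t).inv_left).mul_right (Subgroup.mem_center_iff.1 hcZ t⁻¹)
              rwa [hc, mul_inv_cancel_left] at h1
            rw [hc, hcm.mul_pow, inv_pow, pow_add, pow_mul (g⁻¹ * t' * g), h1, one_pow, mul_one,
              mul_comm, pow_mul, show t ^ p ^ k' = 1 from congrArg Subtype.val hk', one_pow, inv_one]
          haveI : (Subgroup.zpowers c).Normal := ⟨fun x hx g => by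
            have hxZ : x ∈ Subgroup.center _ := Subgroup.zpowers_le.2 hcZ hx
            rwa [Subgroup.mem_center_iff.1 hxZ g, mul_inv_cancel_right]⟩
          have hcpg : IsPGroup p ↥(Subgroup.zpowers c) := by
            rintro ⟨x, j, rfl⟩
            refine ⟨k + k', Subtype.ext ?_⟩
            show (c ^ j) ^ p ^ (k + k') = 1
            rw [← zpow_natCast, ← zpow_mul, mul_comm, zpow_mul, zpow_natCast, hcp, one_zpow]
          have hsup := T.3 (T.2.to_sup_of_normal_right hcpg) le_sup_left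
          rw [show g⁻¹ * t' * g = t * c by rw [hc, mul_inv_cancel_left]]
          exact mul_mem ht (hsup ▸ Subgroup.mem_sup_right (Subgroup.mem_zpowers c))
        · show ap P (ρ t') (ap P (ρ g) v) = ap P (ρ g) (ap P (ρ (g⁻¹ * t' * g)) v)
          rw [← ap_mul, ← ap_mul, ← map_mul, ← map_mul]
          congr 3
          group
      exact ⟨⟨g, hΦe, rfl⟩, ⟨g, hΦW, rfl⟩⟩
    · intro x hx
      obtain ⟨g, rfl⟩ := hπ x
      have g1 := hmemπ S1 hc1 g hx.1
      have g2 := hmemπ S2 hc2 g hx.2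
      refine Subgroup.mem_normalizer_iff.2 fun z => ⟨?_, fun hz => ?_⟩
      · rintro ⟨u, hu, rfl⟩
        exact ⟨g * u * g⁻¹, hB g g1 g2 u hu, by simp⟩
      · obtain ⟨u, hu, e'⟩ := hz
        refine ⟨g⁻¹ * u * g⁻¹⁻¹, hB _ (inv_mem g1) (inv_mem g2) u hu, ?_⟩
        rw [map_mul, map_mul, map_inv, map_inv, map_inv, e']
        group
  refine ⟨T.mapSurjective (f := π) hπ, S1.map π, S2.map π, hne1, hne2, hj,
    by rw [Sylow.coe_mapSurjective]; exact hN.symm, fun L hL hne => ?_⟩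
  set M' := L.comap π with hM'
  have hTM : (T : Subgroup _) ≤ M' := fun t ht => hL (Subgroup.le_normalizer (by
    rw [Sylow.coe_mapSurjective]; exact ⟨t, ht, rfl⟩))
  have hQT : (eich P e).comap ρ ≤ (T : Subgroup _) := fun u hu => hT (by
    rw [Subgroup.mem_comap]
    exact rad_E_le_U 1 (by rw [hE1]; exact hu))
  have hno : ∀ m ∈ M', P.B e (ap P (ρ m) e) = 0 := fun m hm => by
    by_contra hm'
    exact hne (opp_top h ⟨e2, h2.e_ne, b1, b3⟩ ρ he L (fun u hu => hTM (hQT hu)) ⟨m, hm, hm'⟩)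
  -- the orbit of `e` lies in `W`
  have hWm : ∀ m ∈ M', ap P (ρ m) e ∈ W := by
    intro m hm
    set z := ap P (ρ m) e with hz
    by_contra hzW
    have hne2' : P.B e2 z ≠ 0 := fun h0 => hzW (hperp (by
      rw [hE2]
      intro s hs
      obtain ⟨a, b, rfl⟩ := Submodule.mem_span_pair.1 hs
      rw [map_add, LinearMap.add_apply, LinearMap.map_smulₛₗ, LinearMap.map_smulₛₗ, LinearMap.smul_apply,
        LinearMap.smul_apply, hno m hm, h0, smul_zero, smul_zero, add_zero]))
    obtain ⟨g, hg, hgy2, hgx⟩ := h2.exists_eich (v := y2 + e2) rfl (by simp [h2.ey, h2.ee])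
    have hgk : ∀ x, P.B e2 x = 0 → ap P g x = x := fun x hx => by
      rw [hgx x hx, map_add, LinearMap.add_apply, hx, add_zero, sub_self, mul_zero, zero_smul, sub_zero]
    have hgfix : ap P g e = e := hgk e (P.symm_zero b1)
    obtain ⟨u, hu, hgu⟩ : ∃ u ∈ (T : Subgroup _), ρ u = g := by
      obtain ⟨u, hu⟩ := he _ (TS_singleton h2.qe) hg
      refine ⟨u, hT ?_, hu⟩
      rw [Subgroup.mem_comap, hu]
      refine rad_E_le_U 2 ⟨fun w hw => ?_, fun x hx => ?_⟩
      · rw [hE2] at hw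
        obtain ⟨a, b, rfl⟩ := Submodule.mem_span_pair.1 hw
        rw [map_add, map_smul, map_smul, hgfix, eich_fix hg]
      · rw [hgk x (hx e2 (by rw [hE2]; exact Submodule.subset_span (by simp))), sub_self]
        exact Submodule.zero_mem _
    obtain ⟨w, hw1, hw2, ez⟩ := h2.decomp z
    have hd : ap P g z = z + P.B e2 z • e2 := by
      conv_lhs => rw [ez, map_add, map_add, map_smul, map_smul, hgy2, eich_fix hg, hgk w hw1, smul_add]
      conv_rhs => arg 1; rw [ez]
      abel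
    have horth : P.B z (ap P g z) = 0 := by
      rw [← hgu, hz, ← ap_mul, ← map_mul, show u * m = m * (m⁻¹ * (u * m)) by group, map_mul ρ m,
        ap_mul, ap_B]
      exact hno _ (mul_mem (inv_mem hm) (mul_mem (hTM hu) hm))
    rw [hd, map_add, map_smul, P.qB z rfl, zero_add, smul_eq_mul, mul_eq_zero] at horth
    exact horth.elim hne2' fun h0 => hne2' (P.symm_zero h0)
  by_cases hfix : ∀ m ∈ M', ap P (ρ m) e ∈ F ∙ e
  · refine Or.inl fun x hx => ?_
    obtain ⟨g, rfl⟩ := hπ x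
    exact ⟨g, hfix g hx, rfl⟩
  · push Not at hfix
    obtain ⟨m0, hm0, hm0e⟩ := hfix
    refine Or.inr fun x hx => ?_
    obtain ⟨g, rfl⟩ := hπ x
    refine ⟨g, fun w hw => ?_, rfl⟩
    obtain ⟨a, b, hab⟩ := Submodule.mem_span_pair.1 (hWm m0 hm0)
    have hb : b ≠ 0 := fun h0 => hm0e (by
      rw [← hab, h0, zero_smul, add_zero]
      exact Submodule.smul_mem _ _ (Submodule.mem_span_singleton_self e))
    obtain ⟨c, d, rfl⟩ := Submodule.mem_span_pair.1 hw
    have e1 : c • e + d • e2 = (c - d / b * a) • e + (d / b) • ap P (ρ m0) e := by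
      rw [← hab, smul_add, smul_smul, smul_smul, div_mul_cancel₀ _ hb, ← add_assoc, ← add_smul,
        sub_add_cancel]
    rw [e1, map_add, map_smul, map_smul, ← ap_mul, ← map_mul]
    exact W.add_mem (W.smul_mem _ (hWm g hx)) (W.smul_mem _ (hWm _ (mul_mem hx hm0)))

theorem psu_three_rankOne {F : Type} [Field F] [Fintype F] [CharP F p] {q : ℕ}
    (hF : Fintype.card F = q ^ 2) (hq : q ≠ 2) :
    Has .rankOne p (Cfsg.PSU 3 F q) := by
  classical
  haveI : IsSimpleGroup (Cfsg.PSU 3 F q) := S0283.result hF 3 le_rfl (by simp [hq])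
  have hsq := U.sqField_of_fintype hF
  obtain ⟨l, μ, hl, hμ, hc⟩ := S2546.exists_consts hsq
  let P := S2546.polar hsq hl hμ hc (n := 3)
  let j2 : U.UG 3 F q →* P.iso :=
    { toFun := fun g => ⟨g.1, fun u v => g.2 v u, fun v => g.2 v v⟩
      map_one' := rfl
      map_mul' := fun _ _ => rfl }
  let ρ : Cfsg.SU 3 F q →* P.iso := j2.comp (U.suToUG 3 F q)
  have hρ : Function.Injective ρ := fun a b h =>
    U.suToUG_injective (Subtype.ext (congrArg (Subtype.val : P.iso → _) h))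
  have hrange : ∀ i : P.iso, LinearEquiv.det (i : (Fin 3 → F) ≃ₗ[F] (Fin 3 → F)) = 1 → i ∈ ρ.range := by
    intro i hi
    have : (⟨i.1, fun u v => i.2.1 v u⟩ : U.UG 3 F q) ∈ (U.suToUG 3 F q).range := by
      rw [U.range_suToUG, U.mem_SUG]; exact hi
    obtain ⟨g, hg⟩ := this
    exact ⟨g, Subtype.ext (show ((U.suToUG 3 F q g : U.UG 3 F q) : (Fin 3 → F) ≃ₗ[F] (Fin 3 → F)) = i.1
      from congrArg Subtype.val hg)⟩
  set e := P.e ⟨0, by norm_num⟩
  set y := P.y ⟨0, by norm_num⟩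
  have h : Hyp P e y := hyp_frame _
  haveI : Nontrivial (Fin 3 → F) := ⟨⟨_, 0, h.e_ne⟩⟩
  have he : ∀ W, P.TS W → rad P W ≤ ρ.range := fun W _ i hi => hrange i (by
    set d := LinearEquiv.det (i : (Fin 3 → F) ≃ₗ[F] (Fin 3 → F)) with hd
    have h2 : d ^ p ^ 2 = 1 := by
      rw [hd, ← map_pow, ← SubgroupClass.coe_pow, rad_pow_eq_one p hi, OneMemClass.coe_one, map_one]
    refine Units.ext (sub_eq_zero.1 (eq_zero_of_pow_eq_zero (n := p ^ 2) ?_))
    rw [sub_pow_char_pow, Units.val_one, one_pow, ← Units.val_pow_eq_pow_val, h2, Units.val_one, sub_self])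
  obtain ⟨a, ha0, ha1, ha2⟩ := exists_perp_pair h (by rw [finrank_pi]; simp)
  have hqa : P.q a ≠ 0 := fun h0 => ha0 (P.aniso a
    (fun i => by rw [show i = ⟨0, by norm_num⟩ from Subsingleton.elim (α := Fin 1) i _]; exact ha1)
    (fun i => by rw [show i = ⟨0, by norm_num⟩ from Subsingleton.elim (α := Fin 1) i _]; exact ha2) h0)
  -- coordinates in the orthogonal of `e`
  have hcoord : ∀ z, P.B e z = 0 → ∃ γ δ : F, z = γ • e + δ • a := by
    have hinj : Function.Injective fun x : Fin 3 → F => x 0 • y + x 1 • e + x 2 • a := by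
      intro x x' hxx
      have key : ∀ u, P.B u (x 0 • y + x 1 • e + x 2 • a) = P.B u (x' 0 • y + x' 1 • e + x' 2 • a) :=
        fun u => congrArg (P.B u) hxx
      have k0 := key e
      have k1 := key y
      have k2 := key a
      simp only [map_add, map_smul, h.ey, h.ee, ha1, h.yy, h.ye, ha2, P.symm_zero ha1, P.symm_zero ha2,
        smul_eq_mul, mul_one, mul_zero, add_zero, zero_add] at k0 k1 k2
      funext i
      fin_cases i
      · exact k0
      · exact mul_right_cancel₀ P.η_ne k1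
      · exact mul_right_cancel₀ (show P.B a a ≠ 0 from hqa) k2
    intro z hz
    obtain ⟨x, hx⟩ := (Finite.injective_iff_surjective.1 hinj) z
    refine ⟨x 1, x 2, ?_⟩
    have h0 : x 0 = 0 := by
      have := congrArg (P.B e) hx
      simpa [h.ey, h.ee, ha1, hz] using this
    rw [← hx]
    simp [h0]
  have hsing : ∀ z, P.q z = 0 → P.B e z = 0 → z ∈ F ∙ e := by
    intro z hz hez
    obtain ⟨γ, δ, rfl⟩ := hcoord z hez
    rw [P.q_add, P.q_smul_eq_zero _ h.qe, map_smul, LinearMap.map_smulₛₗ, LinearMap.smul_apply, ha1,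
      smul_zero, smul_zero, map_zero, zero_add, add_zero, P.q_smul, mul_eq_zero, or_iff_left hqa,
      mul_eq_zero] at hz
    have hδ : δ = 0 := hz.elim (fun h0 => (map_eq_zero _).1 h0) id
    exact Submodule.mem_span_singleton.2 ⟨γ, by simp [hδ]⟩
  have hW0 : ∃ a, a ≠ 0 ∧ P.B e a = 0 ∧ P.B y a = 0 := ⟨a, ha0, ha1, ha2⟩
  set Q := (eich P e).comap ρ with hQdef
  have hQp : IsPGroup p Q := fun g => ⟨2, Subtype.ext (hρ (by
    push_cast
    rw [map_pow, map_one, rad_pow_eq_one p g.2]))⟩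
  obtain ⟨T, hQT⟩ := hQp.exists_le_sylow
  have lift : ∀ i ∈ eich P e, ∃ u ∈ Q, ρ u = i := fun i hi => by
    obtain ⟨u, hu⟩ := he _ (TS_singleton h.qe) hi
    exact ⟨u, by rw [hQdef, Subgroup.mem_comap, hu]; exact hi, hu⟩
  -- `T = Q`
  letI : MulAction ↥(T : Subgroup (Cfsg.SU 3 F q)) (Fin 3 → F) :=
    { smul := fun t v => ap P (ρ t) v
      one_smul := fun v => by show ap P (ρ ((1 : ↥(T : Subgroup (Cfsg.SU 3 F q))) : Cfsg.SU 3 F q)) v = v; simp [ap_one]
      mul_smul := fun a b v => by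
        show ap P (ρ ((a * b : ↥(T : Subgroup (Cfsg.SU 3 F q))) : Cfsg.SU 3 F q)) v = ap P (ρ a) (ap P (ρ b) v)
        rw [Subgroup.coe_mul, map_mul, ap_mul] }
  have hTe : ∀ t ∈ (T : Subgroup (Cfsg.SU 3 F q)), ap P (ρ t) e = e := by
    have hV : p ∣ Nat.card (Fin 3 → F) := by
      obtain ⟨k, -, hk⟩ := FiniteField.card F p
      rw [Nat.card_fun, Nat.card_eq_fintype_card (α := F), hk]
      exact dvd_pow (dvd_pow_self p k.ne_zero) (by simp)
    obtain ⟨v, hv, hv0⟩ := T.2.exists_fixed_point_of_prime_dvd_card_of_fixed_point (Fin 3 → F) hV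
      (a := (0 : Fin 3 → F)) fun t => map_zero (ap P (ρ t))
    obtain ⟨c, hc⟩ := Submodule.mem_span_singleton.1 (mem_of_eich_fixed h hW0 (v := v) fun i hi => by
      obtain ⟨u, hu, rfl⟩ := lift i hi
      exact hv ⟨u, hQT hu⟩)
    have hc0 : c ≠ 0 := fun h0 => hv0 (by rw [← hc, h0, zero_smul])
    intro t ht
    have := hv ⟨t, ht⟩
    rw [← hc] at this
    change ap P (ρ t) (c • e) = c • e at this
    rw [map_smul] at this
    exact (smul_right_injective _ hc0) this
  have hTQ : (T : Subgroup (Cfsg.SU 3 F q)) = Q := by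
    refine le_antisymm (fun t ht => ⟨fun w hw => ?_, fun z hz => ?_⟩) hQT
    · obtain ⟨c, rfl⟩ := Submodule.mem_span_singleton.1 hw
      rw [map_smul, hTe t ht]
    · obtain ⟨γ, δ, rfl⟩ := hcoord z (mem_perp_singleton.1 hz)
      obtain ⟨γ', δ', he'⟩ := hcoord (ap P (ρ t) a) (by
        conv_lhs => rw [← hTe t ht]
        rw [ap_B]; exact ha1)
      obtain ⟨k, hk⟩ := T.2 ⟨t, ht⟩
      have hpow : ∀ j : ℕ, ∃ γj : F, ap P (ρ (t ^ j)) a = γj • e + δ' ^ j • a := by
        intro j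
        induction j with
        | zero => exact ⟨0, by simp [ap_one]⟩
        | succ j ih =>
          obtain ⟨γj, hj⟩ := ih
          refine ⟨γj + δ' ^ j * γ', ?_⟩
          rw [pow_succ', map_mul, ap_mul, hj, map_add, map_smul, map_smul, hTe t ht, he', smul_add,
            smul_smul, smul_smul, ← pow_succ, add_smul, add_assoc]
      obtain ⟨γk, hγk⟩ := hpow (p ^ k)
      rw [show t ^ p ^ k = 1 from congrArg Subtype.val hk, map_one, ap_one] at hγk
      have hd : δ' ^ p ^ k = 1 := by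
        have h1 := congrArg (P.B a) hγk
        simp only [map_add, map_smul, P.symm_zero ha1, mul_zero, zero_add, smul_eq_mul] at h1
        exact (mul_eq_right₀ (b := P.B a a) hqa).1 h1.symm
      have hδ : δ' = 1 := sub_eq_zero.1 (eq_zero_of_pow_eq_zero (n := p ^ k)
        (by rw [sub_pow_char_pow, hd, one_pow, sub_self]))
      rw [map_add, map_smul, map_smul, hTe t ht, he', hδ, one_smul, smul_add,
        show γ • e + (δ • γ' • e + δ • a) - (γ • e + δ • a) = δ • γ' • e by abel]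
      exact Submodule.smul_mem _ _ (Submodule.smul_mem _ _ (Submodule.mem_span_singleton_self e))
  set π := QuotientGroup.mk' (Subgroup.center (Cfsg.SU 3 F q)) with hπdef
  have hπ : Function.Surjective π := QuotientGroup.mk'_surjective _
  set N := ptStab ρ h.e_ne with hNdef
  have hNQ : ∀ g ∈ N, ∀ u ∈ Q, g * u * g⁻¹ ∈ Q := by
    intro g hg u hu
    rw [hQdef, Subgroup.mem_comap, map_mul, map_mul, map_inv]
    refine rad_conj (fun z => ?_) hu
    have hge : ap P (ρ g) e ≠ 0 := by simpa using h.e_ne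
    rw [← ap_mem_span_iff (ρ g) z e]
    exact iff_of_eq (congrArg (fun S : Submodule F _ => ap P (ρ g) z ∈ S) (span_eq_of_mem hge hg).symm)
  refine ⟨T.mapSurjective (f := π) hπ, fun L hL => ?_⟩
  by_cases hm : ∀ m ∈ L.comap π, m ∈ N
  · refine Or.inl (le_antisymm (fun x hx => ?_) hL)
    obtain ⟨g, rfl⟩ := hπ x
    have hg := hm g hx
    rw [Sylow.coe_mapSurjective]
    refine Subgroup.mem_normalizer_iff.2 fun z => ⟨?_, fun hz => ?_⟩
    · rintro ⟨u, hu, rfl⟩
      rw [hTQ] at hu ⊢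
      exact ⟨g * u * g⁻¹, hNQ g hg u hu, by simp⟩
    · obtain ⟨u, hu, e'⟩ := hz
      rw [hTQ] at hu ⊢
      refine ⟨g⁻¹ * u * g⁻¹⁻¹, hNQ _ (inv_mem hg) u hu, ?_⟩
      rw [map_mul, map_mul, map_inv, map_inv, map_inv, e']
      group
  · push Not at hm
    obtain ⟨m, hm, hmN⟩ := hm
    refine Or.inr (opp_top h hW0 ρ he L (fun u hu => hL (Subgroup.le_normalizer (by
      rw [Sylow.coe_mapSurjective]; exact ⟨u, hQT hu, rfl⟩))) ⟨m, hm, fun h0 => hmN ?_⟩)
    exact hsing _ (by rw [ap_q]; exact h.qe) h0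

end Cfsg.Agent.PMinLie
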