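import Cfsg.Agent.PMinLie.TitsOver

/-!
The overgroup data for the Tits group.
-/

set_option autoImplicit false
set_option maxRecDepth 4096

namespace Cfsg.Agent.PMinLie

open Cfsg.Lie Cfsg.Agent.ChevGrp Cfsg.Agent.ChevTw Cfsg.Agent.Opp34
open Cfsg.Agent.ChevSmall.Tits (TG)
open scoped MatrixGroups

theorem has_congr_sub {G : Type*} [Group G] [Finite G] {K : Type*} [Group K] {p : ℕ} [Fact p.Prime] {c : Kind}
    (T : Subgroup K) (e : G ≃* T) (h : Has c p ↥T) : Has c p G := h.congr e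

/-- The Tits group has two stable overgroups. -/
theorem tits_twoStable {G : Type*} [Group G] [Finite G] (h : Cfsg.Lie.IsoTits G) :
    Has .twoStable 2 G := by
  classical
  obtain ⟨e⟩ := h
  haveI : Fact (Nat.Prime 2) := ⟨Nat.prime_two⟩
  refine has_congr_sub (commutator TG) e ?_
  haveI : CharP (ZMod 2) 2 := inferInstance
  have hK : Fintype.card (ZMod 2) = 2 ^ (2 * 0 + 1) := by simp
  obtain ⟨len, hR⟩ := (rulesF4 (ZMod 2)).root
  let W := grpF4 (K := ZMod 2) (m := 0) hK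
  have hS := rulesF4 (ZMod 2)
  set S := glSys hS
  have h0 := twF4_ok.isLongest (T := twistF4 (K := ZMod 2) (m := 0) hK) (fun _ => rfl) rfl
  haveI : Nonempty (Fin twF4.nOrb) := ⟨⟨0, by decide⟩⟩
  obtain ⟨P, hPB, hPN, hPS⟩ := W.exists_BNPair_gens hS hR h0
  haveI : Finite ↥W.Tw := ChevSmall.Tits.finite_TG
  have memB : ∀ g : ↥W.Tw, g ∈ P.B ↔ (g : GL chevF4.Idx (ZMod 2)) ∈ S.Bbar := fun g => by
    rw [hPB, Subgroup.mem_subgroupOf, Subgroup.mem_inf, and_iff_left g.2]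
  have memN : ∀ g : ↥W.Tw, g ∈ P.N ↔ (g : GL chevF4.Idx (ZMod 2)) ∈ S.Nbar := fun g => by
    rw [hPN, Subgroup.mem_subgroupOf, Subgroup.mem_inf, and_iff_left g.2]
  have hU : Nat.card ↥(chevF4.posUnipotent (ZMod 2) ⊓ twistedF4 (ZMod 2) (2 ^ 0)) = 2 ^ 12 := by
    simpa using thm_S1090 (K := ZMod 2) (m := 0) hK
  have hH : Nat.card ↥(chevF4.diagonalSubgroup (ZMod 2) ⊓ twistedF4 (ZMod 2) (2 ^ 0)) = 1 := by
    simpa using thm_S1110 (K := ZMod 2) (m := 0) hK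
  rw [posUnipotent_eq hS] at hU
  rw [diagonalSubgroup_eq hS hR] at hH
  have hbot : S.Hbar ⊓ W.Tw = ⊥ := Subgroup.card_eq_one.1 hH
  have hBU : ∀ g : ↥W.Tw, g ∈ P.B → (g : GL chevF4.Idx (ZMod 2)) ∈ S.Ubar := by
    intro g hg
    obtain ⟨u, hu, h', hh', eg⟩ := W.B_decomp hS hR (Orbits.comm_word _ hR _) (h0.invSet_eq hR)
      ((memB g).1 hg) g.2
    rw [hbot, Subgroup.mem_bot] at hh'
    rw [eg, hh', mul_one]
    exact hu.1
  have hUsub : Nat.card ↥((S.Ubar ⊓ W.Tw).subgroupOf W.Tw) = 2 ^ 12 := by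
    rw [Nat.card_congr (Subgroup.subgroupOfEquivOfLe inf_le_right).toEquiv]
    exact hU
  have hBeq : P.B = (S.Ubar ⊓ W.Tw).subgroupOf W.Tw := by
    ext g
    rw [Subgroup.mem_subgroupOf, Subgroup.mem_inf, and_iff_left g.2]
    exact ⟨hBU g, fun h => (memB g).2 (S.Ubar_le_Bbar h)⟩
  have hBcard : Nat.card ↥P.B = 2 ^ 12 := by rw [hBeq, hUsub]
  have hB : IsPGroup 2 P.B := IsPGroup.of_card hBcard
  let T' : Subgroup ↥W.Tw := commutator TG
  haveI : T'.Normal := inferInstanceAs (commutator TG).Normal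
  have hidx : T'.index = 2 := ChevSmall.Tits.index_commutator
  have hTcard : Nat.card ↥T' = 17971200 := ChevSmall.Tits.card_derived
  have hinv : ∀ x : ↥W.Tw, x * x = 1 → x ∈ T' := by
    intro x hx
    by_cases hx1 : x = 1
    · rw [hx1]; exact one_mem _
    have ho : orderOf x = 2 := orderOf_eq_prime (by rwa [pow_two]) hx1
    exact ChevTwSec.involution_mem_commutator hK x ho
  have hBT : ¬ P.B ≤ T' := fun h => by
    have := Subgroup.card_dvd_of_le h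
    rw [hBcard, hTcard] at this
    norm_num at this
  obtain ⟨hn0N, hn0c, hn0T⟩ := W.prod_nJ hS hR twF4.longSeq
  set g0 := (twF4.longSeq.map (W.nJ hS hR)).prod
  let n0 : P.N := ⟨⟨g0, hn0T⟩, (memN _).2 hn0N⟩
  have hn0 : ∀ y ∈ P.B, (n0 : ↥W.Tw) * y * (n0 : ↥W.Tw)⁻¹ ∈ P.B → y = 1 := by
    intro y hy hy'
    have hu := hBU y hy
    have hu' := (memB _).1 hy'
    push_cast at hu'
    have hV : g0 * (y : GL chevF4.Idx (ZMod 2)) * g0⁻¹ ∈ S.Vbar ⊓ S.Bbar := by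
      refine Subgroup.mem_inf.2 ⟨?_, hu'⟩
      refine S.US_mono ?_ (conjP_mem_US hn0c (fun r hr => hr.1) hu)
      rintro _ ⟨r, hr, rfl⟩
      have h1 := h0.invSet_eq hR
      have : r ∈ invSet chevF4 ((orbF4 hK).word twF4.longSeq) := by rw [h1]; exact hr
      exact this.2
    rw [S.Vbar_inf_Bbar hS hR, Subgroup.mem_bot, conj_eq_one_iff] at hV
    exact Subtype.ext hV
  have hnc : ∀ s : P.S, ∃ t : P.S,
      BNPair.σ P s * BNPair.σ P t ≠ BNPair.σ P t * BNPair.σ P s := by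
    intro s
    have hs2 := s.2
    simp only [hPS, Set.mem_setOf_eq] at hs2
    obtain ⟨a, ha⟩ := hs2
    have h1 : ({a} : Finset (Fin twF4.nOrb)).Nonempty := Finset.singleton_nonempty a
    have h2 : ({a} : Finset (Fin twF4.nOrb)) ≠ Finset.univ := by
      intro h
      have := congrArg Finset.card h
      rw [Finset.card_singleton, Finset.card_univ, Fintype.card_fin] at this
      exact absurd this (by decide)
    obtain ⟨a', ha', b, -, r, hr, hne2⟩ := ChevTwOrd.linked_F4 {a} h1 h2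
    rw [Finset.mem_singleton] at ha'
    subst ha'
    refine ⟨⟨⟨_, (W.nJ_spec hS hR b).2.2⟩, by rw [hPS]; exact ⟨b, rfl⟩⟩, fun hc => hne2 ?_⟩
    obtain ⟨a1, a2, -⟩ := W.nJ_spec hS hR a'
    obtain ⟨b1, b2, a3⟩ := W.nJ_spec hS hR b
    have hH' : W.nJ hS hR a' * W.nJ hS hR b * (W.nJ hS hR a')⁻¹ * (W.nJ hS hR b)⁻¹ ∈ S.Hbar := by
      rw [← S.Bbar_inf_Nbar hS hR]
      refine Subgroup.mem_inf.2 ⟨?_, mul_mem (mul_mem (mul_mem a1 b1) (inv_mem a1)) (inv_mem b1)⟩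
      have hm : ∀ x y : P.N, BNPair.π P x * BNPair.π P y = BNPair.π P y * BNPair.π P x →
          ((x : ↥W.Tw) * y * (x : ↥W.Tw)⁻¹ * (y : ↥W.Tw)⁻¹) ∈ P.B := by
        intro x y hxy
        have h3 : BNPair.π P (x * y * x⁻¹ * y⁻¹) = 1 := by
          rw [map_mul, map_mul, map_mul, map_inv, map_inv, hxy]
          group
        have h4 := (BNPair.π_eq_one P).1 h3
        simpa only [Subgroup.coe_mul, Subgroup.coe_inv] using h4
      have := (memB _).1 (hm ⟨_, P.subset s.2⟩ ⟨⟨_, a3⟩, P.subset (by rw [hPS]; exact ⟨b, rfl⟩)⟩ hc)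
      push_cast at this
      rw [ha] at this
      exact this
    have e1 := a2.mul hR b2
    have e2 := (S.conjP_Hbar hS hR hH').mul hR (b2.mul hR a2)
    rw [List.nil_append, show W.nJ hS hR a' * W.nJ hS hR b * (W.nJ hS hR a')⁻¹ * (W.nJ hS hR b)⁻¹ *
      (W.nJ hS hR b * W.nJ hS hR a') = W.nJ hS hR a' * W.nJ hS hR b by simp [mul_assoc]] at e2
    exact Sys.ConjP.act_unique _ hR e1 e2 r (List.mem_range.1 hr)
  have hP : ChevTwSec.IsTwPair W hR P := ⟨hPB, hPN, hPS⟩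
  let sJ : Fin twF4.nOrb → P.S := fun J =>
    ⟨⟨W.nJ hS hR J, (W.nJ_spec hS hR J).2.2⟩, by rw [hPS]; exact ⟨J, rfl⟩⟩
  have hsJ : ∀ J, Nat.card ↥(P.parabolic {((sJ J : P.S) : ↥W.Tw)}) =
      2 ^ 12 * ((if J.val = 0 then 2 ^ (2 * 0 + 1) else (2 ^ (2 * 0 + 1)) ^ 2) + 1) := fun J => by
    rw [ChevTwSec.card_parabolic hP h0 J (sJ J) rfl, hBcard, card_fixF4]
  have hdvd : ¬ Nat.card ↥(P.parabolic {((sJ ⟨0, by decide⟩ : P.S) : ↥W.Tw)}) ∣
      Nat.card ↥(P.parabolic {((sJ ⟨1, by decide⟩ : P.S) : ↥W.Tw)}) ∧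
      ¬ Nat.card ↥(P.parabolic {((sJ ⟨1, by decide⟩ : P.S) : ↥W.Tw)}) ∣
      Nat.card ↥(P.parabolic {((sJ ⟨0, by decide⟩ : P.S) : ↥W.Tw)}) := by
    rw [hsJ, hsJ]; norm_num
  refine (?_ : Has .twoStable 2 ↥T')
  refine index_two_twoStable (T := T') hn0 hB hidx hinv hBT hnc ?_ (sJ ⟨0, by decide⟩) (sJ ⟨1, by decide⟩) ?_ ?_ hdvd
  · have hU1 := card_inf_index_two hidx hBT
    rw [hBcard] at hU1
    have h1 := ((P.B ⊓ T').subgroupOf T').card_mul_index
    rw [Subgroup.inf_subgroupOf_right, hTcard, show Nat.card ↥(P.B.subgroupOf T') = 2 ^ 11 by omega] at h1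
    rw [Subgroup.inf_subgroupOf_right]
    omega
  · intro h
    exact hdvd.1 (by rw [h])
  · intro s
    have hs2 := s.2
    simp only [hPS, Set.mem_setOf_eq] at hs2
    obtain ⟨J, hJ⟩ := hs2
    have e : s = sJ J := Subtype.ext (Subtype.ext hJ)
    subst e
    have hlt : J.val < 2 := J.2
    rcases Nat.lt_succ_iff_lt_or_eq.1 hlt with h | h
    · exact Or.inl (congrArg sJ (Fin.ext (Nat.lt_one_iff.1 h)))
    · exact Or.inr (congrArg sJ (Fin.ext h))

end Cfsg.Agent.PMinLie
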