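import Cfsg.Agent.PMinLie.Core
import Cfsg.Agent.KSG.TwAutE6
import Cfsg.Agent.KSG.TwAutD4
import Cfsg.Agent.KSG.TwAutF4
import Cfsg.Agent.ChevTwOrd.G2
import Cfsg.Agent.Opp34.Twisted
import Cfsg.Agent.Suzuki.Sylow
import Cfsg.Agent.Suzuki.LieModel
import Cfsg.Prelude.Def_LieTypeChar

/-!
# The overgroup data in the twisted groups

In ²E₆, ³D₄ and ²F₄ every normalised automorphism fixes each orbit parabolic; ²G₂ and the Suzuki
groups have rank one.
-/

set_option autoImplicit false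

namespace Cfsg.Agent.PMinLie

open Cfsg.Lie Cfsg.Agent.ChevGrp Cfsg.Agent.ChevTw Cfsg.Agent.BNPair Cfsg.Agent.KSG.TwAut

section Generic

variable {D : ChevalleyDatum} {F : Type} [Field F] [Finite F] {G : Type*} [Group G] {len : ℕ → ℕ}
  {S : Sys D F G} {T : Twist S} {ι : Type*} {O : Orbits T ι} (W : TwGroup O)
  (hS : Rules D F) (hR : RootTable D len) {ks0 : List ι} (h0 : IsLongest O ks0)
  {p : ℕ} [Fact p.Prime] [CharP F p]

include hS hR h0

/-- Two complementary orbit sets give two stable parabolic subgroups. -/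
theorem tw_twoStable [Finite ↥W.Tw] (hθ : Function.Injective S.θ) (J0 J1 : ι) (h01 : J0 ≠ J1)
    (hfix : ∀ β : MulAut ↥W.Tw, KSG.TwAut.Normalised W β → ∀ (J : ι) (g : ↥W.Tw),
      g ∈ PT W hS hR h0 J → β g ∈ PT W hS hR h0 J) :
    Has .twoStable p ↥W.Tw := by
  set P := pair W hS hR h0 with hP
  have hsub : ∀ A : Set ι, nT W hS hR '' A ⊆ P.S := fun A => by
    rintro _ ⟨J, -, rfl⟩
    exact (mem_pair_S W hS hR h0).2 ⟨J, rfl⟩
  have hinj : Function.Injective (nT W hS hR) := fun a b e =>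
    (nT_mem_PT_iff W hS hR h0 b a).1 (e ▸ nT_mem_PT W hS hR h0 b)
  let PA : Set ι → Subgroup ↥W.Tw := fun A => P.parabolic (nT W hS hR '' A)
  have hB : ∀ A, BT W ≤ PA A := fun A => by
    rw [← pair_B W hS hR h0]
    exact B_le_parabolic _ _
  have hne : ∀ (A : Set ι) (J : ι), J ∉ A → PA A ≠ ⊤ := fun A J hJ h => by
    have h1 := (mem_parabolic_of_mem P (hsub A) ⟨_, (mem_pair_S W hS hR h0).2 ⟨J, rfl⟩⟩).1
      (show nT W hS hR J ∈ PA A from h ▸ Subgroup.mem_top _)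
    obtain ⟨J', hJ', e⟩ := h1
    exact hJ (hinj e ▸ hJ')
  have hPT : ∀ (A : Set ι), ∀ J ∈ A, PT W hS hR h0 J ≤ PA A := fun A J hJ =>
    parabolic_mono P (Set.singleton_subset_iff.2 ⟨J, hJ, rfl⟩)
  have hstab : ∀ A, Stable p (UT W) (PA A) := by
    intro A α _ hU
    have hmem : ∀ g, α g ∈ UT W ↔ g ∈ UT W := fun g => by
      conv_lhs => rw [← hU]
      exact Subgroup.mem_map_iff_mem α.injective
    obtain ⟨x, hx⟩ := exists_conj_normalised W hS hR h0 hmem
    have hxB : x ∈ BT W := by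
      rw [← normalizer_UT W hS hR h0, Subgroup.mem_normalizer_iff]
      intro g
      obtain ⟨g, rfl⟩ := α.surjective g
      rw [hmem]
      exact (hx.1 g).symm
    refine Subgroup.eq_of_le_of_card_ge ?_ (Subgroup.card_map_of_injective α.injective).ge
    suffices h : PA A ≤ (PA A).comap (MulAut.conj x * α).toMonoidHom by
      rintro _ ⟨g, hg, rfl⟩
      have h1 : x * α g * x⁻¹ ∈ PA A := h hg
      have h2 := mul_mem (mul_mem (inv_mem (hB A hxB)) h1) (hB A hxB)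
      simpa [mul_assoc] using h2
    refine sup_le (fun b hb => ?_) ((Subgroup.closure_le _).2 ?_)
    · rw [pair_B] at hb
      exact hB A ((hx.mem_BT W hS hR h0 b).2 hb)
    · rintro _ ⟨J, hJ, rfl⟩
      exact hPT A J hJ (hfix _ hx J _ (nT_mem_PT W hS hR h0 J))
  refine ⟨(isPGroup_UT W hR (p := p)).toSylow (not_dvd_index W hS hR h0 hθ), PA {J0}, PA {J0}ᶜ,
    ?_, ?_, hne _ J1 (fun h => h01 h.symm), hne _ J0 (by simp), ?_, hstab _, hstab _⟩
  · exact (UT_le_BT W).trans (hB _)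
  · exact (UT_le_BT W).trans (hB _)
  · refine top_unique ?_
    rw [← parabolic_S P]
    refine sup_le (le_sup_of_le_left le_sup_left) ((Subgroup.closure_le _).2 fun s hs => ?_)
    obtain ⟨J, rfl⟩ := (mem_pair_S W hS hR h0).1 hs
    by_cases hJ : J = J0
    · exact Subgroup.mem_sup_left (subset_parabolic P _ ⟨J, hJ, rfl⟩)
    · exact Subgroup.mem_sup_right (subset_parabolic P _ ⟨J, hJ, rfl⟩)

/-- One orbit: rank one. -/
theorem tw_rankOne [Finite ↥W.Tw] [Subsingleton ι] (hθ : Function.Injective S.θ) :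
    Has .rankOne p ↥W.Tw := by
  set P := pair W hS hR h0 with hP
  refine ⟨(isPGroup_UT W hR (p := p)).toSylow (not_dvd_index W hS hR h0 hθ), fun L hL => ?_⟩
  replace hL : Subgroup.normalizer (UT W : Set ↥W.Tw) ≤ L := hL
  show L = Subgroup.normalizer (UT W : Set ↥W.Tw) ∨ L = ⊤
  rw [normalizer_UT W hS hR h0] at hL ⊢
  have e := eq_parabolic_inter P (H := L) (by rwa [pair_B])
  by_cases h : (P.S ∩ (L : Set ↥W.Tw)).Nonempty
  · right
    obtain ⟨s, hs, hsL⟩ := h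
    obtain ⟨J, rfl⟩ := (mem_pair_S W hS hR h0).1 hs
    refine top_unique ?_
    rw [← parabolic_S P, e]
    refine parabolic_mono P fun t ht => ⟨ht, ?_⟩
    obtain ⟨J', rfl⟩ := (mem_pair_S W hS hR h0).1 ht
    rwa [Subsingleton.elim J' J]
  · left
    rw [Set.not_nonempty_iff_eq_empty] at h
    rw [e, h, parabolic_empty, pair_B]

end Generic

/-- ²E₆ and ³D₄. -/
theorem twistedE6D4_twoStable {G : Type*} [Group G] [Finite G] {p : ℕ} [Fact p.Prime]
    (h : Cfsg.IsTwistedE6D4Char p G) : Has .twoStable p G := by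
  obtain ⟨K, _, _, _, q, hq, ⟨hK, ⟨e⟩⟩ | ⟨hK, ⟨e⟩⟩⟩ := h
  · obtain ⟨len, hR⟩ := (rulesE6 K).root
    have hν : ∀ J, (∀ r ∈ (orbE6 hq hK).negJ J,
        act chevE6 ((orbE6 hq hK).word twE6.longSeq) r ∈ (orbE6 hq hK).posJ J) ∧
        ∀ r ∈ (orbE6 hq hK).posJ J,
          act chevE6 ((orbE6 hq hK).word twE6.longSeq).reverse r ∈ (orbE6 hq hK).negJ J := fun J => by
      have ep := twE6_ok.enum_posJ (T := twistE6 hq hK) (fun _ => rfl) rfl J
      have en := twE6_ok.enum_negJ (T := twistE6 hq hK) (fun _ => rfl) rfl hR J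
      exact ⟨fun r hr => (ep.2 _).1 ((KSG.TwAutE6.tableE6 J).2 r ((en.2 r).2 hr)),
        fun r hr => (en.2 _).1 ((KSG.TwAutE6.tableE6 J).1 r ((ep.2 r).2 hr))⟩
    refine Has.congr e (tw_twoStable (grpE6 hq hK) (rulesE6 K) hR
      (twE6_ok.isLongest (T := twistE6 hq hK) (fun _ => rfl) rfl) (fun a b h => h)
      (⟨0, by decide⟩ : Fin twE6.nOrb) ⟨1, by decide⟩ (by decide) fun β hβ J g hg => ?_)
    obtain ⟨π, hπ⟩ := exists_perm (grpE6 hq hK) (rulesE6 K) hR _ hν hβ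
    obtain rfl := KSG.TwAutE6.hperm hq hK hR β π (fun J g => (hπ J g).1) fun J g => (hπ J g).2.2
    exact (hπ J g).2.2.2 hg
  · obtain ⟨len, hR⟩ := (rulesD4 K).root
    have hν : ∀ J, (∀ r ∈ (orbD4 hq hK).negJ J,
        act chevD4 ((orbD4 hq hK).word twD4.longSeq) r ∈ (orbD4 hq hK).posJ J) ∧
        ∀ r ∈ (orbD4 hq hK).posJ J,
          act chevD4 ((orbD4 hq hK).word twD4.longSeq).reverse r ∈ (orbD4 hq hK).negJ J := fun J => by
      have ep := twD4_ok.enum_posJ (T := twistD4 hq hK) (fun _ => rfl) rfl J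
      have en := twD4_ok.enum_negJ (T := twistD4 hq hK) (fun _ => rfl) rfl hR J
      exact ⟨fun r hr => (ep.2 _).1 ((KSG.TwAutD4.tableD4 J).2 r ((en.2 r).2 hr)),
        fun r hr => (en.2 _).1 ((KSG.TwAutD4.tableD4 J).1 r ((ep.2 r).2 hr))⟩
    refine Has.congr e (tw_twoStable (grpD4 hq hK) (rulesD4 K) hR
      (twD4_ok.isLongest (T := twistD4 hq hK) (fun _ => rfl) rfl) (fun a b h => h)
      (⟨0, by decide⟩ : Fin twD4.nOrb) ⟨1, by decide⟩ (by decide) fun β hβ J g hg => ?_)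
    obtain ⟨π, hπ⟩ := exists_perm (grpD4 hq hK) (rulesD4 K) hR _ hν hβ
    obtain rfl := KSG.TwAutD4.hperm hq hK β π (fun J g => (hπ J g).1)
    exact (hπ J g).2.2.2 hg

/-- ²F₄. -/
theorem reeF4_twoStable {G : Type*} [Group G] [Finite G] (h : Cfsg.Lie.Iso2F4 G) :
    Has .twoStable 2 G := by
  obtain ⟨K, _, _, m, hm, hK, ⟨e⟩⟩ := h
  obtain ⟨len, hR⟩ := (rulesF4 K).root
  have := charTwo_of_card hK
  exact Has.congr e (tw_twoStable (grpF4 hK) (rulesF4 K) hR
    (twF4_ok.isLongest (T := twistF4 hK) (fun _ => rfl) rfl) (fun a b h => h)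
    (⟨0, by decide⟩ : Fin twF4.nOrb) ⟨1, by decide⟩ (by decide)
    fun β hβ J g hg => (KSG.TwAutF4.orbit_fixed hK hR hβ J g).2.2.2 hg)

/-- ²G₂. -/
theorem reeG2_rankOne {G : Type*} [Group G] [Finite G] (h : Cfsg.Lie.IsoRee G) :
    Has .rankOne 3 G := by
  obtain ⟨K, _, _, m, hm, hK, ⟨e⟩⟩ := h
  obtain ⟨len, hR⟩ := (rulesG2 K).root
  have : Fact (Nat.Prime 3) := ⟨Nat.prime_three⟩
  have : CharP K 3 := charP_of_card Nat.prime_three hK
  have : Subsingleton (Fin twG2.nOrb) := ⟨fun a b => Fin.ext (by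
    have ha : a.val < 1 := a.2
    have hb : b.val < 1 := b.2
    omega)⟩
  exact Has.congr e (tw_rankOne (grpG2 hK) (rulesG2 K) hR
    (twG2_ok.isLongest (T := twistG2 hK) (fun _ => rfl) rfl) fun a b h => h)

section

open Cfsg.Agent.Suzuki MulAction

/-- The Suzuki groups. -/
theorem suzuki_rankOne {G : Type*} [Group G] [Finite G] (h : Cfsg.Lie.IsoSuzuki G) :
    Has .rankOne 2 G := by
  obtain ⟨F, _, _, m, hm, hF, ⟨e⟩⟩ := h
  have : Suzuki.SuzukiField F m := ⟨hm, hF⟩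
  have : Fact (Nat.Prime 2) := ⟨Nat.prime_two⟩
  refine Has.congr (e.trans (szEquivLie F m).symm) ⟨unipSylow F m, fun L hL => ?_⟩
  set Nu := Subgroup.normalizer ((unipSylow F m : Subgroup (Cfsg.Sz F m)) : Set (Cfsg.Sz F m))
  by_cases hle : L ≤ Nu
  · exact Or.inl (le_antisymm hle hL)
  right
  have hN : ∀ g : Cfsg.Sz F m, g • oInf F m = oInf F m → g ∈ L := fun g hg => by
    refine hL (Subgroup.mem_normalizer_iff.2 fun u => ?_)
    rw [coe_unipSylow]
    refine ⟨?_, fun hu => ?_⟩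
    · rintro ⟨a, b, rfl⟩
      exact conj_gT_mem_unip hg a b
    · obtain ⟨a, b, e⟩ := hu
      have := conj_gT_mem_unip (g := g⁻¹) (inv_smul_eq_iff.2 hg.symm) a b
      rwa [← e, show g⁻¹ * (g * u * g⁻¹) * g⁻¹⁻¹ = u by group] at this
  obtain ⟨g, hgL, hg⟩ : ∃ g ∈ L, g • oInf F m ≠ oInf F m := by
    by_contra hcon
    push Not at hcon
    refine hle fun g hgL => Subgroup.mem_normalizer_iff.2 fun u => ?_
    rw [coe_unipSylow]
    refine ⟨?_, fun hu => ?_⟩
    · rintro ⟨a, b, rfl⟩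
      exact conj_gT_mem_unip (hcon g hgL) a b
    · obtain ⟨a, b, e⟩ := hu
      have := conj_gT_mem_unip (g := g⁻¹) (inv_smul_eq_iff.2 (hcon g hgL).symm) a b
      rwa [← e, show g⁻¹ * (g * u * g⁻¹) * g⁻¹⁻¹ = u by group] at this
  refine eq_top_iff.2 fun x _ => ?_
  obtain ⟨a, b, eg⟩ := (ovoid_cases (g • oInf F m)).resolve_left hg
  rcases ovoid_cases (x • oInf F m) with hx | ⟨c, d, ex⟩
  · exact hN x hx
  · have h1 : (gT c d * (gT a b)⁻¹ * g : Cfsg.Sz F m) • oInf F m = x • oInf F m := by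
      rw [mul_smul, mul_smul, eg, ex]
      have hab : (gT a b : Cfsg.Sz F m) • oPt F m 0 0 = oPt F m a b := by
        rw [gT_smul_oPt]; simp
      rw [← hab, inv_smul_smul, gT_smul_oPt]
      simp
    have hU : ∀ a b, (gT a b : Cfsg.Sz F m) ∈ L := fun a b => hN _ (gT_smul_oInf a b)
    have h2 : (gT c d * (gT a b)⁻¹ * g : Cfsg.Sz F m) ∈ L :=
      mul_mem (mul_mem (hU c d) (inv_mem (hU a b))) hgL
    have h3 := mul_mem h2 (hN ((gT c d * (gT a b)⁻¹ * g : Cfsg.Sz F m)⁻¹ * x)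
      (by rw [mul_smul, inv_smul_eq_iff, h1]))
    rwa [mul_inv_cancel_left] at h3

end

end Cfsg.Agent.PMinLie
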