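import Cfsg.Agent.PMinLie.Core
import Cfsg.Agent.Opp34.Small

/-!
`U₃(3)` at the prime 2: the centraliser of the central involution and the normaliser of the diagonal
group, in orthonormal coordinates.
-/

set_option autoImplicit false

namespace Cfsg.Agent.PMinLie.UThree

open Matrix Cfsg.Agent.RecogA Cfsg.Agent.GKTools.UThree

/-- Monomial indices: two exponents and a switch. -/
abbrev I := Fin 4 × Fin 4 × Bool

/-- The powers of the fourth root of unity. -/
def im : Fin 4 → Q3 := ![⟨1, 0⟩, ⟨0, 1⟩, ⟨2, 0⟩, ⟨0, 2⟩]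

/-- The monomial matrices fixing the first coordinate line. -/
def mI : I → M3 := fun p =>
  if p.2.2 then !![-(im (-(p.1 + p.2.1))), 0, 0; 0, 0, im p.1; 0, im p.2.1, 0]
  else !![im (-(p.1 + p.2.1)), 0, 0; 0, im p.1, 0; 0, 0, im p.2.1]

def op (p q : I) : I :=
  if p.2.2 then (p.1 + q.2.1, p.2.1 + q.1, !q.2.2) else (p.1 + q.1, p.2.1 + q.2.1, q.2.2)

def e0 : I := (0, 0, false)
def zI : I := (2, 2, false)
def g1 : M3 := !![⟨1, 0⟩, ⟨0, 0⟩, ⟨0, 0⟩; ⟨0, 0⟩, ⟨1, 1⟩, ⟨1, 1⟩; ⟨0, 0⟩, ⟨2, 1⟩, ⟨1, 2⟩]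
def g3 : M3 := !![⟨0, 0⟩, ⟨1, 0⟩, ⟨0, 0⟩; ⟨0, 0⟩, ⟨0, 0⟩, ⟨1, 0⟩; ⟨1, 0⟩, ⟨0, 0⟩, ⟨0, 0⟩]
def Ws : List M3 := [g3, g3 * (g1 * (g3 * g1))]

theorem mI_isU : ∀ p, IsU (mI p) := by unfold IsU; decide +kernel
theorem g_isU : IsU g1 ∧ IsU g3 := by unfold IsU; decide +kernel
theorem mI_inj : ∀ p q, mI p = mI q → p = q := by decide +kernel
theorem mI_mul : ∀ p q, mI p * mI q = mI (op p q) := by decide +kernel
theorem mI_one : mI e0 = 1 := by decide +kernel
theorem op_abelian : ∀ p : I, p.2.2 = false ↔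
    16 ≤ (Finset.univ.filter fun q => op p q = op q p).card := by decide +kernel
theorem zI_unique : ∀ p : I, op p p = e0 → (∀ q, op p q = op q p) → p = e0 ∨ p = zI := by decide +kernel
theorem zI_central : ∀ q, op zI q = op q zI := by decide +kernel
theorem zI_facts : zI ≠ e0 ∧ op zI zI = e0 ∧ g1 * mI zI = mI zI * g1 ∧ g3 * mI zI ≠ mI zI * g3 := by
  decide +kernel
theorem diag_conj : (∀ p : I, p.2.2 = false → ∃ q : I, q.2.2 = false ∧ mI q * g3 = g3 * mI p) ∧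
    ∀ r p : I, p.2.2 = false → ∃ q : I, q.2.2 = false ∧ op q r = op r p := by decide +kernel
theorem core_trivial : ∀ p, p ≠ e0 → ∃ w ∈ Ws, ∀ q, mI q * w ≠ w * mI p := by decide +kernel

theorem isU_mul {M N : M3} (hM : IsU M) (hN : IsU N) : IsU (M * N) := by
  haveI : CharP Q3 3 := charP_of_injective_algebraMap (fun a b h => congrArg QuadraticAlgebra.re h :
    Function.Injective (algebraMap (ZMod 3) Q3)) 3
  refine ⟨by rw [det_mul, hM.1, hN.1, mul_one], ?_⟩
  have e : (M * N).map (· ^ 3) = M.map (· ^ 3) * N.map (· ^ 3) :=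
    Matrix.map_mul (M := N) (L := M) (f := frobenius Q3 3)
  rw [e, transpose_mul, Matrix.mul_assoc, ← Matrix.mul_assoc Mᵀ, hM.2, Matrix.one_mul, hN.2]

/-- Unitary matrices of the model inside the group. -/
theorem exists_model {F : Type} [Field F] [Fintype F] (hF : Fintype.card F = 9) :
    ∃ f : M3 → Cfsg.PSU 3 F 3, f 1 = 1 ∧
      (∀ M N, IsU M → IsU N → f (M * N) = f M * f N) ∧
      ∀ M N, IsU M → IsU N → f M = f N → M = N := by
  classical
  obtain ⟨φ, hφ⟩ := exists_Q3_equiv hF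
  haveI : CharP Q3 3 := charP_of_injective_algebraMap (fun a b h => congrArg QuadraticAlgebra.re h :
    Function.Injective (algebraMap (ZMod 3) Q3)) 3
  haveI : CharP F 3 := charP_of_injective_ringHom hφ.1 3
  have hadd : ∀ a b : F, (a + b) ^ 3 = a ^ 3 + b ^ 3 := fun a b => add_pow_char a b 3
  have hsq := Classical.U.sqField_of_fintype (F := F) (q := 3) (by rw [hF]; norm_num)
  have hbot : Subgroup.center (Cfsg.SU 3 F 3) = ⊥ :=
    Subgroup.eq_bot_of_card_eq _ (Classical.U.card_center_SU hsq (by norm_num))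
  let toM : Cfsg.SU 3 F 3 → Matrix (Fin 3) (Fin 3) F :=
    fun u => ((u : Matrix.SpecialLinearGroup (Fin 3) F) : Matrix (Fin 3) (Fin 3) F)
  have toM_inj : Function.Injective toM := fun a b h => Subtype.ext (Subtype.ext h)
  have hmem : ∀ M : M3, IsU M → ∃ u : Cfsg.SU 3 F 3, toM u = φ.mapMatrix M := by
    rintro M ⟨hM, hMU⟩
    let g : Matrix.SpecialLinearGroup (Fin 3) F :=
      ⟨φ.mapMatrix M, by rw [← RingHom.map_det, hM, map_one]⟩
    have hm : g ∈ Cfsg.SU 3 F 3 := by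
      rw [mem_SU_iff (by norm_num) hadd]
      show (M.map φ)ᵀ * (M.map φ).map (· ^ 3) = 1
      rw [Matrix.map_map, ← Matrix.transpose_map,
        show ((fun x : F => x ^ 3) ∘ φ) = φ ∘ (fun x : Q3 => x ^ 3) from
          funext fun x => (map_pow φ x 3).symm,
        ← Matrix.map_map, ← RingHom.mapMatrix_apply, ← RingHom.mapMatrix_apply, ← map_mul, hMU,
        map_one]
    exact ⟨⟨g, hm⟩, rfl⟩
  let π : Cfsg.SU 3 F 3 →* Cfsg.PSU 3 F 3 := QuotientGroup.mk' _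
  have hπ : Function.Injective π :=
    (MonoidHom.ker_eq_bot_iff _).1 (by rw [QuotientGroup.ker_mk', hbot])
  choose u hu using hmem
  have h1 : IsU (1 : M3) := mI_one ▸ mI_isU e0
  refine ⟨fun M => if h : IsU M then π (u M h) else 1, ?_, fun M N hM hN => ?_, fun M N hM hN h => ?_⟩
  · show (if h : IsU (1 : M3) then π (u 1 h) else 1) = 1
    rw [dif_pos h1, show u 1 h1 = 1 from toM_inj (by rw [hu, map_one]; rfl), map_one]
  · show (if h : IsU (M * N) then π (u _ h) else 1) = (if h : IsU M then π (u _ h) else 1) * (if h : IsU N then π (u _ h) else 1)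
    rw [dif_pos hM, dif_pos hN, dif_pos (isU_mul hM hN), ← map_mul]
    refine congrArg π (toM_inj ?_)
    show toM _ = toM _ * toM _
    rw [hu, hu, hu, map_mul]
  · simp only [dif_pos hM, dif_pos hN] at h
    have := congrArg toM (hπ h)
    rw [hu, hu] at this
    exact Matrix.map_injective hφ.1 this

theorem psu_three_twoStable {G : Type*} [Group G] [Finite G] {F : Type} [Field F] [Fintype F]
    (hF : Fintype.card F = 9) (e : G ≃* Cfsg.PSU 3 F 3) : Has .twoStable 2 G := by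
  classical
  haveI : Fact (Nat.Prime 2) := ⟨Nat.prime_two⟩
  refine Has.congr e ?_
  obtain ⟨D⟩ := nonempty_data hF
  set L := Cfsg.PSU 3 F 3
  haveI : Finite L := Nat.finite_of_card_ne_zero (by rw [D.card_L]; norm_num)
  obtain ⟨f, f1, fmul, finj⟩ := exists_model hF
  have hiff : ∀ M N M' N', IsU M → IsU N → IsU M' → IsU N' →
      (f M * f N = f M' * f N' ↔ M * N = M' * N') := fun M N M' N' a b a' b' => by
    rw [← fmul M N a b, ← fmul M' N' a' b']
    exact ⟨finj _ _ (isU_mul a b) (isU_mul a' b'), fun h => by rw [h]⟩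
  let u : I → L := fun p => f (mI p)
  have umul : ∀ p q, u p * u q = u (op p q) := fun p q => by
    show f _ * f _ = f _
    rw [← fmul _ _ (mI_isU p) (mI_isU q), mI_mul]
  have uinj : Function.Injective u := fun p q h => mI_inj p q (finj _ _ (mI_isU p) (mI_isU q) h)
  have u1 : u e0 = 1 := by show f _ = 1; rw [mI_one, f1]
  set U := ofMulClosed (Set.range u) ⟨e0, u1⟩ (by
    rintro _ ⟨p, rfl⟩ _ ⟨q, rfl⟩; exact ⟨op p q, (umul p q).symm⟩) with hU
  have memU : ∀ {g}, g ∈ U ↔ ∃ p, u p = g := Iff.rfl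
  set A := ofMulClosed (u '' {p | p.2.2 = false}) ⟨e0, rfl, u1⟩ (by
    rintro _ ⟨p, hp, rfl⟩ _ ⟨q, hq, rfl⟩
    refine ⟨op p q, ?_, (umul p q).symm⟩
    simp only [Set.mem_setOf_eq] at hp hq ⊢
    simp [op, hp, hq]) with hA
  have memA : ∀ {g}, g ∈ A ↔ ∃ p : I, p.2.2 = false ∧ u p = g := Iff.rfl
  have hUcard : Nat.card U = 32 := by
    rw [hU]
    show Nat.card (Set.range u) = 32
    rw [Nat.card_range_of_injective uinj, Nat.card_eq_fintype_card]
    rfl
  have hUi : ¬ 2 ∣ U.index := by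
    have h := U.card_mul_index
    rw [hUcard, D.card_L] at h
    omega
  have hUp : IsPGroup 2 U := IsPGroup.of_card (n := 5) (by rw [hUcard]; norm_num)
  set z := u zI
  set L1 := Subgroup.centralizer ({z} : Set L)
  set L2 := Subgroup.normalizer (A : Set L)
  have hUL1 : U ≤ L1 := by
    intro g hg
    obtain ⟨p, rfl⟩ := memU.1 hg
    rw [Subgroup.mem_centralizer_singleton_iff, umul, umul, zI_central]
  have hUL2 : U ≤ L2 := by
    intro g hg
    obtain ⟨r, rfl⟩ := memU.1 hg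
    refine Subgroup.mem_normalizer_fintype fun n hn => ?_
    obtain ⟨p, hp, rfl⟩ := memA.1 hn
    obtain ⟨q, hq, e⟩ := diag_conj.2 r p hp
    refine memA.2 ⟨q, hq, ?_⟩
    rw [eq_mul_inv_iff_mul_eq, umul, umul, e]
  have hg1 : f g1 ∈ L1 := by
    rw [Subgroup.mem_centralizer_singleton_iff]
    exact (hiff _ _ _ _ g_isU.1 (mI_isU _) (mI_isU _) g_isU.1).2 zI_facts.2.2.1
  have hg3 : f g3 ∈ L2 := by
    refine Subgroup.mem_normalizer_fintype fun n hn => ?_
    obtain ⟨p, hp, rfl⟩ := memA.1 hn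
    obtain ⟨q, hq, e⟩ := diag_conj.1 p hp
    refine memA.2 ⟨q, hq, ?_⟩
    rw [eq_mul_inv_iff_mul_eq]
    exact (hiff _ _ _ _ (mI_isU _) g_isU.2 g_isU.2 (mI_isU _)).2 e
  have hWs : ∀ w ∈ Ws, IsU w ∧ f w ∈ L1 ⊔ L2 := by
    have h3 : IsU g3 ∧ f g3 ∈ L1 ⊔ L2 := ⟨g_isU.2, Subgroup.mem_sup_right hg3⟩
    have h1 : IsU g1 ∧ f g1 ∈ L1 ⊔ L2 := ⟨g_isU.1, Subgroup.mem_sup_left hg1⟩
    have hm : ∀ {M N : M3}, (IsU M ∧ f M ∈ L1 ⊔ L2) → (IsU N ∧ f N ∈ L1 ⊔ L2) →
        IsU (M * N) ∧ f (M * N) ∈ L1 ⊔ L2 := fun {M N} a b =>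
      ⟨isU_mul a.1 b.1, by rw [fmul M N a.1 b.1]; exact mul_mem a.2 b.2⟩
    intro w hw
    simp only [Ws, List.mem_cons, List.not_mem_nil, or_false] at hw
    rcases hw with rfl | rfl
    exacts [h3, hm h3 (hm h1 (hm h3 h1))]
  -- no nontrivial subgroup of `U` is invariant
  have hcore : ∀ R : Subgroup L, R ≤ U → (∀ g ∈ L1 ⊔ L2, ∀ r ∈ R, g * r * g⁻¹ ∈ R) → R = ⊥ := by
    intro R hRU hR
    rw [eq_bot_iff]
    intro r hr
    obtain ⟨p, rfl⟩ := memU.1 (hRU hr)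
    rw [Subgroup.mem_bot, ← u1]
    by_contra hne
    obtain ⟨w, hw, hq⟩ := core_trivial p fun h => hne (by rw [h])
    obtain ⟨q, hq'⟩ := memU.1 (hRU (hR _ (hWs w hw).2 _ hr))
    rw [eq_mul_inv_iff_mul_eq] at hq'
    exact hq q ((hiff _ _ _ _ (mI_isU _) (hWs w hw).1 (hWs w hw).1 (mI_isU _)).1 hq')
  have hAU : A ≤ U := fun g hg => by obtain ⟨p, -, e⟩ := memA.1 hg; exact ⟨p, e⟩
  have hA1 : A ≠ ⊥ := fun h => by
    have : u zI ∈ A := memA.2 ⟨zI, rfl, rfl⟩
    rw [h, Subgroup.mem_bot, ← u1] at this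
    exact zI_facts.1 (uinj this)
  have hn1 : L1 ≠ ⊤ := fun h => zI_facts.2.2.2
    ((hiff _ _ _ _ g_isU.2 (mI_isU _) (mI_isU _) g_isU.2).1
      (Subgroup.mem_centralizer_singleton_iff.1 (h ▸ Subgroup.mem_top (f g3) : f g3 ∈ L1)))
  have hn2 : L2 ≠ ⊤ := fun h => hA1 (hcore A hAU fun g _ r hr =>
    (Subgroup.mem_normalizer_iff.1 (h ▸ Subgroup.mem_top g : g ∈ L2) r).1 hr)
  -- the invariants of an automorphism fixing `U`
  have hperm : ∀ α : MulAut L, U.map α.toMonoidHom = U →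
      ∃ σ : I ≃ I, ∀ p, α (u p) = u (σ p) := by
    intro α hα
    have hmem : ∀ p, ∃ q, u q = α (u p) := fun p => memU.1 (hα.le ⟨u p, ⟨p, rfl⟩, rfl⟩)
    choose σ hσ using hmem
    have hi : Function.Injective σ := fun p q h => uinj (α.injective (by rw [← hσ, ← hσ, h]))
    exact ⟨Equiv.ofBijective σ ((Finite.injective_iff_bijective).1 hi), fun p => (hσ p).symm⟩
  have hop : ∀ (α : MulAut L) (σ : I ≃ I), (∀ p, α (u p) = u (σ p)) → ∀ p q, σ (op p q) = op (σ p) (σ q) :=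
    fun α σ hσ p q => uinj (by rw [← hσ, ← umul, ← umul, map_mul, hσ, hσ])
  have hz : ∀ α : MulAut L, U.map α.toMonoidHom = U → α z = z := by
    intro α hα
    obtain ⟨σ, hσ⟩ := hperm α hα
    have hm := hop α σ hσ
    have he : σ e0 = e0 := uinj (by rw [← hσ, u1, map_one])
    have h1 : op (σ zI) (σ zI) = e0 := by rw [← hm, zI_facts.2.1, he]
    have h2 : ∀ q, op (σ zI) q = op q (σ zI) := fun q => by
      rw [← σ.apply_symm_apply q, ← hm, ← hm, zI_central]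
    rw [hσ]
    rcases zI_unique _ h1 h2 with h | h
    · exact absurd (σ.injective (h.trans he.symm)) zI_facts.1
    · rw [h]
  have hAα : ∀ α : MulAut L, U.map α.toMonoidHom = U → ∀ g, g ∈ A → α g ∈ A := by
    intro α hα g hg
    obtain ⟨σ, hσ⟩ := hperm α hα
    have hm := hop α σ hσ
    obtain ⟨p, hp, rfl⟩ := memA.1 hg
    refine memA.2 ⟨σ p, (op_abelian _).2 ?_, (hσ p).symm⟩
    refine le_trans ((op_abelian p).1 hp) (Finset.card_le_card_of_injOn σ (fun q hq => ?_) σ.injective.injOn)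
    simp only [Finset.coe_filter, Finset.mem_univ, true_and, Set.mem_setOf_eq] at hq ⊢
    rw [← hm, ← hm, hq]
  refine ⟨hUp.toSylow hUi, L1, L2, hUL1, hUL2, hn1, hn2, ?_, fun α _ hα => ?_, fun α _ hα => ?_⟩
  · by_contra htop
    set M := L1 ⊔ L2
    have hUM : U ≤ M := hUL1.trans le_sup_left
    have hidx : ¬ 2 ∣ M.index := fun h => hUi (h.trans (Subgroup.index_dvd_of_le hUM))
    set R := (Cfsg.pCore 2 ↥M).map M.subtype
    have hR1 : R ≠ ⊥ := fun h => htop (Opp34.eq_top_psu_three hF (MulEquiv.refl L) M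
      ((Subgroup.map_eq_bot_iff_of_injective _ M.subtype_injective).1 h) hidx)
    have hRn : ∀ g ∈ M, ∀ r ∈ R, g * r * g⁻¹ ∈ R := by
      rintro g hg _ ⟨r, hr, rfl⟩
      exact ⟨⟨g, hg⟩ * r * ⟨g, hg⟩⁻¹, (inferInstance : (Cfsg.pCore 2 ↥M).Normal).conj_mem r hr ⟨g, hg⟩, by simp⟩
    have hn : U ≤ Subgroup.normalizer (R : Set L) := fun g hg => Subgroup.mem_normalizer_fintype (hRn g (hUM hg))
    have h2 : IsPGroup 2 ↥(U ⊔ R) := hUp.to_sup_of_normal_right' ((PSolv.isPGroup_pCore _ _).map _) hn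
    exact hR1 (hcore R (le_sup_right.trans ((hUp.toSylow hUi).is_maximal' h2 le_sup_left).le) hRn)
  · refine Subgroup.eq_of_le_of_card_ge ?_ (Subgroup.card_map_of_injective α.injective).ge
    rintro _ ⟨g, hg, rfl⟩
    rw [Subgroup.mem_centralizer_singleton_iff]
    show α g * z = z * α g
    have h : g * z = z * g := Subgroup.mem_centralizer_singleton_iff.1 hg
    rw [← hz α hα, ← map_mul, ← map_mul, h]
  · refine Subgroup.eq_of_le_of_card_ge ?_ (Subgroup.card_map_of_injective α.injective).ge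
    rintro _ ⟨g, hg, rfl⟩
    have hAeq : A.map α.toMonoidHom = A := Subgroup.eq_of_le_of_card_ge
      (by rintro _ ⟨a, ha, rfl⟩; exact hAα α hα a ha) (Subgroup.card_map_of_injective α.injective).ge
    have h := Subgroup.le_normalizer_map (H := A) α.toMonoidHom ⟨g, hg, rfl⟩
    rw [hAeq] at h
    exact h

end Cfsg.Agent.PMinLie.UThree
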