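import Cfsg.Agent.PMinLie.Chev
import Cfsg.Agent.PMinLie.Twisted
import Cfsg.Agent.PMinLie.PSL
import Cfsg.Agent.PMinLie.SpFour
import Cfsg.Agent.PMinLie.Tits
import Cfsg.Agent.PMinLie.AltSix
import Cfsg.Agent.PMinLie.PslEight
import Cfsg.Agent.PMinLie.UThree
import Cfsg.Agent.Linear.Transvection
import Cfsg.Agent.S0249
import Cfsg.Agent.S0270
import Cfsg.Agent.S0283
import Cfsg.Agent.S0295
import Cfsg.Agent.S0296
import Cfsg.Agent.S0297
import Cfsg.Agent.S1054
import Cfsg.Agent.S1055
import Cfsg.Agent.S1070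
import Cfsg.Agent.S1071
import Cfsg.Agent.S1072
import Cfsg.Agent.S1073
import Cfsg.Agent.S1074
import Cfsg.Agent.S1162
import Cfsg.Agent.S2363
import Cfsg.Prelude.Def_AlmostLie

/-!
The simple groups of Lie type in characteristic `p`, sorted by their overgroup data at a Sylow
`p`-subgroup.
-/

set_option autoImplicit false
set_option maxRecDepth 4096

namespace Cfsg.Agent.PMinLie

/-- The target groups for two nodes: `PSL₃`, `PSp₄` or `A₆` in characteristic two. -/
def IsTwoNodeType (K : Type*) [Group K] : Prop :=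
  (∃ (F : Type) (_ : Field F) (_ : Fintype F) (_ : CharP F 2),
      Nonempty (K ≃* Matrix.ProjectiveSpecialLinearGroup (Fin 3) F)) ∨
  (∃ (F : Type) (_ : Field F) (_ : Fintype F) (_ : CharP F 2),
      4 ≤ Fintype.card F ∧ Nonempty (K ≃* Cfsg.PSp 2 F)) ∨
  Nonempty (K ≃* ↥(alternatingGroup (Fin 6)))

theorem simple_congr_sub {K L : Type*} [Group K] [Group L] (T : Subgroup L) (e : K ≃* T)
    (h : IsSimpleGroup T) : IsSimpleGroup K := by
  haveI := h
  exact e.isSimpleGroup

theorem card_congr_sub {K L : Type*} [Group K] [Group L] (T : Subgroup L) (e : K ≃* T) {n : ℕ}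
    (h : Nat.card T = n) : Nat.card K = n := (Nat.card_congr e.toEquiv).trans h

/-- The three kinds exhaust the groups of Lie type. -/
theorem lie_kind {K : Type*} [Group K] [Finite K] {p : ℕ} [hp : Fact p.Prime] (h : Cfsg.IsChevSimple p K) :
    IsSimpleGroup K ∧ p ∣ Nat.card K ∧
      (Has .twoStable p K ∨
        (Has .rankOne p K ∧ Cfsg.IsLieRankOneChar p K ∧ ¬ (Nat.card K).Prime) ∨
        (Has .twoNode p K ∧ (p = 2 → IsTwoNodeType K))) := by
  classical
  rcases h with hG | ⟨rfl, ⟨⟨e⟩⟩ | ⟨F, _, _, hF, ⟨e⟩⟩ | h⟩ | ⟨rfl, F, _, _, hF, ⟨e⟩⟩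
  · have hdvd : p ∣ Nat.card K := by
      have hb := (S2363.result p hp.out hG).1
      by_contra hnd
      rw [Nat.factorization_eq_zero_of_not_dvd hnd, mul_zero, pow_zero] at hb
      have := Nat.card_pos (α := K)
      omega
    refine ⟨?_, hdvd, ?_⟩
    · rcases hG with ⟨F, _, _, _, n, hn, h4, ⟨e⟩⟩ | ⟨F, _, _, _, m, hm, h3, ⟨e⟩⟩ |
        ⟨F, _, _, _, n, q, hF, hn, hne, ⟨e⟩⟩ | ⟨F, _, _, _, m, hm, hodd, ⟨e⟩⟩ | ⟨F, _, _, _, m, hm, ⟨e⟩⟩ |
        ⟨F, _, _, _, m, a, b, hm, hab, ⟨e⟩⟩ | ⟨F, _, _, _, h⟩ | ⟨L, _, _, _, q, hq, h⟩ |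
        ⟨-, F, _, _, m, hm, hF, ⟨e⟩⟩ | ⟨-, L, _, _, m, hm, hL, ⟨e⟩⟩ | ⟨-, L, _, _, m, hm, hL, ⟨e⟩⟩
      · have : IsSimpleGroup (Matrix.ProjectiveSpecialLinearGroup (Fin n) F) := by
          rcases Nat.lt_or_ge n 3 with h | h
          · obtain rfl : n = 2 := by omega
            exact Linear.isSimpleGroup_PSL_fin 2 le_rfl (fun _ => by rw [Nat.card_eq_fintype_card]; have := h4 rfl; omega)
          · exact S0249.result n h
        exact e.isSimpleGroup
      · have := S0270.result (F := F) m hm h3; exact e.isSimpleGroup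
      · have := S0283.result hF n hn hne; exact e.isSimpleGroup
      · have := S0295.result hodd m hm; exact e.isSimpleGroup
      · have := S0296.result (F := F) m hm; exact e.isSimpleGroup
      · have := S0297.result m hm a b hab; exact e.isSimpleGroup
      · rcases h with ⟨hc, ⟨e⟩⟩ | ⟨⟨e⟩⟩ | ⟨⟨e⟩⟩ | ⟨⟨e⟩⟩ | ⟨⟨e⟩⟩
        · have : IsSimpleGroup ↥(Cfsg.Lie.chevG2.group F) := (S1055.result (F := F) (by
            obtain ⟨a, ha⟩ := Finset.exists_mem_notMem_of_card_lt_card (s := ({0, 1} : Finset F)) (t := Finset.univ)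
              (lt_of_le_of_lt Finset.card_le_two (by rw [Finset.card_univ]; omega))
            simp only [Finset.mem_insert, Finset.mem_singleton, not_or] at ha
            exact ⟨a, ha.2⟩)).1
          exact e.isSimpleGroup
        · have := (S1054.result (F := F) Cfsg.Lie.chevF4 (by simp)).1; exact e.isSimpleGroup
        · have := (S1054.result (F := F) Cfsg.Lie.chevE6 (by simp)).1; exact e.isSimpleGroup
        · have := (S1054.result (F := F) Cfsg.Lie.chevE7 (by simp)).1; exact e.isSimpleGroup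
        · have := (S1054.result (F := F) Cfsg.Lie.chevE8 (by simp)).1; exact e.isSimpleGroup
      · rcases h with ⟨hL, ⟨e⟩⟩ | ⟨hL, ⟨e⟩⟩
        · have := (S1070.result hq hL).1; exact e.isSimpleGroup
        · have := (S1071.result hq hL).1; exact e.isSimpleGroup
      · have := S1162.result hm hF; exact e.isSimpleGroup
      · have := (S1072.result hm hL).1; exact e.isSimpleGroup
      · have := (S1073.result hm hL).1; exact e.isSimpleGroup
    · rcases hG with ⟨F, _, _, _, n, hn, h4, ⟨e⟩⟩ | ⟨F, _, _, _, m, hm, h3, ⟨e⟩⟩ |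
        ⟨F, _, _, _, n, q, hF, hn, hne, ⟨e⟩⟩ | ⟨F, _, _, _, m, hm, hodd, ⟨e⟩⟩ | ⟨F, _, _, _, m, hm, ⟨e⟩⟩ |
        ⟨F, _, _, _, m, a, b, hm, hab, ⟨e⟩⟩ | h | h |
        ⟨rfl, h⟩ | ⟨rfl, h⟩ | ⟨rfl, h⟩
      · rcases (show n = 2 ∨ n = 3 ∨ 4 ≤ n by omega) with rfl | rfl | h
        · refine Or.inr (Or.inl ⟨Has.congr e (PSL.rankOne_two p), Or.inl ⟨F, inferInstance, inferInstance, inferInstance, h4 rfl, ⟨e⟩⟩, fun hr => ?_⟩)
          have hpK := (Nat.prime_dvd_prime_iff_eq hp.out hr).1 hdvd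
          obtain ⟨j, -, hj⟩ := FiniteField.card F p
          have hpF : p ≤ Fintype.card F := by rw [hj]; exact Nat.le_self_pow j.pos.ne' p
          have h2 := Linear.card_PSL_two_mul (F := F)
          rw [← Nat.card_congr e.toEquiv, ← hpK] at h2
          have h3 : Nat.gcd 2 (Fintype.card F - 1) ≤ 2 := Nat.gcd_le_left _ (by norm_num)
          have hF4 := h4 rfl
          set c := Fintype.card F
          have h5 : c * 3 * 1 ≤ c * (c - 1) * (c + 1) :=
            Nat.mul_le_mul (Nat.mul_le_mul_left c (by omega)) (by omega)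
          have h6 : Nat.gcd 2 (c - 1) * p ≤ 2 * c := Nat.mul_le_mul h3 hpF
          omega
        · exact Or.inr (Or.inr ⟨Has.congr e (PSL.twoNode_three p),
            fun hp2 => by subst hp2; exact Or.inl ⟨F, inferInstance, inferInstance, inferInstance, ⟨e⟩⟩⟩)
        · exact Or.inl (Has.congr e (PSL.twoStable_large p h))
      · by_cases hc : (2 : F) ≠ 0 ∨ 3 ≤ m
        · exact Or.inl (Has.congr e (symp_twoStable hm h3 hc))
        · push Not at hc
          obtain rfl : m = 2 := by omega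
          refine Or.inr (Or.inr ⟨Has.congr e (psp_four_twoNode (h3 rfl)), fun hp2 => ?_⟩)
          subst hp2
          refine Or.inr (Or.inl ⟨F, inferInstance, inferInstance, inferInstance, ?_, ⟨e⟩⟩)
          obtain ⟨j, -, hj⟩ := FiniteField.card F 2
          have h3' := h3 rfl
          rw [hj] at h3' ⊢
          rcases (show (j : ℕ) = 1 ∨ 2 ≤ (j : ℕ) by have := j.pos; omega) with h | h
          · rw [h] at h3'; norm_num at h3'
          · exact le_trans (by norm_num) (Nat.pow_le_pow_right (by norm_num : 0 < 2) h)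
      · rcases (show n = 3 ∨ 4 ≤ n by omega) with rfl | h
        · have hq : q ≠ 2 := fun h => hne ⟨rfl, h⟩
          refine Or.inr (Or.inl ⟨Has.congr e (psu_three_rankOne hF hq),
            Or.inr (Or.inl ⟨F, inferInstance, inferInstance, inferInstance, q, hF, hq, ⟨e⟩⟩), fun hr => ?_⟩)
          have hpK := (Nat.prime_dvd_prime_iff_eq hp.out hr).1 hdvd
          obtain ⟨j, -, hj⟩ := FiniteField.card F p
          have hpq : p ∣ q := hp.out.dvd_of_dvd_pow (n := 2) (by rw [← hF, hj]; exact dvd_pow_self p j.pos.ne')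
          have hq2 : 2 ≤ q := by
            by_contra hlt
            have := Fintype.one_lt_card (α := F)
            interval_cases q <;> omega
          have hpq' : p ≤ q := Nat.le_of_dvd (by omega) hpq
          have hsq := Classical.U.sqField_of_fintype (F := F) (q := q) hF
          have h2 := Classical.U.card_PSU hsq (n := 3) (by norm_num)
          rw [Classical.U.card_UG hsq, ← Nat.card_congr e.toEquiv, ← hpK] at h2
          simp only [Finset.prod_range_succ, Finset.prod_range_zero] at h2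
          norm_num at h2
          have h3 : Nat.gcd 3 (q + 1) ≤ 3 := Nat.gcd_le_left _ (by norm_num)
          have h5 : q * q * q * ((q + 1) * 3 * 1) ≤ q ^ 3 * ((q + 1) * (q ^ 2 - 1) * (q ^ 3 + 1)) := by
            refine Nat.mul_le_mul (le_of_eq (by ring)) (Nat.mul_le_mul (Nat.mul_le_mul_left _ ?_) (by omega))
            have : 2 ^ 2 ≤ q ^ 2 := Nat.pow_le_pow_left hq2 2
            omega
          have h6 : Nat.gcd 3 (q + 1) * ((q + 1) * p) ≤ 3 * ((q + 1) * q) :=
            Nat.mul_le_mul h3 (Nat.mul_le_mul_left _ hpq')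
          have h7 : 4 * q ≤ q * q * q := Nat.mul_le_mul_right q (Nat.mul_le_mul hq2 hq2)
          nlinarith
        · exact Or.inl (Has.congr e (unitary_twoStable hF h))
      · exact Or.inl (Has.congr e (orth_odd_twoStable hm hodd))
      · rcases (show m = 4 ∨ 5 ≤ m by omega) with rfl | h
        · exact Or.inl (plus_four_twoStable e)
        · exact Or.inl (Has.congr e (orth_plus_twoStable h))
      · exact Or.inl (Has.congr e (orth_minus_twoStable hm a b hab))
      · exact Or.inl (exceptional_twoStable h)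
      · exact Or.inl (twistedE6D4_twoStable h)
      · refine Or.inr (Or.inl ⟨suzuki_rankOne h, Or.inr (Or.inr (Or.inl ⟨rfl, h⟩)), fun hr => ?_⟩)
        have h2 := (Nat.prime_dvd_prime_iff_eq hp.out hr).1 hdvd
        obtain ⟨F, _, _, m, hm, hF, ⟨e⟩⟩ := h
        haveI : Suzuki.SuzukiField F m := ⟨hm, hF⟩
        rw [Nat.card_congr e.toEquiv, Suzuki.card_lieSz] at h2
        have h8 : 2 ^ 3 ≤ 2 ^ (2 * m + 1) := Nat.pow_le_pow_right (by norm_num) (by omega)
        have h9 : 4 * 1 * 1 ≤ (2 ^ (2 * m + 1)) ^ 2 * ((2 ^ (2 * m + 1)) ^ 2 + 1) * (2 ^ (2 * m + 1) - 1) :=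
          Nat.mul_le_mul (Nat.mul_le_mul (le_trans (by norm_num) (Nat.pow_le_pow_left h8 2)) (by omega)) (by omega)
        omega
      · exact Or.inl (reeF4_twoStable h)
      · refine Or.inr (Or.inl ⟨reeG2_rankOne h, Or.inr (Or.inr (Or.inr ⟨rfl, Or.inl h⟩)), fun hr => ?_⟩)
        obtain ⟨L, _, _, m, hm, hL, ⟨e⟩⟩ := h
        obtain ⟨hs, hn⟩ := S1073.result hm hL
        haveI : Fact (Nat.card K).Prime := ⟨hr⟩
        haveI : IsCyclic K := isCyclic_of_prime_card (p := Nat.card K) rfl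
        exact hn ⟨⟨fun a b => e.symm.injective (by
          rw [map_mul, map_mul]; exact (IsCyclic.commGroup (α := K)).mul_comm _ _)⟩⟩
  · have : IsSimpleGroup (alternatingGroup (Fin 6)) := alternatingGroup.isSimpleGroup (by simp)
    refine ⟨e.isSimpleGroup, ?_, Or.inr (Or.inr ⟨A6.alt_six_twoNode e, fun _ => Or.inr (Or.inr ⟨e⟩)⟩)⟩
    rw [Nat.card_congr e.toEquiv, nat_card_alternatingGroup, Nat.card_fin]; decide
  · obtain ⟨S⟩ := GKTools.UThree.nonempty_data hF
    have := S0283.result (F := F) (q := 3) (by rw [hF]; norm_num) 3 le_rfl (by norm_num)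
    refine ⟨e.isSimpleGroup, ?_, Or.inl (UThree.psu_three_twoStable hF e)⟩
    rw [Nat.card_congr e.toEquiv, S.card_L]; norm_num
  · refine ⟨?_, ?_, Or.inl (tits_twoStable h)⟩
    · obtain ⟨e⟩ := h
      exact simple_congr_sub _ e S1074.result.2.1
    · obtain ⟨e⟩ := h
      rw [card_congr_sub _ e S1074.result.2.2.2]; norm_num
  · have : IsSimpleGroup (Matrix.ProjectiveSpecialLinearGroup (Fin 2) F) :=
      Linear.isSimpleGroup_PSL_fin 2 le_rfl (fun _ => by rw [Nat.card_eq_fintype_card, hF]; norm_num)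
    have hcard : Nat.card K = 504 := by
      rw [Nat.card_congr e.toEquiv]
      have h := Linear.card_PSL_two_mul (F := F)
      rw [hF] at h
      simpa using h
    exact ⟨e.isSimpleGroup, by rw [hcard]; norm_num, Or.inr (Or.inl ⟨psl_two_eight_rankOne hF e,
      Or.inr (Or.inr (Or.inr ⟨rfl, Or.inr ⟨F, _, _, hF, ⟨e⟩⟩⟩)), by rw [hcard]; norm_num⟩)⟩

end Cfsg.Agent.PMinLie
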