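import Cfsg.Agent.PMinLie.Core
import Cfsg.Agent.Opp34.PolarFamilies
import Cfsg.Agent.ChamberSt.Unipotent

/-!
# Stable overgroups in a group acting on a polar space

`e, e₂` are the first two vectors of the frame and `T` a Sylow subgroup containing the unipotent
group of the flag. `T` fixes only the multiples of `e`, and `W = span(e, e₂)` is the set of vectors
it fixes modulo `F e`; so the stabilisers of `F e` and of `W` are stable under semilinear automorphisms.
-/

set_option autoImplicit false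

namespace Cfsg.Agent.PMinLie

open Cfsg.Agent.ChamberSt Cfsg.Agent.Opp34

section Geometry

variable {F : Type*} [Field F] [Finite F] {σ : F →+* F} {V : Type*} [AddCommGroup V] [Module F V]
  {n : ℕ} {P : Polar F σ V n}

theorem rad_E_le_U [FiniteDimensional F V] (k : ℕ) : rad P (P.E k) ≤ P.U := by
  intro g hg
  obtain ⟨h1, h2⟩ := hg
  refine ⟨fun j v hv => ?_, fun v hv => P.E_le k (h2 v (P.perp_anti (P.E_le k) hv))⟩
  by_cases hj : j < k
  · show ap P g v - v ∈ P.E j
    rw [h1 v (P.E_mono hj hv), sub_self]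
    exact Submodule.zero_mem _
  · exact P.E_mono (not_lt.1 hj) (h2 v (P.E_le_perp (j + 1) k hv))

/-- A vector fixed by the Eichler group of `e` is a multiple of `e`. -/
theorem mem_of_eich_fixed {e y : V} (h : Hyp P e y) (hW0 : ∃ a, a ≠ 0 ∧ P.B e a = 0 ∧ P.B y a = 0)
    {v : V} (hv : ∀ g ∈ eich P e, ap P g v = v) : v ∈ F ∙ e := by
  have hev : P.B e v = 0 := by
    by_contra hne
    obtain ⟨a, ha0, ha1, ha2⟩ := hW0
    have hae : a ∉ F ∙ e := fun hm => by
      obtain ⟨μ, rfl⟩ := Submodule.mem_span_singleton.1 hm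
      rw [map_smul, h.ye, smul_eq_mul, mul_eq_zero, or_iff_left P.η_ne] at ha2
      exact ha0 (by rw [ha2, zero_smul])
    obtain ⟨x, hx1, hx2⟩ := exists_sep (P := P) hae
    obtain ⟨g, hg, hgz, -⟩ := h.exists_eich_of ha1 ha2
    have h1 := ap_B g v x
    rw [hv g hg, hgz x hx1, map_sub, map_smul, sub_eq_self, smul_eq_mul, mul_eq_zero,
      mul_eq_zero] at h1
    rcases h1 with (h1 | h1) | h1
    · exact P.η_ne (inv_eq_zero.1 h1)
    · exact hx2 h1
    · exact hne (P.symm_zero h1)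
  by_contra hve
  obtain ⟨g, hg, hgv⟩ := h.exists_move hev hve 1
  rw [hv g hg, one_smul, left_eq_add] at hgv
  exact h.e_ne hgv

/-- A vector fixed modulo `F e` by the Eichler elements at `e₂` fixing `e`, orthogonal to `e`, lies in
`span(e, e₂)`. -/
theorem mem_span_of_fixed {e y e2 y2 : V} (h : Hyp P e y) (h2 : Hyp P e2 y2) (b1 : P.B e e2 = 0)
    (b2 : P.B e y2 = 0) (b3 : P.B y e2 = 0) (b4 : P.B y y2 = 0)
    (hex : ∃ v, P.q v = 0 ∧ P.B e v = 0 ∧ P.B y v = 0 ∧ P.B e2 v = 1 ∧ P.B y2 v ≠ 0)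
    {z : V} (hez : P.B e z = 0)
    (hz : ∀ g ∈ eich P e2, ap P g e = e → ap P g z - z ∈ F ∙ e) :
    z ∈ Submodule.span F {e, e2} := by
  have he2e : e2 ∉ F ∙ e := fun hm => by
    obtain ⟨μ, hμ⟩ := Submodule.mem_span_singleton.1 hm
    rw [← hμ, map_smul, h.ye, smul_eq_mul, mul_eq_zero, or_iff_left P.η_ne] at b3
    exact h2.e_ne (by rw [← hμ, b3, zero_smul])
  -- first `B e₂ z = 0`
  have hz2 : P.B e2 z = 0 := by
    by_contra hne
    obtain ⟨v, hv, hev, hyv, he2v, hy2v⟩ := hex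
    obtain ⟨g, hg, hgy2, hgx⟩ := h2.exists_eich hv he2v
    have hge : ap P g e = e := by
      rw [hgx e (P.symm_zero b1), P.symm_zero hev, P.symm_zero b2, sub_self, mul_zero, zero_smul,
        sub_zero]
    obtain ⟨μ, hμ⟩ := Submodule.mem_span_singleton.1 (hz g hg hge)
    have hgy : ap P g y = y := by
      rw [hgx y (P.symm_zero b3), P.symm_zero hyv, P.symm_zero b4, sub_self, mul_zero, zero_smul,
        sub_zero]
    have hgz : ap P g z = z := by
      have h1 := ap_B g z y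
      rw [hgy, show ap P g z = z + μ • e by rw [hμ]; abel, map_add, LinearMap.add_apply,
        LinearMap.map_smulₛₗ, LinearMap.smul_apply, h.ey, smul_eq_mul, mul_one, add_eq_left] at h1
      rw [show ap P g z = z + μ • e by rw [hμ]; abel,
        show μ = 0 from σ.injective (h1.trans (map_zero σ).symm), zero_smul, add_zero]
    have hk : ∀ x, P.B e2 x = 0 → P.B v x = P.B y2 x := by
      intro x hx
      have h1 := ap_B g z x
      rw [hgz, hgx x hx, map_sub, map_smul, sub_eq_self, smul_eq_mul, mul_eq_zero, mul_eq_zero] at h1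
      rcases h1 with (h1 | h1) | h1
      · exact absurd (inv_eq_zero.1 h1) P.η_ne
      · exact sub_eq_zero.1 h1
      · exact absurd (P.symm_zero h1) hne
    obtain ⟨w, hw1, hw2, ez⟩ := h2.decomp z
    set β := P.B e2 z
    set γ := P.η⁻¹ * P.B y2 z
    have h3 : ap P g z = β • v + γ • e2 + w := by
      rw [ez, map_add, map_add, map_smul, map_smul, hgy2, eich_fix hg, hgx w hw1,
        hk w hw1, sub_self, mul_zero, zero_smul, sub_zero]
    rw [hgz, ez, add_left_inj, add_left_inj] at h3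
    have h4 := congrArg (P.B y2) h3
    rw [map_smul, map_smul, h2.yy, smul_zero, eq_comm, smul_eq_mul, mul_eq_zero] at h4
    exact h4.elim hne hy2v
  set z' := z - (P.η⁻¹ * P.B y2 z) • e2 with hz'
  have hy2z' : P.B y2 z' = 0 := by
    rw [hz', map_sub, map_smul, h2.ye, smul_eq_mul, mul_right_comm, inv_mul_cancel₀ P.η_ne, one_mul,
      sub_self]
  have hperp : ∀ a, P.B e a = 0 → P.B e2 a = 0 → P.B y2 a = 0 → P.B a z' = 0 := by
    intro a a1 a2 a3
    obtain ⟨g, hg, hgx, -⟩ := h2.exists_eich_of a2 a3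
    have hge : ap P g e = e := by
      rw [hgx e (P.symm_zero b1), P.symm_zero a1, mul_zero, zero_smul, sub_zero]
    have h1 := hz g hg hge
    rw [hgx z hz2, sub_sub_cancel_left, Submodule.neg_mem_iff] at h1
    have hk : P.η⁻¹ * P.B a z = 0 := by
      by_contra hk
      exact he2e ((Submodule.smul_mem_iff _ hk).1 h1)
    rw [mul_eq_zero, or_iff_right (inv_ne_zero P.η_ne)] at hk
    rw [hz', map_sub, map_smul, hk, P.symm_zero a2, smul_zero, sub_zero]
  have hmem : z' ∈ F ∙ e := by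
    by_contra hno
    obtain ⟨x, hx1, hx2⟩ := exists_sep (P := P) hno
    obtain ⟨a, a2, a3, ex⟩ := h2.decomp x
    have a1 : P.B e a = 0 := by
      have := hx1
      rw [ex, map_add, map_add, map_smul, map_smul, b1, b2, smul_zero, smul_zero, zero_add,
        zero_add] at this
      exact this
    refine hx2 (P.symm_zero ?_)
    rw [ex, map_add, map_add, LinearMap.map_smulₛₗ, LinearMap.map_smulₛₗ, LinearMap.add_apply,
      LinearMap.add_apply, LinearMap.smul_apply, LinearMap.smul_apply, hy2z', hperp a a1 a2 a3,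
      hz', map_sub, map_smul, hz2, h2.ee]
    simp
  obtain ⟨μ, hμ⟩ := Submodule.mem_span_singleton.1 hmem
  refine Submodule.mem_span_pair.2 ⟨μ, P.η⁻¹ * P.B y2 z, ?_⟩
  rw [hμ, hz']
  abel

end Geometry

variable {F : Type*} [Field F] [Finite F] {σ : F →+* F} {V : Type*} [AddCommGroup V] [Module F V]
  [Finite V] {n : ℕ} {P : Polar F σ V n} {G : Type*} [Group G] [Finite G] {p : ℕ} [Fact p.Prime]
  [CharP F p]

/-- A subgroup containing the Eichler group of `e` and moving `e` to an opposite point is everything. -/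
theorem opp_top {e y : V} (h : Hyp P e y) (hW0 : ∃ a, a ≠ 0 ∧ P.B e a = 0 ∧ P.B y a = 0)
    (ρ : G →* P.iso) (he : ∀ W, P.TS W → rad P W ≤ ρ.range) [IsSimpleGroup (G ⧸ Subgroup.center G)]
    (M : Subgroup (G ⧸ Subgroup.center G))
    (hQM : (eich P e).comap ρ ≤ M.comap (QuotientGroup.mk' (Subgroup.center G)))
    (hm : ∃ m ∈ M.comap (QuotientGroup.mk' (Subgroup.center G)), P.B e (ap P (ρ m) e) ≠ 0) :
    M = ⊤ := by
  set π := QuotientGroup.mk' (Subgroup.center G)
  have hπ : Function.Surjective π := QuotientGroup.mk'_surjective _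
  set M' := M.comap π with hM'def
  set Q := (eich P e).comap ρ with hQdef
  set N := ptStab ρ h.e_ne
  have hTS := TS_singleton (P := P) h.qe
  have lift : ∀ i ∈ eich P e, ∃ u ∈ Q, ρ u = i := fun i hi => by
    obtain ⟨u, hu⟩ := he _ hTS hi
    exact ⟨u, by rw [hQdef, Subgroup.mem_comap, hu]; exact hi, hu⟩
  have hNQ : ∀ g ∈ N, ∀ u ∈ Q, g * u * g⁻¹ ∈ Q := by
    intro g hg u hu
    rw [hQdef, Subgroup.mem_comap, map_mul, map_mul, map_inv]
    refine rad_conj (fun z => ?_) hu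
    have hge : ap P (ρ g) e ≠ 0 := by simpa using h.e_ne
    rw [← ap_mem_span_iff (ρ g) z e]
    exact iff_of_eq (congrArg (fun S : Submodule F V => ap P (ρ g) z ∈ S) (span_eq_of_mem hge hg).symm)
  obtain ⟨m, hm, hme⟩ := hm
  set S : Set G := {g | ∀ u ∈ Q, g * u * g⁻¹ ∈ M'} with hS
  have hSM : ∀ m ∈ M', ∀ g ∈ S, m * g ∈ S := fun m hm g hg u hu => by
    have := mul_mem (mul_mem hm (hg u hu)) (inv_mem hm)
    simpa [mul_assoc] using this
  have hSN : ∀ g ∈ S, ∀ x ∈ N, g * x ∈ S := fun g hg x hx u hu => by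
    have := hg _ (hNQ x hx u hu)
    simpa [mul_assoc] using this
  have h1S : (1 : G) ∈ S := fun u hu => by simpa using hQM hu
  have hqe : ∀ g : G, P.q (ap P (ρ g) e) = 0 := fun g => by rw [ap_q]; exact h.qe
  have htr : ∀ h0 ∈ S, ∀ g g' : G, g ∈ S → P.B (ap P (ρ h0) e) (ap P (ρ g) e) ≠ 0 →
      P.B (ap P (ρ h0) e) (ap P (ρ g') e) ≠ 0 → g' ∈ S := by
    intro h0 hh0 g g' hg hB hB'
    have hB1 : ∀ g, P.B (ap P (ρ h0) e) (ap P (ρ g) e) = P.B e (ap P (ρ (h0⁻¹ * g)) e) := fun g => by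
      conv_lhs => rw [show g = h0 * (h0⁻¹ * g) by group, map_mul, ap_mul, ap_B]
    rw [hB1] at hB hB'
    obtain ⟨i, hi, hio⟩ := h.trans_opp (hqe _) hB (hqe _) hB'
    obtain ⟨u, hu, rfl⟩ := lift i hi
    have hx : (h0⁻¹ * g')⁻¹ * (u * (h0⁻¹ * g)) ∈ N := by
      rw [mem_ptStab, ← ap_mem_span_iff (ρ (h0⁻¹ * g')), ← ap_mul, ← map_mul, mul_inv_cancel_left,
        map_mul ρ u, ap_mul]
      exact hio
    have := hSN _ (hSM _ (hh0 u hu) g hg) _ (inv_mem hx)
    convert this using 1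
    group
  have hoppS : ∀ g : G, P.B e (ap P (ρ g) e) ≠ 0 → g ∈ S := fun g hg => by
    refine htr 1 h1S m g ?_ (by rw [map_one, ap_one]; exact hme) (by rw [map_one, ap_one]; exact hg)
    have := hSM m hm 1 h1S
    simpa using this
  have hall : ∀ g : G, g ∈ S := by
    intro g
    by_cases hg : P.B e (ap P (ρ g) e) ≠ 0
    · exact hoppS g hg
    push Not at hg
    set s := ap P (ρ g) e with hs
    obtain ⟨v, hv, hev, hvs⟩ : ∃ v, P.q v = 0 ∧ P.B e v = 1 ∧ P.B v s ≠ 0 := by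
      by_cases hse : s ∈ F ∙ e
      · obtain ⟨c, hc⟩ := Submodule.mem_span_singleton.1 hse
        refine ⟨y, h.qy, h.ey, ?_⟩
        rw [← hc, map_smul, h.ye, smul_eq_mul]
        refine mul_ne_zero (fun h0 => ?_) P.η_ne
        rw [h0, zero_smul, hs] at hc
        exact h.e_ne ((ap P (ρ g)).map_eq_zero_iff.1 hc.symm)
      obtain ⟨γ, w, hw1, hw2, e1, hw0⟩ := h.perp_part hg hse
      by_cases hys : P.B y s ≠ 0
      · exact ⟨y, h.qy, h.ey, hys⟩
      push Not at hys
      obtain ⟨z, hz⟩ : ∃ z, P.B w z ≠ 0 := by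
        by_contra! hno
        exact hw0 (P.nondeg w hno)
      obtain ⟨a0, hb1, hb2, e2⟩ := h.decomp z
      obtain ⟨v, hv, hev, hvz⟩ := h.exists_v hb1 hb2
      refine ⟨v, hv, hev, ?_⟩
      rw [hvz s hg, hys, zero_add, e1, map_add, map_smul, P.symm_zero hb1, smul_zero, zero_add]
      intro h0
      refine hz ?_
      rw [e2, map_add, map_add, map_smul, map_smul, P.symm_zero hw2, P.symm_zero hw1, P.symm_zero h0]
      simp
    obtain ⟨i, hi, hio⟩ := h.trans_opp (hqe m) hme hv (by rw [hev]; exact one_ne_zero)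
    obtain ⟨u, -, rfl⟩ := lift i hi
    rw [← ap_mul, ← map_mul] at hio
    obtain ⟨c, hc⟩ := Submodule.mem_span_singleton.1 hio
    have hc0 : c ≠ 0 := fun h0 => h.e_ne ((ap P (ρ (u * m))).map_eq_zero_iff.1
      (by rw [← hc, h0, zero_smul]))
    have hBs : ∀ z, P.B (ap P (ρ (u * m)) e) z = σ c * P.B v z := fun z => by
      rw [← hc, LinearMap.map_smulₛₗ, LinearMap.smul_apply, smul_eq_mul]
    have hσ : σ c ≠ 0 := fun h0 => hc0 (σ.injective (by rw [h0, map_zero]))
    refine htr (u * m) (hoppS _ ?_) 1 g h1S ?_ ?_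
    · rw [← hc, map_smul, hev, smul_eq_mul, mul_one]; exact hc0
    · rw [hBs, map_one, ap_one]
      refine mul_ne_zero hσ fun h0 => ?_
      rw [P.symm_zero h0] at hev
      exact zero_ne_one hev
    · rw [hBs]; exact mul_ne_zero hσ hvs
  rw [eq_top_iff]
  have hle : Subgroup.normalClosure ((Q.map π : Subgroup _) : Set (G ⧸ Subgroup.center G)) ≤ M := by
    rw [Subgroup.normalClosure, Subgroup.closure_le]
    intro x hx
    obtain ⟨_, ⟨u, hu, rfl⟩, hux⟩ := Group.mem_conjugatesOfSet_iff.1 hx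
    obtain ⟨g0, rfl⟩ := isConj_iff.1 hux
    obtain ⟨g, rfl⟩ := hπ g0
    have := hall g u hu
    rwa [hM'def, Subgroup.mem_comap, map_mul, map_mul, map_inv] at this
  refine le_trans (le_of_eq ?_) hle
  rcases (Subgroup.normalClosure_normal
    (s := ((Q.map π : Subgroup _) : Set (G ⧸ Subgroup.center G)))).eq_bot_or_eq_top with h1 | h1
  · exfalso
    have hcen : ∀ u ∈ Q, u ∈ Subgroup.center G := fun u hu => (QuotientGroup.eq_one_iff u).1
      (Subgroup.mem_bot.1 (h1 ▸ Subgroup.subset_normalClosure (⟨u, hu, rfl⟩ : π u ∈ Q.map π)))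
    have hfix : ap P (ρ m) e ∈ F ∙ e := mem_of_eich_fixed h hW0 fun i hi => by
      obtain ⟨u, hu, rfl⟩ := lift i hi
      rw [← ap_mul, ← map_mul, ← Subgroup.mem_center_iff.1 (hcen u hu) m, map_mul, ap_mul, eich_fix hu]
    obtain ⟨c, hc⟩ := Submodule.mem_span_singleton.1 hfix
    exact hme (by rw [← hc, map_smul, h.ee, smul_zero])
  · exact h1.symm

/-- The stabiliser of a subspace. -/
def spanStab (ρ : G →* P.iso) (W : Submodule F V) : Subgroup G where
  carrier := {g | ∀ w ∈ W, ap P (ρ g) w ∈ W}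
  one_mem' := fun w hw => by rw [map_one, ap_one]; exact hw
  mul_mem' := fun {a b} ha hb w hw => by rw [map_mul, ap_mul]; exact ha _ (hb w hw)
  inv_mem' := fun {a} ha w hw => by
    have hinj : Function.Injective (fun x : W => (⟨ap P (ρ a) x, ha x x.2⟩ : W)) :=
      fun x x' e => Subtype.ext ((ap P (ρ a)).injective (congrArg Subtype.val e))
    obtain ⟨x, hx⟩ := (Finite.injective_iff_surjective.1 hinj) ⟨w, hw⟩
    rw [← show ap P (ρ a) x = w from congrArg Subtype.val hx, map_inv, ap_inv_ap]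
    exact x.2

/-- The shared data: the Sylow subgroup, its fixed point and line, and the two stabilisers. -/
theorem polar_data (hn : 2 ≤ n) (ρ : G →* P.iso) (hρ : Function.Injective ρ)
    (he : ∀ W, P.TS W → rad P W ≤ ρ.range) [IsSimpleGroup (G ⧸ Subgroup.center G)]
    (hex : ∃ v, P.q v = 0 ∧ P.B (P.e ⟨0, by omega⟩) v = 0 ∧ P.B (P.y ⟨0, by omega⟩) v = 0 ∧
      P.B (P.e ⟨1, by omega⟩) v = 1 ∧ P.B (P.y ⟨1, by omega⟩) v ≠ 0)
    {e e2 : V} (hee : P.e ⟨0, by omega⟩ = e) (hee2 : P.e ⟨1, by omega⟩ = e2) (he0 : e ≠ 0)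
    {W : Submodule F V} (hW : Submodule.span F {e, e2} = W) :
    ∃ T : Sylow p G,
      P.U.comap ρ ≤ (T : Subgroup G) ∧
      (∀ t ∈ (T : Subgroup G), ap P (ρ t) e = e) ∧
      (∀ t ∈ (T : Subgroup G), ∀ w ∈ W, ap P (ρ t) w - w ∈ F ∙ e) ∧
      (Subgroup.center G ≤ ptStab ρ he0 ∧ Subgroup.center G ≤ spanStab ρ W) ∧
      ((T : Subgroup G) ≤ ptStab ρ he0 ∧ (T : Subgroup G) ≤ spanStab ρ W) ∧
      ((ptStab ρ he0).map (QuotientGroup.mk' (Subgroup.center G)) ≠ ⊤ ∧
        (spanStab ρ W).map (QuotientGroup.mk' (Subgroup.center G)) ≠ ⊤ ∧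
        (ptStab ρ he0).map (QuotientGroup.mk' (Subgroup.center G)) ⊔
          (spanStab ρ W).map (QuotientGroup.mk' (Subgroup.center G)) = ⊤) ∧
      ∀ (Φ : V ≃+ V) (τ : F → F), (∀ (c : F) v, Φ (c • v) = τ c • Φ v) →
        (∀ t' ∈ (T : Subgroup G), ∃ t ∈ (T : Subgroup G), ∀ v, ap P (ρ t') (Φ v) = Φ (ap P (ρ t) v)) →
        Φ e ∈ F ∙ e ∧ ∀ w ∈ W, Φ w ∈ W := by
  subst hee hee2 hW
  classical
  set e := P.e ⟨0, by omega⟩ with hedef
  set y := P.y ⟨0, by omega⟩ with hydef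
  set e2 := P.e ⟨1, by omega⟩ with he2def
  set y2 := P.y ⟨1, by omega⟩ with hy2def
  have h : Hyp P e y := hyp_frame _
  have h2 : Hyp P e2 y2 := hyp_frame _
  have b1 : P.B e e2 = 0 := P.B_ee _ _
  have b2 : P.B e y2 = 0 := by rw [hedef, hy2def, P.B_ey, if_neg (by simp)]
  have b3 : P.B y e2 = 0 := by rw [hydef, he2def, P.B_ye, if_neg (by simp)]
  have b4 : P.B y y2 = 0 := P.B_yy _ _
  have hW0 : ∃ a, a ≠ 0 ∧ P.B e a = 0 ∧ P.B y a = 0 := ⟨e2, h2.e_ne, b1, b3⟩
  haveI : Nontrivial V := ⟨⟨e, 0, h.e_ne⟩⟩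
  haveI : FiniteDimensional F V := Module.Finite.of_finite
  set π := QuotientGroup.mk' (Subgroup.center G) with hπdef
  have hπ : Function.Surjective π := QuotientGroup.mk'_surjective _
  set W : Submodule F V := Submodule.span F {e, e2} with hWdef
  have heW : e ∈ W := Submodule.subset_span (by simp)
  have he2W : e2 ∈ W := Submodule.subset_span (by simp)
  -- the Sylow subgroup
  have hTp : IsPGroup p ↥(P.U.comap ρ) := (P.U_isPGroup p).comap_of_injective ρ hρ
  obtain ⟨T, hT⟩ := hTp.exists_le_sylow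
  have hE1 : P.E 1 = F ∙ e := by
    have := P.E_succ (k := 0) (by omega : 0 < n)
    rwa [P.E_zero, bot_sup_eq] at this
  have hQT : ∀ i ∈ eich P e, ∃ u ∈ (T : Subgroup G), ρ u = i := fun i hi => by
    obtain ⟨u, hu⟩ := he _ (TS_singleton h.qe) hi
    exact ⟨u, hT (by rw [Subgroup.mem_comap, hu]; exact rad_E_le_U 1 (by rwa [hE1])), hu⟩
  have hE2T : ∀ i ∈ eich P e2, ap P i e = e → ∃ u ∈ (T : Subgroup G), ρ u = i := fun i hi hie => by
    obtain ⟨u, hu⟩ := he _ (TS_singleton h2.qe) hi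
    refine ⟨u, hT ?_, hu⟩
    rw [Subgroup.mem_comap, hu]
    refine rad_E_le_U 2 ⟨fun w hw => ?_, fun z hz => ?_⟩
    · rw [show (2 : ℕ) = 1 + 1 from rfl, P.E_succ (by omega : 1 < n), hE1] at hw
      obtain ⟨a, ha, b, hb, rfl⟩ := Submodule.mem_sup.1 hw
      obtain ⟨c, rfl⟩ := Submodule.mem_span_singleton.1 ha
      rw [map_add, map_smul, hie, hi.1 b hb]
    · obtain ⟨c, hc⟩ := Submodule.mem_span_singleton.1
        (hi.2 z (mem_perp_singleton.2 (P.mem_perp_E.1 hz ⟨1, by omega⟩ (by simp))))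
      rw [← hc]
      exact Submodule.smul_mem _ _ (P.e_mem_E (by simp))
  -- fixed vectors of `T`
  have hfixed : ∀ v : V, (∀ t ∈ (T : Subgroup G), ap P (ρ t) v = v) → v ∈ F ∙ e := fun v hv =>
    mem_of_eich_fixed h hW0 fun i hi => by
      obtain ⟨u, hu, rfl⟩ := hQT i hi
      exact hv u hu
  have hV : p ∣ Nat.card V := by
    have : Module.Finite F V := Module.Finite.of_finite
    rw [Module.natCard_eq_pow_finrank (K := F)]
    haveI := Fintype.ofFinite F
    obtain ⟨k, -, hk⟩ := FiniteField.card F p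
    rw [Nat.card_eq_fintype_card, hk]
    exact dvd_pow (dvd_pow_self p k.ne_zero) Module.finrank_pos.ne'
  letI : MulAction ↥(T : Subgroup G) V :=
    { smul := fun t v => ap P (ρ t) v
      one_smul := fun v => by show ap P (ρ ((1 : ↥(T : Subgroup G)) : G)) v = v; simp [ap_one]
      mul_smul := fun a b v => by
        show ap P (ρ ((a * b : ↥(T : Subgroup G)) : G)) v = ap P (ρ a) (ap P (ρ b) v)
        rw [Subgroup.coe_mul, map_mul, ap_mul] }
  have hTe : ∀ t ∈ (T : Subgroup G), ap P (ρ t) e = e := by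
    obtain ⟨v, hv, hv0⟩ := T.2.exists_fixed_point_of_prime_dvd_card_of_fixed_point V hV (a := (0 : V))
      fun t => map_zero (ap P (ρ t))
    obtain ⟨c, hc⟩ := Submodule.mem_span_singleton.1 (hfixed v fun t ht => hv ⟨t, ht⟩)
    have hc0 : c ≠ 0 := fun h0 => hv0 (by rw [← hc, h0, zero_smul])
    intro t ht
    have := hv ⟨t, ht⟩
    rw [← hc] at this
    change ap P (ρ t) (c • e) = c • e at this
    rw [map_smul] at this
    exact (smul_right_injective V hc0) this
  -- vectors fixed modulo `e`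
  set X : Set V := {z | ∀ t ∈ (T : Subgroup G), ap P (ρ t) z - z ∈ F ∙ e} with hXdef
  have hXperp : ∀ z ∈ X, P.B e z = 0 := by
    intro z hz
    by_contra hne
    obtain ⟨a, ha0, ha1, ha2⟩ := hW0
    have hae : a ∉ F ∙ e := fun hm => by
      obtain ⟨μ, rfl⟩ := Submodule.mem_span_singleton.1 hm
      rw [map_smul, h.ye, smul_eq_mul, mul_eq_zero, or_iff_left P.η_ne] at ha2
      exact ha0 (by rw [ha2, zero_smul])
    obtain ⟨x, hx1, hx2⟩ := exists_sep (P := P) hae
    obtain ⟨g, hg, hgz, -⟩ := h.exists_eich_of ha1 ha2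
    obtain ⟨u, hu, rfl⟩ := hQT g hg
    obtain ⟨μ, hμ⟩ := Submodule.mem_span_singleton.1 (hz u hu)
    have h1 := ap_B (ρ u) z x
    simp only [show ap P (ρ u) z = z + μ • e by rw [hμ]; abel, hgz x hx1, map_sub, map_smul, map_add,
      LinearMap.add_apply, LinearMap.map_smulₛₗ, LinearMap.smul_apply, hx1, h.ee, smul_zero, add_zero,
      sub_eq_self, smul_eq_mul, mul_zero, mul_eq_zero] at h1
    rcases h1 with (h1 | h1) | h1
    · exact P.η_ne (inv_eq_zero.1 h1)
    · exact hx2 h1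
    · exact hne (P.symm_zero h1)
  have hXW : ∀ z ∈ X, z ∈ W := fun z hz =>
    mem_span_of_fixed h h2 b1 b2 b3 b4 hex (hXperp z hz) fun g hg hge => by
      obtain ⟨u, hu, rfl⟩ := hE2T g hg hge
      exact hz u hu
  have hWX : ∀ w ∈ W, w ∈ X := by
    have hstab : ∀ t : ↥(T : Subgroup G), F ∙ e ≤ (F ∙ e).comap (ap P (ρ t)).toLinearMap := fun t v hv => by
      obtain ⟨c, rfl⟩ := Submodule.mem_span_singleton.1 hv
      show ap P (ρ t) (c • e) ∈ F ∙ e
      rw [map_smul, hTe _ t.2]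
      exact hv
    letI : MulAction ↥(T : Subgroup G) (V ⧸ F ∙ e) :=
      { smul := fun t => Submodule.mapQ _ _ _ (hstab t)
        one_smul := fun x => by
          obtain ⟨v, rfl⟩ := Submodule.Quotient.mk_surjective _ x
          exact congrArg Submodule.Quotient.mk (one_smul (↥(T : Subgroup G)) v)
        mul_smul := fun a b x => by
          obtain ⟨v, rfl⟩ := Submodule.Quotient.mk_surjective _ x
          exact congrArg Submodule.Quotient.mk (mul_smul a b v) }
    have hne : Nontrivial (V ⧸ F ∙ e) := by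
      refine ⟨⟨Submodule.Quotient.mk e2, 0, fun hq => ?_⟩⟩
      obtain ⟨μ, hμ⟩ := Submodule.mem_span_singleton.1 ((Submodule.Quotient.mk_eq_zero _).1 hq)
      rw [← hμ, map_smul, h.ye, smul_eq_mul, mul_eq_zero, or_iff_left P.η_ne] at b3
      exact h2.e_ne (by rw [← hμ, b3, zero_smul])
    haveI : Finite (V ⧸ F ∙ e) := Finite.of_surjective _ (Submodule.Quotient.mk_surjective _)
    have hVq : p ∣ Nat.card (V ⧸ F ∙ e) := by
      have : Module.Finite F (V ⧸ F ∙ e) := Module.Finite.of_finite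
      rw [Module.natCard_eq_pow_finrank (K := F)]
      haveI := Fintype.ofFinite F
      obtain ⟨k, -, hk⟩ := FiniteField.card F p
      rw [Nat.card_eq_fintype_card, hk]
      exact dvd_pow (dvd_pow_self p k.ne_zero) Module.finrank_pos.ne'
    obtain ⟨x, hx, hx0⟩ := T.2.exists_fixed_point_of_prime_dvd_card_of_fixed_point (V ⧸ F ∙ e) hVq
      (a := (0 : V ⧸ F ∙ e)) fun t => map_zero (Submodule.mapQ _ _ _ (hstab t))
    obtain ⟨z, rfl⟩ := Submodule.Quotient.mk_surjective _ x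
    have hzX : z ∈ X := fun t ht => (Submodule.Quotient.eq _).1 (hx ⟨t, ht⟩)
    obtain ⟨a, b, hab⟩ := Submodule.mem_span_pair.1 (hXW z hzX)
    have hb : b ≠ 0 := fun h0 => hx0 ((Submodule.Quotient.mk_eq_zero _).2 (by
      rw [← hab, h0, zero_smul, add_zero]
      exact Submodule.smul_mem _ _ (Submodule.mem_span_singleton_self e))).symm
    intro w hw t ht
    obtain ⟨a', b', rfl⟩ := Submodule.mem_span_pair.1 hw
    have h1 : ap P (ρ t) z - z = b • (ap P (ρ t) e2 - e2) := by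
      rw [← hab, map_add, map_smul, map_smul, hTe t ht, smul_sub]
      abel
    have h2' := hzX t ht
    rw [h1, Submodule.smul_mem_iff _ hb] at h2'
    have h3 : ap P (ρ t) (a' • e + b' • e2) - (a' • e + b' • e2) = b' • (ap P (ρ t) e2 - e2) := by
      rw [map_add, map_smul, map_smul, hTe t ht, smul_sub]
      abel
    rw [h3]
    exact Submodule.smul_mem _ _ h2'
  have hTW : ∀ t ∈ (T : Subgroup G), ∀ w ∈ W, ap P (ρ t) w ∈ W := fun t ht w hw => by
    obtain ⟨c, hc⟩ := Submodule.mem_span_singleton.1 (hWX w hw t ht)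
    rw [show ap P (ρ t) w = c • e + w by rw [hc]; abel]
    exact W.add_mem (W.smul_mem _ heW) hw
  -- the centre
  have hcomm : ∀ c ∈ Subgroup.center G, ∀ t : G, ∀ v, ap P (ρ t) (ap P (ρ c) v) =
      ap P (ρ c) (ap P (ρ t) v) := fun c hc t v => by
    rw [← ap_mul, ← ap_mul, ← map_mul, ← map_mul, Subgroup.mem_center_iff.1 hc]
  have hce : ∀ c ∈ Subgroup.center G, ap P (ρ c) e ∈ F ∙ e := fun c hc =>
    hfixed _ fun t ht => by rw [hcomm c hc, hTe t ht]
  have hcW : ∀ c ∈ Subgroup.center G, ∀ w ∈ W, ap P (ρ c) w ∈ W := fun c hc w hw =>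
    hXW _ fun t ht => by
      obtain ⟨d, hd⟩ := Submodule.mem_span_singleton.1 (hWX w hw t ht)
      rw [hcomm c hc, ← map_sub, ← hd, map_smul]
      exact Submodule.smul_mem _ _ (hce c hc)
  -- the two stabilisers
  set S1 := ptStab ρ h.e_ne with hS1def
  set S2 := spanStab ρ W with hS2def
  have hcS : Subgroup.center G ≤ S1 ∧ Subgroup.center G ≤ S2 :=
    ⟨fun c hc => hce c hc, fun c hc => hcW c hc⟩
  have hTS1 : (T : Subgroup G) ≤ S1 := fun t ht => by
    rw [hS1def, mem_ptStab, hTe t ht]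
    exact Submodule.mem_span_singleton_self e
  have hTS2 : (T : Subgroup G) ≤ S2 := fun t ht => hTW t ht
  have hmem : ∀ S : Subgroup G, Subgroup.center G ≤ S → ∀ g, π g ∈ S.map π → g ∈ S := by
    rintro S hS g ⟨g', hg', e'⟩
    simpa using mul_mem hg' (hS (QuotientGroup.eq.1 e'))
  -- an element moving `e` out of `W`
  obtain ⟨g0, hg0⟩ : ∃ g0 : G, ap P (ρ g0) e ∉ W := by
    obtain ⟨v, hv, hev, hvz⟩ := h.swap.exists_v (a := y2) b4 (by
      rw [LinearMap.map_smulₛₗ, LinearMap.smul_apply, b2, smul_zero])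
    obtain ⟨i, hi, hiy, -⟩ := h.swap.exists_eich hv hev
    obtain ⟨g0, rfl⟩ := he _ (TS_singleton h.qy) hi
    refine ⟨g0, fun hmem => ?_⟩
    have hv2 : P.B v e2 = 0 := by
      have hvW : v ∈ W := by
        rw [← hiy, map_smul]
        exact W.smul_mem _ hmem
      obtain ⟨a, b, hab⟩ := Submodule.mem_span_pair.1 hvW
      rw [← hab, map_add, LinearMap.add_apply, LinearMap.map_smulₛₗ, LinearMap.map_smulₛₗ,
        LinearMap.smul_apply, LinearMap.smul_apply, b1, h2.ee, smul_zero, smul_zero, add_zero]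
    rw [hvz e2 b3, LinearMap.map_smulₛₗ, LinearMap.smul_apply, b1, smul_zero, zero_add, h2.ye] at hv2
    exact P.η_ne hv2
  have hne1 : S1.map π ≠ ⊤ := fun htop => hg0 (by
    obtain ⟨c, hc⟩ := Submodule.mem_span_singleton.1 (hmem S1 hcS.1 g0 (htop ▸ Subgroup.mem_top _))
    rw [← hc]
    exact W.smul_mem _ heW)
  have hne2 : S2.map π ≠ ⊤ := fun htop =>
    hg0 (hmem S2 hcS.2 g0 (htop ▸ Subgroup.mem_top _) e heW)
  have hQT' : (eich P e).comap ρ ≤ (T : Subgroup G) := fun u hu => by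
    obtain ⟨u', hu', e'⟩ := hQT (ρ u) hu
    rwa [← hρ e']
  refine ⟨T, hT, hTe, fun t ht w hw => hWX w hw t ht, hcS, ⟨hTS1, hTS2⟩, ⟨hne1, hne2, ?_⟩, ?_⟩
  · -- the join
    refine opp_top h hW0 ρ he _ (fun u hu => Subgroup.mem_comap.2 (Subgroup.mem_sup_left (Subgroup.mem_map_of_mem π ?_))) ?_
    · obtain ⟨u', hu', e'⟩ := hQT (ρ u) hu
      rw [← hρ e']
      exact hTS1 hu'
    obtain ⟨i, hi, hiz, -⟩ := h2.exists_eich_of (a := y) (P.symm_zero b3) (P.symm_zero b4)
    have hie : ap P i e = e - e2 := by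
      rw [hiz e (P.symm_zero b1), h.ye, inv_mul_cancel₀ P.η_ne, one_smul]
    obtain ⟨gi, rfl⟩ := he _ (TS_singleton h2.qe) hi
    have hgi : gi ∈ S2 := fun w hw => by
      obtain ⟨a, b, rfl⟩ := Submodule.mem_span_pair.1 hw
      rw [map_add, map_smul, map_smul, hie, eich_fix hi]
      exact W.add_mem (W.smul_mem _ (W.sub_mem heW he2W)) (W.smul_mem _ he2W)
    obtain ⟨v, hv, hev, hyv, he2v, hy2v⟩ := hex
    set k := P.B y2 v with hk
    have hv' : P.q (k⁻¹ • v) = 0 := P.q_smul_eq_zero _ hv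
    obtain ⟨b, hb, hbe2, hbz⟩ := h2.swap.exists_eich hv'
      (by rw [map_smul, smul_eq_mul, inv_mul_cancel₀ hy2v])
    have hbe : ap P b e = e := by
      rw [hbz e (P.symm_zero b2), LinearMap.map_smulₛₗ, LinearMap.map_smulₛₗ, LinearMap.smul_apply,
        LinearMap.smul_apply, P.symm_zero hev, P.symm_zero b1, smul_zero, smul_zero, sub_self,
        mul_zero, zero_smul, sub_zero]
    obtain ⟨gb, rfl⟩ := he _ (TS_singleton h2.qy) hb
    have hgb : gb ∈ S1 := by
      rw [hS1def, mem_ptStab, hbe]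
      exact Submodule.mem_span_singleton_self e
    refine ⟨gi⁻¹ * gb * gi, ?_, ?_⟩
    · rw [Subgroup.mem_comap, map_mul, map_mul]
      exact mul_mem (mul_mem (Subgroup.mem_sup_right ⟨_, inv_mem hgi, rfl⟩)
        (Subgroup.mem_sup_left ⟨_, hgb, rfl⟩)) (Subgroup.mem_sup_right ⟨_, hgi, rfl⟩)
    · have hbe2' : ap P (ρ gb) e2 = P.η • k⁻¹ • v := by
        rw [← hbe2, ← map_smul, smul_smul, mul_inv_cancel₀ P.η_ne, one_smul]
      rw [map_mul, map_mul, ap_mul, ap_mul, hie, map_inv,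
        ← ap_B (ρ gi) e (ap P (ρ gi)⁻¹ _), ap_ap_inv, hie, map_sub, map_sub, LinearMap.sub_apply, hbe,
        hbe2']
      simp [hev, he2v, h.ee, P.symm_zero b1, P.η_ne, hy2v]
  intro Φ τ hτ hsurj
  have hΦe : Φ e ∈ F ∙ e := hfixed _ fun t' ht' => by
    obtain ⟨t, ht, e'⟩ := hsurj t' ht'
    rw [e', hTe t ht]
  have hΦspan : ∀ v ∈ F ∙ e, Φ v ∈ F ∙ e := fun v hv => by
    obtain ⟨c, rfl⟩ := Submodule.mem_span_singleton.1 hv
    rw [hτ]
    exact Submodule.smul_mem _ _ hΦe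
  have hΦW : ∀ w ∈ W, Φ w ∈ W := fun w hw => hXW _ fun t' ht' => by
    obtain ⟨t, ht, e'⟩ := hsurj t' ht'
    rw [e', ← map_sub]
    exact hΦspan _ (hWX w hw t ht)
  exact ⟨hΦe, hΦW⟩

/-- Two stable overgroups from a point and a line. -/
theorem polar_twoStable (hn : 2 ≤ n) (ρ : G →* P.iso) (hρ : Function.Injective ρ)
    (he : ∀ W, P.TS W → rad P W ≤ ρ.range) [IsSimpleGroup (G ⧸ Subgroup.center G)]
    (hex : ∃ v, P.q v = 0 ∧ P.B (P.e ⟨0, by omega⟩) v = 0 ∧ P.B (P.y ⟨0, by omega⟩) v = 0 ∧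
      P.B (P.e ⟨1, by omega⟩) v = 1 ∧ P.B (P.y ⟨1, by omega⟩) v ≠ 0)
    (hauto : ∀ α : MulAut (G ⧸ Subgroup.center G), ∃ (Φ : V ≃+ V) (τ : F → F),
      (∀ (c : F) v, Φ (c • v) = τ c • Φ v) ∧ ∀ g, ∃ g',
        QuotientGroup.mk' (Subgroup.center G) g' = α (QuotientGroup.mk' (Subgroup.center G) g) ∧
          ∀ v, ap P (ρ g') (Φ v) = Φ (ap P (ρ g) v)) :
    Has .twoStable p (G ⧸ Subgroup.center G) := by
  classical
  set π := QuotientGroup.mk' (Subgroup.center G) with hπdef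
  have hπ : Function.Surjective π := QuotientGroup.mk'_surjective _
  set e := P.e ⟨0, by omega⟩ with hedef
  have he0 : e ≠ 0 := (hyp_frame (P := P) _).e_ne
  obtain ⟨T, -, -, -, -, ⟨hTS1, hTS2⟩, ⟨hne1, hne2, hj⟩, hΦdata⟩ :=
    polar_data (p := p) hn ρ hρ he hex (e := e) rfl rfl he0 rfl
  set W : Submodule F V := Submodule.span F {e, P.e ⟨1, by omega⟩}
  set S1 := ptStab ρ he0 with hS1def
  set S2 := spanStab ρ W with hS2def
  refine ⟨T.mapSurjective (f := π) hπ, S1.map π, S2.map π, ?_, ?_, hne1, hne2, hj, ?_⟩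
  · rw [Sylow.coe_mapSurjective]; exact Subgroup.map_mono hTS1
  · rw [Sylow.coe_mapSurjective]; exact Subgroup.map_mono hTS2
  -- stability
  have key : ∀ α : MulAut (G ⧸ Subgroup.center G),
      ((T : Subgroup G).map π).map α.toMonoidHom = (T : Subgroup G).map π →
      (S1.map π).map α.toMonoidHom ≤ S1.map π ∧ (S2.map π).map α.toMonoidHom ≤ S2.map π := by
    intro α hU
    obtain ⟨Φ, τ, hτ, hΦ⟩ := hauto α
    choose f hfα hf using hΦ
    have hext : ∀ g g' : G, (∀ v, ap P (ρ g) v = ap P (ρ g') v) → g = g' := fun g g' hv =>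
      hρ (Subtype.ext (LinearEquiv.ext hv))
    have hfpow : ∀ (g : G) (j : ℕ) (v : V), ap P (ρ (f g ^ j)) (Φ v) = Φ (ap P (ρ (g ^ j)) v) := by
      intro g j
      induction j with
      | zero => intro v; simp [ap_one]
      | succ j ih =>
        intro v
        rw [pow_succ', pow_succ', map_mul, map_mul, ap_mul, ap_mul, ih, hf]
    have hfT : ∀ t ∈ (T : Subgroup G), f t ∈ (T : Subgroup G) := by
      intro t ht
      obtain ⟨k, hk⟩ := T.2 ⟨t, ht⟩
      have hk' : t ^ p ^ k = 1 := congrArg Subtype.val hk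
      have hord : f t ^ p ^ k = 1 := hext _ _ fun v => by
        obtain ⟨w, rfl⟩ := Φ.surjective v
        rw [hfpow, hk']
        simp [ap_one]
      have hmem : π (f t) ∈ (T : Subgroup G).map π := by
        rw [hfα, ← hU]
        exact ⟨_, ⟨t, ht, rfl⟩, rfl⟩
      obtain ⟨t', ht', e'⟩ := hmem
      set c := t'⁻¹ * f t with hc
      have hcZ : c ∈ Subgroup.center G := QuotientGroup.eq.1 e'
      obtain ⟨k', hk''⟩ := T.2 ⟨t', ht'⟩
      have hk1 : t' ^ p ^ k' = 1 := congrArg Subtype.val hk''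
      have hcp : c ^ p ^ (k + k') = 1 := by
        have hcm : Commute t'⁻¹ (f t) := by
          have h1 : Commute t'⁻¹ (t' * c) :=
            ((Commute.refl t').inv_left).mul_right (Subgroup.mem_center_iff.1 hcZ t'⁻¹)
          rwa [hc, mul_inv_cancel_left] at h1
        rw [hc, hcm.mul_pow, inv_pow, pow_add, pow_mul (f t), hord, one_pow, mul_one, mul_comm,
          pow_mul, hk1, one_pow, inv_one]
      haveI : (Subgroup.zpowers c).Normal := ⟨fun x hx g => by
        have hxZ : x ∈ Subgroup.center G := Subgroup.zpowers_le.2 hcZ hx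
        rwa [Subgroup.mem_center_iff.1 hxZ g, mul_inv_cancel_right]⟩
      have hcpg : IsPGroup p ↥(Subgroup.zpowers c) := by
        rintro ⟨x, j, rfl⟩
        refine ⟨k + k', Subtype.ext ?_⟩
        show (c ^ j) ^ p ^ (k + k') = 1
        rw [← zpow_natCast, ← zpow_mul, mul_comm, zpow_mul, zpow_natCast, hcp, one_zpow]
      have hsup := T.3 (T.2.to_sup_of_normal_right hcpg) le_sup_left
      rw [show f t = t' * c by rw [hc, mul_inv_cancel_left]]
      exact mul_mem ht' (hsup ▸ Subgroup.mem_sup_right (Subgroup.mem_zpowers c))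
    have hsurj : ∀ t' ∈ (T : Subgroup G), ∃ t ∈ (T : Subgroup G),
        ∀ v, ap P (ρ t') (Φ v) = Φ (ap P (ρ t) v) := by
      have hinj : Function.Injective (fun t : ↥(T : Subgroup G) => (⟨f t, hfT t t.2⟩ : ↥(T : Subgroup G))) :=
        fun a b e => Subtype.ext (hext _ _ fun v => Φ.injective (by
          rw [← hf, ← hf, show f (a : G) = f (b : G) from congrArg Subtype.val e]))
      intro t' ht'
      obtain ⟨t, ht⟩ := (Finite.injective_iff_surjective.1 hinj) ⟨t', ht'⟩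
      exact ⟨t, t.2, fun v => by rw [← show f (t : G) = t' from congrArg Subtype.val ht]; exact hf t v⟩
    obtain ⟨hΦe, hΦW⟩ := hΦdata Φ τ hτ hsurj
    have hΦspan : ∀ v ∈ F ∙ e, Φ v ∈ F ∙ e := fun v hv => by
      obtain ⟨c, rfl⟩ := Submodule.mem_span_singleton.1 hv
      rw [hτ]
      exact Submodule.smul_mem _ _ hΦe
    constructor
    · rintro _ ⟨_, ⟨g, hg, rfl⟩, rfl⟩
      refine ⟨f g, ?_, hfα g⟩
      show ap P (ρ (f g)) e ∈ F ∙ e
      obtain ⟨l, hl⟩ := Submodule.mem_span_singleton.1 hΦe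
      have hl0 : l ≠ 0 := fun h0 => he0 (Φ.injective (by rw [← hl, h0, zero_smul, map_zero]))
      rw [← Submodule.smul_mem_iff _ hl0, ← map_smul, hl, hf]
      exact hΦspan _ hg
    · rintro _ ⟨_, ⟨g, hg, rfl⟩, rfl⟩
      refine ⟨f g, fun w hw => ?_, hfα g⟩
      have hinj : Function.Injective (fun x : W => (⟨Φ x, hΦW x x.2⟩ : W)) :=
        fun x x' e => Subtype.ext (Φ.injective (congrArg Subtype.val e))
      obtain ⟨x, hx⟩ := (Finite.injective_iff_surjective.1 hinj) ⟨w, hw⟩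
      rw [← show Φ x = w from congrArg Subtype.val hx, hf]
      exact hΦW _ (hg x x.2)
  constructor <;>
    intro α _ hU <;>
    rw [Sylow.coe_mapSurjective] at hU <;>
    refine Subgroup.eq_of_le_of_card_ge ?_ (Subgroup.card_map_of_injective α.injective).ge
  · exact (key α hU).1
  · exact (key α hU).2

end Cfsg.Agent.PMinLie
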