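import Cfsg.Agent.PMinLie.Polar
import Cfsg.Agent.AutPSp.Main
import Cfsg.Agent.AutPSU.Main
import Cfsg.Agent.AutPO.Main

/-!
# Stable overgroups in the classical groups with a form
-/

set_option autoImplicit false

namespace Cfsg.Agent.PMinLie

open Cfsg.Agent Cfsg.Agent.ChamberSt Cfsg.Agent.Classical Cfsg.Agent.Opp34
open Module

variable {p : ℕ} [Fact p.Prime]

/-- `v ↦ g (σ v)`. -/
noncomputable def semiMap {F : Type*} [Field F] {ι : Type*} [Fintype ι] [DecidableEq ι] (g : GL ι F)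
    (σ : F ≃+* F) : (ι → F) ≃+ (ι → F) where
  toFun v := (g : Matrix ι ι F).mulVec fun i => σ (v i)
  invFun v := fun i => σ.symm (((g⁻¹ : GL ι F) : Matrix ι ι F).mulVec v i)
  left_inv v := by
    funext i
    simp [Matrix.mulVec_mulVec]
  right_inv v := by
    simp [Matrix.mulVec_mulVec]
  map_add' v w := by
    rw [← Matrix.mulVec_add]
    congr 1
    funext i
    simp

theorem semiMap_smul {F : Type*} [Field F] {ι : Type*} [Fintype ι] [DecidableEq ι] (g : GL ι F)
    (σ : F ≃+* F) (c : F) (v : ι → F) : semiMap g σ (c • v) = σ c • semiMap g σ v := by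
  show (g : Matrix ι ι F).mulVec _ = σ c • (g : Matrix ι ι F).mulVec _
  rw [← Matrix.mulVec_smul]
  congr 1
  funext i
  simp

theorem hex_three {F : Type*} [Field F] {V : Type*} [AddCommGroup V] [Module F V] {n : ℕ}
    (P : Polar F (RingHom.id F) V n) (hn : 3 ≤ n) (hη : P.η = 1) (ht : ∀ x, P.t x = x) :
    ∃ v, P.q v = 0 ∧ P.B (P.e ⟨0, by omega⟩) v = 0 ∧ P.B (P.y ⟨0, by omega⟩) v = 0 ∧
      P.B (P.e ⟨1, by omega⟩) v = 1 ∧ P.B (P.y ⟨1, by omega⟩) v ≠ 0 :=
  ⟨P.y ⟨1, by omega⟩ + (P.e ⟨2, by omega⟩ + P.y ⟨2, by omega⟩) + (-1 : F) • P.e ⟨1, by omega⟩,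
    by
      rw [P.q_add, P.q_smul_eq_zero _ (P.q_e _)]
      simp [P.q_add, P.q_e, P.q_y, P.B_ey, P.B_ye, P.B_ee, P.B_yy, hη, ht],
    by simp [P.B_ey, P.B_ee], by simp [P.B_ye, P.B_yy], by simp [P.B_ey, P.B_ee],
    by simp [P.B_ye, P.B_yy, hη]⟩

theorem symp_twoStable {F : Type} [Field F] [Fintype F] [CharP F p] {m : ℕ} (hm : 2 ≤ m)
    (h3 : m = 2 → 3 ≤ Fintype.card F) (hp : (2 : F) ≠ 0 ∨ 3 ≤ m) :
    Has .twoStable p (Cfsg.PSp m F) := by
  haveI : IsSimpleGroup (Cfsg.PSp m F) := S0270.result m hm h3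
  set P := S2545.polar (F := F) m with hP
  refine polar_twoStable (P := P) hm (S2545.toIso m) (S2545.toIso_bijective m).1
    (fun W _ i _ => MonoidHom.mem_range.2 ((S2545.toIso_bijective m).2 i))
    ⟨P.y ⟨1, by omega⟩ + P.e ⟨1, by omega⟩, rfl, ?_, ?_, ?_, ?_⟩ fun α => ?_
  · simp [P.B_ey, P.B_ee]
  · simp [P.B_ye, P.B_yy]
  · simp [P.B_ey, P.B_ee]
  · simp [P.B_ye, P.B_yy, P.η_ne]
  obtain ⟨g, σ, h⟩ := AutPSp.exists_decomp hm hp α
  refine ⟨semiMap (g : GL _ F) σ, σ, semiMap_smul _ σ,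
    fun s => ⟨AutPSp.spConj g (AutPSp.spField σ s), ?_, fun v => ?_⟩⟩
  · show AutPSp.proj (AutPSp.spConj g (AutPSp.spField σ s)) = α (AutPSp.proj s)
    rw [h, MulAut.mul_apply, AutPSp.fieldAut_proj, AutPSp.conjAut_proj]
  · show Matrix.mulVec ((AutPSp.spConj g (AutPSp.spField σ s) : Matrix.symplecticGroup (Fin m) F) :
        Matrix (Fin m ⊕ Fin m) (Fin m ⊕ Fin m) F) (semiMap (g : GL _ F) σ v) =
      semiMap (g : GL _ F) σ (Matrix.mulVec (s : Matrix (Fin m ⊕ Fin m) (Fin m ⊕ Fin m) F) v)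
    have e : ∀ w, semiMap (g : GL _ F) σ w =
      ((g : GL (Fin m ⊕ Fin m) F) : Matrix (Fin m ⊕ Fin m) (Fin m ⊕ Fin m) F).mulVec fun i => σ (w i) :=
      fun w => rfl
    rw [e, e, AutPSp.spConj_coe, AutPSp.spField_coe, Matrix.mulVec_mulVec, mul_assoc, ← Units.val_mul,
      inv_mul_cancel, Units.val_one, mul_one, ← Matrix.mulVec_mulVec]
    exact congrArg _ (AutPSp.map_app σ.toRingHom _ v)

theorem unitary_twoStable {F : Type} [Field F] [Fintype F] [CharP F p] {n q : ℕ}
    (hF : Fintype.card F = q ^ 2) (hn : 4 ≤ n) :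
    Has .twoStable p (Cfsg.PSU n F q) := by
  haveI : IsSimpleGroup (Cfsg.PSU n F q) := S0283.result hF n (by omega) (by omega)
  have hsq := U.sqField_of_fintype hF
  obtain ⟨l, μ, hl, hμ, hc⟩ := S2546.exists_consts hsq
  let P := S2546.polar hsq hl hμ hc (n := n)
  let j2 : U.UG n F q →* P.iso :=
    { toFun := fun g => ⟨g.1, fun u v => g.2 v u, fun v => g.2 v v⟩
      map_one' := rfl
      map_mul' := fun _ _ => rfl }
  let ρ : Cfsg.SU n F q →* P.iso := j2.comp (U.suToUG n F q)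
  have hρ : Function.Injective ρ := fun a b h =>
    U.suToUG_injective (Subtype.ext (congrArg (Subtype.val : P.iso → _) h))
  have hrange : ∀ i : P.iso, LinearEquiv.det (i : (Fin n → F) ≃ₗ[F] (Fin n → F)) = 1 → i ∈ ρ.range := by
    intro i hi
    have : (⟨i.1, fun u v => i.2.1 v u⟩ : U.UG n F q) ∈ (U.suToUG n F q).range := by
      rw [U.range_suToUG, U.mem_SUG]; exact hi
    obtain ⟨g, hg⟩ := this
    exact ⟨g, Subtype.ext (show ((U.suToUG n F q g : U.UG n F q) : (Fin n → F) ≃ₗ[F] (Fin n → F)) = i.1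
      from congrArg Subtype.val hg)⟩
  have hh := hyp_frame (P := P) ⟨0, by omega⟩
  haveI : Nontrivial (Fin n → F) := ⟨⟨_, 0, hh.e_ne⟩⟩
  obtain ⟨c, hc0, hct⟩ : ∃ c : F, c ≠ 0 ∧ c + c ^ q = 0 := by
    obtain ⟨a, ha⟩ : ∃ a : F, a ^ q ≠ a := by
      by_contra! hall
      obtain ⟨g, hg⟩ := IsCyclic.exists_ofOrder_eq_natCard (α := Fˣ)
      have h1 : g ^ (q - 1) = 1 := by
        refine Units.ext (mul_left_cancel₀ g.ne_zero ?_)
        rw [Units.val_one, mul_one, Units.val_pow_eq_pow_val, ← pow_succ',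
          Nat.sub_add_cancel hsq.one_lt.le, hall]
      have h2 := Nat.le_of_dvd (by have := hsq.one_lt; omega) (hg ▸ orderOf_dvd_of_pow_eq_one h1)
      rw [hsq.card_units] at h2
      have h4 : (q - 1) * 1 < (q - 1) * (q + 1) := Nat.mul_lt_mul_of_pos_left (by have := hsq.one_lt; omega)
        (by have := hsq.one_lt; omega)
      omega
    exact ⟨a - a ^ q, sub_ne_zero.2 ha.symm, by rw [hsq.sub_pow, hsq.pow_pow]; ring⟩
  refine polar_twoStable (P := P) (by omega) ρ hρ (fun W _ i hi => hrange i ?_)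
    ⟨P.y ⟨1, by omega⟩ + c • P.e ⟨1, by omega⟩, ?_, ?_, ?_, ?_, ?_⟩ fun α => ?_
  · set d := LinearEquiv.det (i : (Fin n → F) ≃ₗ[F] (Fin n → F)) with hd
    have h2 : d ^ p ^ 2 = 1 := by
      rw [hd, ← map_pow, ← SubgroupClass.coe_pow, rad_pow_eq_one p hi, OneMemClass.coe_one, map_one]
    refine Units.ext (sub_eq_zero.1 (eq_zero_of_pow_eq_zero (n := p ^ 2) ?_))
    rw [sub_pow_char_pow, Units.val_one, one_pow, ← Units.val_pow_eq_pow_val, h2, Units.val_one, sub_self]
  · rw [P.q_add, P.q_smul_eq_zero _ (P.q_e _), P.q_y, map_smul, P.B_ye, if_pos rfl, zero_add,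
      zero_add, smul_eq_mul]
    show c * 1 + (c * 1) ^ q = 0
    rwa [mul_one]
  · simp [P.B_ey, P.B_ee]
  · simp [P.B_ye, P.B_yy]
  · simp [P.B_ey, P.B_ee]
  · simp [P.B_ye, P.B_yy, P.η_ne, hc0]
  obtain ⟨g, σ, h⟩ := AutPSU.exists_decomp hsq (by omega) (by omega) α
  refine ⟨semiMap (g : GL _ F) σ, σ, semiMap_smul _ σ,
    fun s => ⟨AutPSU.suConj g (AutPSU.suField σ s), ?_, fun v => ?_⟩⟩
  · show AutPSU.proj (AutPSU.suConj g (AutPSU.suField σ s)) = α (AutPSU.proj s)
    rw [h, MulAut.mul_apply, AutPSU.fieldAut_proj, AutPSU.conjAut_proj]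
  · show AutPSU.sapp (AutPSU.suConj g (AutPSU.suField σ s))
        (((g : GL (Fin n) F) : Matrix (Fin n) (Fin n) F).mulVec (AutPSU.vmap σ v)) =
      ((g : GL (Fin n) F) : Matrix (Fin n) (Fin n) F).mulVec (AutPSU.vmap σ (AutPSU.sapp s v))
    rw [AutPSU.sapp_suConj, AutPSU.sapp_suField]

open QuadraticMap in
theorem orth_twoStable {F : Type} [Field F] [Fintype F] [CharP F p] {ι : Type} [Fintype ι] [DecidableEq ι]
    {n : ℕ} {R : QuadraticForm F (ι → F)} {Q₀ : (ι → F) → F} (hQ₀ : ⇑R = Q₀) (hB : BNondeg R)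
    (f : OrthFrame R n) (hn : 3 ≤ n) (hx : OrthGen.NotExceptional R)
    (hd : finrank F (core f) ≤ 2) (h2d : (2 : F) = 0 → finrank F (core f) ≠ 1)
    (hG : AutPO.Good R) {W₀ : Type} [AddCommGroup W₀] [Module F W₀] {m : ℕ}
    (T₀ : AutPO.Frame R m W₀) (hm : 3 ≤ m)
    [IsSimpleGroup (Cfsg.POmega F Q₀)] :
    Has .twoStable p (Cfsg.POmega F Q₀) := by
  subst hQ₀
  set ρ := (isoOQ hB f).comp
    ((OrthGen.matEquiv R).toMonoidHom.comp (Cfsg.Omega F ⇑R).subtype) with hρdef
  have hρ : Function.Injective ρ := fun g g' h => by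
    have h1 : OrthGen.matEquiv R g.1 = OrthGen.matEquiv R g'.1 :=
      congrArg (toOQ hB f) h
    exact Subtype.ext ((OrthGen.matEquiv R).injective h1)
  have hrange : ∀ g : OQ R, g ∈ commutator (OQ R) → isoOQ hB f g ∈ ρ.range := fun g hg =>
    ⟨⟨(OrthGen.matEquiv R).symm g, (Forms.mem_Omega_iff_matEquiv R _).2 (by simpa using hg)⟩,
      congrArg (isoOQ hB f) ((OrthGen.matEquiv R).apply_symm_apply g)⟩
  refine polar_twoStable (P := orthPolar hB f) (by omega) ρ hρ (fun W hW i hi => ?_)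
    (hex_three (orthPolar hB f) hn rfl fun _ => rfl) fun α => ?_
  · obtain ⟨j, hj⟩ := exists_conj_mem_U (orth_witt hB f) hW
    have h1 := U_mem_commutator hB f hx hd h2d p (hj i hi)
    rw [map_mul, map_mul, map_inv] at h1
    have h2 := (inferInstance : (commutator (OQ R)).Normal).conj_mem _ h1 (toOQ hB f j)⁻¹
    rw [inv_inv] at h2
    have h3 : toOQ hB f i ∈ commutator (OQ R) := by simpa [mul_assoc] using h2
    exact isoOQ_toOQ hB f i ▸ hrange _ h3
  obtain ⟨S, -, -, h, -, -⟩ := AutPO.exists_induced R (fun _ => rfl) hG T₀ hm α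
  refine ⟨S.L, S.σ, fun c v => S.smul c v,
    fun s => ⟨(AutPO.omEquiv R fun _ => rfl).symm (S.conjOm (AutPO.omEquiv R (fun _ => rfl) s)),
      ?_, fun v => ?_⟩⟩
  · rw [h]
    exact (AutPO.semiAutM_mk R (fun _ => rfl) S s).symm
  · show Matrix.mulVec _ (S.L v) = S.L (Matrix.mulVec _ v)
    erw [← AutPO.app_omEquiv R (fun _ => rfl), MulEquiv.apply_symm_apply, AutPO.Semi.app_conjOm,
      AutPO.app_omEquiv]
    rfl

open QuadraticMap in
theorem orth_odd_twoStable {F : Type} [Field F] [Fintype F] [CharP F p] {m : ℕ} (hm : 3 ≤ m)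
    (hodd : Odd (Fintype.card F)) : Has .twoStable p (Cfsg.POmega F (Cfsg.quadFormOdd m F)) := by
  classical
  haveI : IsSimpleGroup (Cfsg.POmega F (Cfsg.quadFormOdd m F)) := S0295.result hodd m hm
  have h2 : (2 : F) ≠ 0 := Forms.two_ne_zero_of_odd_card hodd
  have hpol : ∀ u v, polar (oddQF m F) u v = 2 * (u (.inl ()) * v (.inl ())) +
      ∑ i, (u (.inr (.inl i)) * v (.inr (.inr i)) + v (.inr (.inl i)) * u (.inr (.inr i))) := by
    intro u v
    simp only [polar, oddQF_apply, Cfsg.quadFormOdd, Pi.add_apply, add_mul, mul_add,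
      Finset.sum_add_distrib]
    ring
  have hs := fun j v => Forms.polar_oddQF_single (F := F) m j v
  have hB : BNondeg (oddQF m F) := by
    intro x hx
    funext i
    rcases i with ⟨⟩ | j | j
    · have h := hx (Pi.single (.inl ()) 1)
      rw [hpol] at h
      simp at h
      exact h.resolve_left h2
    · have h := hx (Pi.single (.inr (.inr j)) 1)
      rwa [polar_comm, (hs j x).2] at h
    · have h := hx (Pi.single (.inr (.inl j)) 1)
      rwa [polar_comm, (hs j x).1] at h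
  let f : OrthFrame (oddQF m F) m :=
    { e := fun i => Pi.single (.inr (.inl i)) 1
      y := fun i => Pi.single (.inr (.inr i)) 1
      q_e := fun i => by simp [oddQF_apply, Cfsg.quadFormOdd]
      q_y := fun i => by simp [oddQF_apply, Cfsg.quadFormOdd]
      B_ee := fun i j => by simp [(hs i _).1]
      B_yy := fun i j => by simp [(hs i _).2]
      B_ey := fun i j => by simp [(hs i _).1, Pi.single_apply]
      aniso := fun a h1 h2 h0 => by
        have e1 : ∀ i, a (.inr (.inr i)) = 0 := fun i => (hs i a).1.symm.trans (h1 i)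
        have e2 : ∀ i, a (.inr (.inl i)) = 0 := fun i => (hs i a).2.symm.trans (h2 i)
        simp [oddQF_apply, Cfsg.quadFormOdd, e1, e2] at h0
        funext i
        rcases i with ⟨⟩ | j | j <;> simp [h0, e1, e2] }
  have hd := finrank_eq hB f
  rw [finrank_pi] at hd
  simp only [Fintype.card_sum, Fintype.card_unique, Fintype.card_fin] at hd
  exact orth_twoStable (funext (oddQF_apply m)) hB f (by omega)
    (OrthGen.notExceptional_of_two_ne_zero h2) (by omega) (fun h => absurd h h2)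
    (AutPO.good_odd h2 hm) (AutPO.oddFrame m) hm

open QuadraticMap in
theorem orth_plus_twoStable {F : Type} [Field F] [Fintype F] [CharP F p] {m : ℕ} (hm : 5 ≤ m) :
    Has .twoStable p (Cfsg.POmega F (Cfsg.quadFormPlus m F)) := by
  classical
  haveI : IsSimpleGroup (Cfsg.POmega F (Cfsg.quadFormPlus m F)) := S0296.result m (by omega)
  have hs := fun j v => Forms.polar_plusQF_single (F := F) m j v
  let f : OrthFrame (plusQF m F) m :=
    { e := fun i => Pi.single (.inl i) 1
      y := fun i => Pi.single (.inr i) 1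
      q_e := fun i => by simp [plusQF_apply, Cfsg.quadFormPlus]
      q_y := fun i => by simp [plusQF_apply, Cfsg.quadFormPlus]
      B_ee := fun i j => by simp [(hs i _).1]
      B_yy := fun i j => by simp [(hs i _).2]
      B_ey := fun i j => by simp [(hs i _).1, Pi.single_apply]
      aniso := fun a h1 h2 _ => by
        funext i
        rcases i with j | j
        · exact (hs j a).2.symm.trans (h2 j)
        · exact (hs j a).1.symm.trans (h1 j) }
  have hd := finrank_eq Forms.bNondeg_plusQF f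
  rw [finrank_pi] at hd
  simp only [Fintype.card_sum, Fintype.card_fin] at hd
  exact orth_twoStable (funext (plusQF_apply m)) Forms.bNondeg_plusQF f (by omega)
    (Forms.notExceptional_plusQF (Or.inr (by omega))) (by omega) (fun _ => by omega)
    (AutPO.good_plus hm) (AutPO.plusFrame m) (by omega)

open QuadraticMap in
theorem orth_minus_twoStable {F : Type} [Field F] [Fintype F] [CharP F p] {m : ℕ} (hm : 4 ≤ m) (a b : F)
    (hab : ∀ z₁ z₂ : F, z₁ ^ 2 + a * z₁ * z₂ + b * z₂ ^ 2 = 0 → z₁ = 0 ∧ z₂ = 0) :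
    Has .twoStable p (Cfsg.POmega F (Cfsg.quadFormMinus (m - 1) F a b)) := by
  classical
  haveI : IsSimpleGroup (Cfsg.POmega F (Cfsg.quadFormMinus (m - 1) F a b)) := S0297.result m hm a b hab
  obtain ⟨k, rfl⟩ : ∃ k, m = k + 1 := ⟨m - 1, by omega⟩
  rw [Nat.add_sub_cancel] at this ⊢
  have hB : BNondeg (minusQF k a b) := by
    refine bNondeg_congr (minusEquiv k) (minusEquiv_spec k a b) (bNondeg_hypExt _ fun z hz => ?_)
    by_cases h2 : (2 : F) = 0
    · have hdet := binDisc_ne_zero (anisotropic_binQF hab)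
      have ha : a ≠ 0 := fun h => hdet (by linear_combination a * h - 2 * b * h2)
      have h0 := hz ![1, 0]
      have h1 := hz ![0, 1]
      simp [polar_binQF, h2, ha] at h0 h1
      ext i; fin_cases i <;> assumption
    · have h := hz z
      rw [QuadraticMap.polar_self, two_smul, ← two_mul] at h
      exact anisotropic_binQF hab z ((mul_eq_zero.1 h).resolve_left h2)
  have hs := fun j v => Forms.polar_minusQF_single (F := F) k a b j v
  let f : OrthFrame (minusQF k a b) k :=
    { e := fun i => Pi.single (.inl (.inl i)) 1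
      y := fun i => Pi.single (.inl (.inr i)) 1
      q_e := fun i => by simp [minusQF_apply, Cfsg.quadFormMinus]
      q_y := fun i => by simp [minusQF_apply, Cfsg.quadFormMinus]
      B_ee := fun i j => by simp [(hs i _).1]
      B_yy := fun i j => by simp [(hs i _).2]
      B_ey := fun i j => by simp [(hs i _).1, Pi.single_apply]
      aniso := fun v h1 h2 h0 => by
        have e1 : ∀ i, v (.inl (.inr i)) = 0 := fun i => (hs i v).1.symm.trans (h1 i)
        have e2 : ∀ i, v (.inl (.inl i)) = 0 := fun i => (hs i v).2.symm.trans (h2 i)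
        simp [minusQF_apply, Cfsg.quadFormMinus, e1, e2] at h0
        obtain ⟨g1, g2⟩ := hab _ _ h0
        funext i
        rcases i with (j | j) | j
        · exact e2 j
        · exact e1 j
        · fin_cases j <;> assumption }
  have hd := finrank_eq hB f
  rw [finrank_pi] at hd
  simp only [Fintype.card_sum, Fintype.card_fin] at hd
  have hV : finrank F (((Fin k ⊕ Fin k) ⊕ Fin 2) → F) = k + k + 2 := by
    rw [finrank_pi]; simp
  exact orth_twoStable (funext (minusQF_apply k a b)) hB f (by omega)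
    (Forms.notExceptional_of (Or.inr (by omega))) (by omega) (fun _ => by omega)
    (AutPO.good_minus (anisotropic_binQF hab) (by omega))
    (AutPO.minusFrame k (anisotropic_binQF hab)) (by omega)

end Cfsg.Agent.PMinLie
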