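import Cfsg.Agent.PMinLie.Core
import Cfsg.Agent.Opp34.TitsCrit
import Cfsg.Agent.ChevTwSec.TwParabolic

/-!
The overgroup data for the Tits group: the two parabolic subgroups of ²F₄(2) cut out by the derived group
are the maximal overgroups of a Sylow 2-subgroup and have different orders.
-/

set_option autoImplicit false
set_option maxRecDepth 4096

namespace Cfsg.Agent.PMinLie

open Cfsg.Agent.BNPair Cfsg.Agent.Opp34

section IndexTwo

variable {K : Type*} [Group K] {P : Cfsg.BNPair K} {T : Subgroup K}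
variable {n0 : P.N} (hn0 : ∀ y ∈ P.B, (n0 : K) * y * (n0 : K)⁻¹ ∈ P.B → y = 1)

include hn0 in
theorem overgroup_cases [T.Normal] (hB : IsPGroup 2 P.B) (hidx : T.index = 2)
    (hinv : ∀ x : K, x * x = 1 → x ∈ T) (hBT : ¬ P.B ≤ T)
    (hnc : ∀ s : P.S, ∃ t : P.S, σ P s * σ P t ≠ σ P t * σ P s)
    {M : Subgroup K} (hMT : M ≤ T) (hUM : P.B ⊓ T ≤ M) (hne : M ≠ T) :
    ∃ s : P.S, M ≤ P.parabolic (P.S \ {(s : K)}) := by
  have hmul := fun {a b : K} => Subgroup.mul_mem_iff_of_index_two hidx (a := a) (b := b)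
  -- the intersection of `B` with `T` moves the chambers of a panel transitively
  have htrans : ∀ s : P.S, (∃ m ∈ M, bw P m = σ P s) → ∀ b ∈ P.B,
      ∃ m ∈ M, m⁻¹ * (b * (s : K)) ∈ P.B := by
    rintro s ⟨m, hm, hbw⟩ b hb
    obtain ⟨b1, hb1, b2, hb2, e⟩ := exists_eq_mul_mul' P (n := ⟨(s : K), P.subset s.2⟩) hbw
    obtain ⟨t, ht⟩ := hnc s
    obtain ⟨q, hq, hqs, hqT⟩ := exists_not_mem_fix_simple hn0 hBT ht
    by_cases hbb : b * b1⁻¹ ∈ T
    · refine ⟨b * b1⁻¹ * m, mul_mem (hUM (Subgroup.mem_inf.2 ⟨mul_mem hb (inv_mem hb1), hbb⟩)) hm, ?_⟩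
      convert inv_mem hb2 using 1
      rw [e]; group
    · have hu : b * q * b1⁻¹ ∈ T := by
        have h2 : b1 * q * b1⁻¹ ∉ T := fun h => hqT (by
          have := Subgroup.Normal.conj_mem inferInstance _ h b1⁻¹
          convert this using 1
          group)
        rw [show b * q * b1⁻¹ = (b * b1⁻¹) * (b1 * q * b1⁻¹) by group, hmul]
        simp [hbb, h2]
      refine ⟨b * q * b1⁻¹ * m, mul_mem (hUM (Subgroup.mem_inf.2 ⟨mul_mem (mul_mem hb hq) (inv_mem hb1), hu⟩)) hm, ?_⟩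
      convert mul_mem (inv_mem hb2) (inv_mem hqs) using 1
      rw [e]; group
  have hfirst : ∀ g ∈ M, ∀ s : P.S, ∀ w : W P, bw P g = σ P s * w →
      len P w < len P (bw P g) → ∃ m ∈ M, bw P m = σ P s := by
    intro g hg s w hw hlen
    obtain ⟨n, hn⟩ := π_surjective P (bw P g)
    obtain ⟨c, hc, c', hc', e⟩ := exists_eq_mul_mul' P hn.symm
    obtain ⟨x, hx, hxT, hxs⟩ := exists_rootFix_involution hn0 hB hinv s
    set n' : P.N := ⟨(s : K), P.subset s.2⟩⁻¹ * n with hn'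
    have hπ : π P n' = w := by
      rw [hn', map_mul, map_inv, hn, hw]
      show (σ P s)⁻¹ * _ = _
      rw [σ_inv, σ_mul_σ_mul]
    have hcoe : (n' : K) = (s : K)⁻¹ * n := by simp [hn']
    have hu := hx.2 n' (by rw [hπ, ← hw]; exact hlen)
    set u := (n' : K)⁻¹ * x * n'
    have huT : u ∈ T := by
      have := Subgroup.Normal.conj_mem inferInstance _ hxT (n' : K)⁻¹
      simpa [u] using this
    have hnu : (n : K) * u * (n : K)⁻¹ = (s : K) * x * (s : K)⁻¹ := by
      simp only [u, hcoe]; group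
    have hbw : bw P ((n : K) * u * (n : K)⁻¹) = σ P s := by
      rw [hnu]
      rcases bw_mul_of_mem_simple (P := P) (s := s) (x := (s : K) * x) (y := (s : K)⁻¹)
        (by rw [bw_mul_B P hx.1, bw_coe_σ]) (by rw [bw_inv, bw_coe_σ, σ_inv]) with h | h
      · exact absurd ((bw_eq_one_iff P).1 h) hxs
      · exact h
    have hmemU : c'⁻¹ * u * c' ∈ P.B ⊓ T :=
      Subgroup.mem_inf.2 ⟨mul_mem (mul_mem (inv_mem hc') hu) hc', by
        have := Subgroup.Normal.conj_mem inferInstance _ huT c'⁻¹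
        simpa using this⟩
    refine ⟨g * (c'⁻¹ * u * c') * g⁻¹, mul_mem (mul_mem hg (hUM hmemU)) (inv_mem hg), ?_⟩
    rw [show g * (c'⁻¹ * u * c') * g⁻¹ = c * ((n : K) * u * (n : K)⁻¹) * c⁻¹ by rw [e]; group,
      bw_conj_B P hc (inv_mem hc), hbw]
  -- descent
  have hdown : ∀ (g : K) (s : P.S) (w : W P), bw P g = σ P s * w → (∃ m ∈ M, bw P m = σ P s) →
      ∃ m ∈ M, (∃ b ∈ P.B, ∃ b' ∈ P.B, m = b * (s : K) * b') ∧ bw P (m⁻¹ * g) = w := by
    intro g s w hw hJ
    obtain ⟨n', hn'⟩ := π_surjective P w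
    obtain ⟨c, hc, c', hc', e⟩ := exists_eq_mul_mul' P (g := g)
      (n := ⟨(s : K), P.subset s.2⟩ * n') (by rw [hw, map_mul, hn']; rfl)
    simp only [Subgroup.coe_mul] at e
    obtain ⟨m, hm, hmb⟩ := htrans s hJ c hc
    refine ⟨m, hm, ⟨c, hc, (m⁻¹ * (c * (s : K)))⁻¹, inv_mem hmb, by group⟩, ?_⟩
    rw [show m⁻¹ * g = m⁻¹ * (c * (s : K)) * (n' : K) * c' by rw [e]; group, bw_mul_B P hc',
      bw_B_mul P hmb, bw_coe, hn']
  by_cases hall : ∀ s : P.S, ∃ m ∈ M, bw P m = σ P s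
  · refine absurd (le_antisymm hMT fun y hy => ?_) hne
    have key : ∀ k : ℕ, ∀ g : K, len P (bw P g) = k → ∃ m ∈ M, m⁻¹ * g ∈ P.B := by
      intro k
      induction k with
      | zero =>
        intro g hg
        exact ⟨1, one_mem _, by simpa using (bw_eq_one_iff P).1 (eq_one_of_len_eq_zero P hg)⟩
      | succ k ih =>
        intro g hg
        obtain ⟨s, w, hw, hlen⟩ := exists_cons P (w := bw P g)
          (fun e => by rw [e, len_one] at hg; omega)
        obtain ⟨m, hm, -, hmg⟩ := hdown g s w hw (hall s)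
        obtain ⟨m', hm', hb⟩ := ih (m⁻¹ * g) (by rw [hmg]; omega)
        exact ⟨m * m', mul_mem hm hm', by simpa [mul_assoc] using hb⟩
    obtain ⟨m, hm, hb⟩ := key _ y rfl
    have := mul_mem hm (hUM (Subgroup.mem_inf.2 ⟨hb, mul_mem (inv_mem (hMT hm)) hy⟩))
    simpa using this
  push Not at hall
  obtain ⟨s, hs⟩ := hall
  set Q := P.parabolic (P.S \ {(s : K)})
  refine ⟨s, fun g hg => ?_⟩
  suffices hnorm : ∀ k : ℕ, ∀ g ∈ M, len P (bw P g) = k → g ∈ Q from hnorm _ g hg rfl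
  intro k
  induction k with
  | zero =>
    intro g _ hg
    exact B_le_parabolic P _ ((bw_eq_one_iff P).1 (eq_one_of_len_eq_zero P hg))
  | succ k ih =>
    intro g hgM hg
    obtain ⟨s', w, hw, hlen⟩ := exists_cons P (w := bw P g)
      (fun e => by rw [e, len_one] at hg; omega)
    obtain ⟨m0, hm0, hbw0⟩ := hfirst g hgM s' w hw (by omega)
    have hne' : (s' : K) ≠ s := fun e => hs m0 hm0 (Subtype.ext e ▸ hbw0)
    obtain ⟨m, hm, ⟨b, hb, b', hb', em⟩, hmg⟩ := hdown g s' w hw ⟨m0, hm0, hbw0⟩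
    have h1 := ih _ (mul_mem (inv_mem hm) hgM) (by rw [hmg]; omega)
    have h2 : m ∈ Q := by
      rw [em]
      exact mul_mem (mul_mem (B_le_parabolic P _ hb) (subset_parabolic P _ ⟨s'.2, hne'⟩))
        (B_le_parabolic P _ hb')
    simpa using mul_mem h2 h1

end IndexTwo

section Main

variable {K : Type*} [Group K] {P : Cfsg.BNPair K} {T : Subgroup K}

/-- A subgroup outside a subgroup of index two loses half of its elements. -/
theorem card_inf_index_two [Finite K] (hidx : T.index = 2) {Q : Subgroup K} (hQ : ¬ Q ≤ T) :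
    Nat.card ↥Q = 2 * Nat.card ↥(Q.subgroupOf T) := by
  obtain ⟨a, haQ, haT⟩ := SetLike.not_le_iff_exists.1 hQ
  have h2 : (T.subgroupOf Q).index = 2 := by
    refine Subgroup.index_eq_two_iff.2 ⟨⟨a, haQ⟩, fun b => ?_⟩
    simp only [Subgroup.mem_subgroupOf, Subgroup.coe_mul, Subgroup.mul_mem_iff_of_index_two hidx,
      iff_false_right haT]
    by_cases hb : (b : K) ∈ T <;> simp [hb, haT]
  rw [← (T.subgroupOf Q).card_mul_index, h2, mul_comm]
  congr 1
  rw [← Subgroup.inf_subgroupOf_left, Nat.card_congr (Subgroup.subgroupOfEquivOfLe inf_le_left).toEquiv,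
    ← Subgroup.inf_subgroupOf_right Q T,
    Nat.card_congr (Subgroup.subgroupOfEquivOfLe inf_le_right).toEquiv]

/-- Two parabolic subgroups of incomparable orders, cut out by a normal subgroup of index two. -/
theorem index_two_twoStable [Finite K] [Fact (Nat.Prime 2)] {n0 : P.N}
    (hn0 : ∀ y ∈ P.B, (n0 : K) * y * (n0 : K)⁻¹ ∈ P.B → y = 1) [T.Normal]
    (hB : IsPGroup 2 P.B) (hidx : T.index = 2) (hinv : ∀ x : K, x * x = 1 → x ∈ T)
    (hBT : ¬ P.B ≤ T) (hnc : ∀ s : P.S, ∃ t : P.S, σ P s * σ P t ≠ σ P t * σ P s)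
    (hodd : ¬ 2 ∣ ((P.B ⊓ T).subgroupOf T).index) (s0 s1 : P.S) (h01 : s0 ≠ s1)
    (hS2 : ∀ s : P.S, s = s0 ∨ s = s1)
    (hdvd : ¬ Nat.card ↥(P.parabolic {(s0 : K)}) ∣ Nat.card ↥(P.parabolic {(s1 : K)}) ∧
      ¬ Nat.card ↥(P.parabolic {(s1 : K)}) ∣ Nat.card ↥(P.parabolic {(s0 : K)})) :
    Has .twoStable 2 ↥T := by
  classical
  let L : P.S → Subgroup ↥T := fun s => (P.parabolic {(s : K)}).subgroupOf T
  set U0 : Subgroup ↥T := (P.B ⊓ T).subgroupOf T with hU0
  have hU0L : ∀ s, U0 ≤ L s := fun s => fun x hx =>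
    Subgroup.mem_subgroupOf.2 (B_le_parabolic P _ (Subgroup.mem_subgroupOf.1 hx).1)
  have hoff : ∀ {s t : P.S}, s ≠ t → (s : K) ∉ P.parabolic {(t : K)} := fun {s t} h hm =>
    h (Subtype.ext ((mem_parabolic_of_mem P (Set.singleton_subset_iff.2 t.2) s).1 hm))
  have hhalf : ∀ {s : P.S} {Q : Subgroup K}, P.B ≤ Q → L s ≤ Q.subgroupOf T →
      P.parabolic {(s : K)} ≤ Q := by
    intro s Q hQ h x hx
    obtain ⟨b, hb, hbT⟩ := SetLike.not_le_iff_exists.1 hBT
    by_cases hxT : x ∈ T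
    · exact h (x := ⟨x, hxT⟩) hx
    · have hxb : x * b ∈ T := (Subgroup.mul_mem_iff_of_index_two hidx).2 (iff_of_false hxT hbT)
      have h1 : x * b ∈ Q := h (x := ⟨_, hxb⟩) (mul_mem hx (B_le_parabolic P _ hb))
      simpa using mul_mem h1 (inv_mem (hQ hb))
  have hne : ∀ s, L s ≠ ⊤ := fun s htop => by
    obtain ⟨t, ht⟩ : ∃ t, t ≠ s := (hS2 s).elim (fun e => ⟨s1, e ▸ h01.symm⟩) (fun e => ⟨s0, e ▸ h01⟩)
    exact hoff ht (hhalf (s := t) (B_le_parabolic P _) (le_top.trans htop.ge) (subset_parabolic P _ rfl))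
  have hcases : ∀ M : Subgroup ↥T, U0 ≤ M → M ≠ ⊤ → ∃ s, M ≤ L s := by
    intro M hM hMne
    obtain ⟨s, hs⟩ := overgroup_cases hn0 hB hidx hinv hBT hnc (M := M.map T.subtype)
      (Subgroup.map_subtype_le M)
      (fun x hx => ⟨⟨x, hx.2⟩, hM (Subgroup.mem_subgroupOf.2 hx), rfl⟩)
      (fun h => hMne (Subgroup.map_injective T.subtype_injective
        (by rw [← MonoidHom.range_eq_map, Subgroup.range_subtype]; exact h)))
    obtain ⟨t, ht⟩ : ∃ t : P.S, P.S \ {(s : K)} ⊆ {(t : K)} := by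
      rcases hS2 s with e | e <;> subst e
      · exact ⟨s1, fun x hx => ((hS2 ⟨x, hx.1⟩).resolve_left fun e => hx.2 (congrArg Subtype.val e))
          |> congrArg Subtype.val⟩
      · exact ⟨s0, fun x hx => ((hS2 ⟨x, hx.1⟩).resolve_right fun e => hx.2 (congrArg Subtype.val e))
          |> congrArg Subtype.val⟩
    exact ⟨t, fun m hm => Subgroup.mem_subgroupOf.2 (parabolic_mono P ht (hs ⟨m, hm, rfl⟩))⟩
  have hcard : ∀ s : P.S, Nat.card ↥(P.parabolic {(s : K)}) = 2 * Nat.card ↥(L s) := fun s =>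
    card_inf_index_two hidx fun h => hBT ((B_le_parabolic P _).trans h)
  have hst : ∀ s, Stable 2 U0 (L s) := by
    intro s α _ hα
    have hc : Nat.card ↥((L s).map α.toMonoidHom) = Nat.card ↥(L s) :=
      Subgroup.card_map_of_injective α.injective
    obtain ⟨t, ht⟩ := hcases _ (hα ▸ Subgroup.map_mono (hU0L s)) (map_ne_top α (hne s))
    have hd := Subgroup.card_dvd_of_le ht
    rw [hc] at hd
    have hst' : t = s := by
      have hd' : Nat.card ↥(P.parabolic {(s : K)}) ∣ Nat.card ↥(P.parabolic {(t : K)}) := by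
        rw [hcard, hcard]; exact Nat.mul_dvd_mul_left 2 hd
      rcases hS2 s with rfl | rfl <;> rcases hS2 t with rfl | rfl
      · rfl
      · exact absurd hd' hdvd.1
      · exact absurd hd' hdvd.2
      · rfl
    subst hst'
    exact Subgroup.eq_of_le_of_card_ge ht hc.ge
  refine ⟨((hB.to_le inf_le_left).comap_of_injective T.subtype T.subtype_injective).toSylow hodd,
    L s0, L s1, hU0L _, hU0L _, hne _, hne _, ?_, hst _, hst _⟩
  by_contra hM
  obtain ⟨t, ht⟩ := hcases _ ((hU0L s0).trans le_sup_left) hM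
  rcases hS2 t with rfl | rfl
  · exact hoff h01.symm (hhalf (B_le_parabolic P _) (le_sup_right.trans ht) (subset_parabolic P _ rfl))
  · exact hoff h01 (hhalf (B_le_parabolic P _) (le_sup_left.trans ht) (subset_parabolic P _ rfl))

end Main

end Cfsg.Agent.PMinLie
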